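import Cfsg.Agent.H42.PcDefs
import Cfsg.Agent.S0205

/-! Project PC, piece FIN: the local configuration is solvable. -/

set_option autoImplicit false

namespace Cfsg.Agent.H44.PcFin

open Subgroup Cfsg.Agent.H42.Pc

universe u

theorem fin (ab : AbStmt.{u}) (c2 : C2Stmt.{u}) (pick : PickStmt.{u}) (ww : WStmt.{u})
    (q2 : Q2Stmt.{u}) (endd : EndStmt.{u}) : FinStmt.{u} := by
  intro G _ _ T cf hc
  obtain ⟨U, h⟩ := c2 G T cf hc
  have := h.nU
  have : Fact (Nat.Prime 2) := ⟨Nat.prime_two⟩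
  rcases Nat.even_or_odd U.index with he | ho
  · exfalso
    obtain ⟨P⟩ : Nonempty (Sylow 2 G) := inferInstance
    obtain ⟨t, -, htU, ht2, -⟩ := pick G U P he
    obtain ⟨hn, hle, -⟩ := ab G T U h
    have hne : Sq T ≠ ⊥ := fun e => by
      have h1 := h.sq _ ht2
      rw [e, mem_bot] at h1
      exact htU ((h.mem t).2 (cf.ni _ h1))
    obtain ⟨W, hW, hWZ, hZW, hx⟩ := ww G U (Sq T) h.nU hn h.pU (hle.trans h.le) hne
    obtain ⟨h1, h2, h3⟩ := q2 G T U W h (hWZ.trans hle)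
    have h4 := endd (G ⧸ W) _ _ h1 (h2 ▸ he) (by
      rw [h3]
      rintro _ ⟨x, hx', rfl⟩
      refine ⟨?_, ?_⟩
      · rw [← map_mul]
        exact (QuotientGroup.eq_one_iff _).2 (hx x hx').1
      · rintro _ ⟨a, ha, rfl⟩
        have h5 : (QuotientGroup.mk' W) (x⁻¹ * (a * x * a⁻¹)) = 1 :=
          (QuotientGroup.eq_one_iff _).2 ((hx x hx').2 a ha)
        rw [map_mul, map_mul, map_mul, map_inv, map_inv, inv_mul_eq_one, eq_mul_inv_iff_mul_eq] at h5
        exact h5)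
    rw [h3, Subgroup.map_eq_bot_iff, QuotientGroup.ker_mk'] at h4
    exact hZW h4
  · have h1 : Group.IsSolvable (G ⧸ U) := Cfsg.Agent.S0205.result ho
    have h2 : Group.IsNilpotent U := h.pU.isNilpotent
    exact Group.isSolvable_of_ker_le_range U.subtype (QuotientGroup.mk' U) (by simp)

end Cfsg.Agent.H44.PcFin
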