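import Mathlib
import Cfsg.Agent.H98.GbG
import Cfsg.Agent.H14.Induce

/-! Twisted induction from the kernel of a linear character: Parseval's identity. -/

set_option autoImplicit false

namespace Cfsg.Agent.H44.GbConc

open Cfsg Cfsg.Agent.H98.GB Cfsg.Agent.H14 Finset
open scoped ComplexConjugate

universe u

variable {G : Type u} [Group G] [Fintype G]

theorem key (K : Subgroup G) [Fintype K] (m : G →* ℂˣ) (f f' : K → ℂ) :
    classInner (av K m f) (av K m f') =
      (Nat.card K : ℂ)⁻¹ * ∑ z, (m z : ℂ) * classInner (cj K z f) f' := by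
  have hm : ∀ y, conj (m y : ℂ) = m y⁻¹ := fun y =>
    H11.conj_apply (H11.isCharacter_of_irr (H11.isIrrCharacter_monoidHom m)) y
  have h1 : ∀ z, classInner (cj K z f) f' = (Nat.card K : ℂ)⁻¹ *
      ∑ h, extendByZero K f (z⁻¹ * h * z) * conj (extendByZero K f' h) := fun z => by
    have := sum_extendByZero_mul K (fun k => conj (f' k)) fun h => extendByZero K f (z⁻¹ * h * z)
    simp only [extendByZero_conj] at this
    rw [classInner]
    simp only [mul_comm _ (conj _), this, cj]
  have h2 : ∀ y, ∑ g, ∑ x, (m x : ℂ) * extendByZero K f (x⁻¹ * g * x) *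
      ((m y⁻¹ : ℂ) * conj (extendByZero K f' (y⁻¹ * g * y))) =
      ∑ z, (m z : ℂ) * ∑ h, extendByZero K f (z⁻¹ * h * z) * conj (extendByZero K f' h) := fun y => by
    rw [← Equiv.sum_comp (MulAut.conj y).toEquiv, sum_comm, ← Equiv.sum_comp (Equiv.mulLeft y)]
    refine sum_congr rfl fun z _ => ?_
    rw [mul_sum]
    refine sum_congr rfl fun h _ => ?_
    change (m (y * z) : ℂ) * extendByZero K f ((y * z)⁻¹ * (y * h * y⁻¹) * (y * z)) *
      ((m y⁻¹ : ℂ) * conj (extendByZero K f' (y⁻¹ * (y * h * y⁻¹) * y))) = _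
    rw [show (y * z)⁻¹ * (y * h * y⁻¹) * (y * z) = z⁻¹ * h * z by group,
      show y⁻¹ * (y * h * y⁻¹) * y = h by group, map_mul, map_inv, Units.val_mul,
      Units.val_inv_eq_inv_val]
    field_simp
  have h3 : ∀ g, av K m f g * conj (av K m f' g) = (Nat.card K : ℂ)⁻¹ * (Nat.card K : ℂ)⁻¹ *
      ∑ y, ∑ x, (m x : ℂ) * extendByZero K f (x⁻¹ * g * x) *
        ((m y⁻¹ : ℂ) * conj (extendByZero K f' (y⁻¹ * g * y))) := fun g => by
    rw [av, av, map_mul, map_sum, map_inv₀, map_natCast, sum_comm, ← sum_mul_sum]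
    simp only [map_mul, hm]
    ring
  rw [classInner]
  simp only [h3, h1]
  rw [← mul_sum, sum_comm]
  simp only [h2, mul_left_comm _ (Nat.card K : ℂ)⁻¹]
  rw [← mul_sum, sum_const, card_univ, ← Nat.card_eq_fintype_card, nsmul_eq_mul]
  have := card_group_ne_zero G
  field_simp

theorem geo (l : G →* ℂˣ) (x : G) [Decidable (x ∈ l.ker)] :
    ∑ j ∈ range (Nat.card G), (l x : ℂ) ^ j = if x ∈ l.ker then (Nat.card G : ℂ) else 0 := by
  split_ifs with h
  · simp [MonoidHom.mem_ker.1 h]
  · have h1 : (l x : ℂ) - 1 ≠ 0 := sub_ne_zero.2 fun e => h (Units.val_eq_one.1 e)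
    refine (mul_eq_zero.1 ?_).resolve_right h1
    rw [geom_sum_mul, ← Units.val_pow_eq_pow_val, ← map_pow, pow_card_eq_one', map_one, Units.val_one,
      sub_self]

theorem inv (l : G →* ℂˣ) [Fintype l.ker] {f : l.ker → ℂ} (hf : IsClassFunction l.ker f)
    (f' : l.ker → ℂ) (x : G) :
    ∑ j ∈ range (Nat.card G), (l x⁻¹ : ℂ) ^ j * classInner (av l.ker (l ^ j) f) (av l.ker (l ^ j) f') =
      Nat.card G * classInner (cj l.ker x f) f' := by
  classical
  simp only [key, mul_left_comm _ (Nat.card l.ker : ℂ)⁻¹, mul_sum]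
  rw [sum_comm, ← Equiv.sum_comp (Equiv.mulLeft x)]
  have h1 : ∀ z, ∑ j ∈ range (Nat.card G), (Nat.card l.ker : ℂ)⁻¹ * ((l x⁻¹ : ℂ) ^ j *
      (((l ^ j) (Equiv.mulLeft x z) : ℂ) * classInner (cj l.ker (Equiv.mulLeft x z) f) f')) =
      extendByZero l.ker (fun _ => 1) z *
        ((Nat.card l.ker : ℂ)⁻¹ * (Nat.card G * classInner (cj l.ker x f) f')) := fun z => by
    have e : ∀ j, (l x⁻¹ : ℂ) ^ j * ((l ^ j) (Equiv.mulLeft x z) : ℂ) = (l z : ℂ) ^ j := fun j => by
      rw [MonoidHom.pow_apply, Units.val_pow_eq_pow_val, ← mul_pow, ← Units.val_mul, ← map_mul]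
      simp
    simp only [← mul_assoc _ _ (classInner _ _), e]
    simp only [mul_assoc]
    rw [← mul_sum, ← sum_mul, geo, extendByZero_eq_dite]
    split_ifs with hz
    · have : cj l.ker (Equiv.mulLeft x z) f = cj l.ker x f := funext fun k => by
        rw [cj, cj, ← extendByZero_conj_of_mem' l.ker hf (x⁻¹ * k * x) hz]
        simp [mul_assoc]
      rw [this, one_mul]
    · simp
  simp only [h1]
  rw [← sum_mul, sum_extendByZero, sum_const, card_univ, ← Nat.card_eq_fintype_card, nsmul_eq_mul]
  have := card_subgroup_ne_zero l.ker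
  field_simp

theorem conc : CONCStmt.{u} := by
  intro G _ _ l _
  classical
  have c0 := card_group_ne_zero G
  refine ⟨fun f χ hf h1 h2 => ?_, fun f f' hf _ h x hx => ?_, fun p l' f => ?_⟩
  · have e : indFun l.ker f = χ.1 := by
      rw [← h2]; funext g; simp [av, indFun]
    have h3 := inv l (H11.isClassFunction_of_isGen hf) f 1
    have h4 : cj l.ker 1 f = f := funext fun k => by simp [cj, extendByZero_coe]
    simp only [h1, h4, inv_one, map_one, Units.val_one, one_pow, mul_one, sum_const, card_range,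
      nsmul_eq_mul] at h3
    have h5 : classInner f f = 1 := mul_left_cancel₀ c0 (h3.symm.trans (mul_one _).symm)
    refine ⟨(H11.irr_or_neg_of_classInner_self hf h5).resolve_right fun hn => ?_, ?_, funext fun g => ?_⟩
    · obtain ⟨n, hn0, e1⟩ := H11.exists_pos_degree hn
      obtain ⟨k, -, e2⟩ := H11.exists_pos_degree χ.2
      have e3 : f 1 = -n := by rw [← e1]; simp
      rw [← e, indFun_apply] at e2
      simp only [mul_one, inv_mul_cancel, extendByZero_of_mem l.ker f (one_mem _), sum_const, card_univ,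
        nsmul_eq_mul] at e2
      rw [show (⟨1, one_mem _⟩ : l.ker) = 1 from rfl, e3,
        inv_mul_eq_iff_eq_mul₀ (card_subgroup_ne_zero _)] at e2
      have e4 : ((Nat.card l.ker * k + Fintype.card G * n : ℕ) : ℂ) = 0 := by
        push_cast; linear_combination -e2
      have := Nat.mul_pos (Fintype.card_pos (α := G)) hn0
      rw [Nat.cast_eq_zero] at e4
      omega
    · rw [H22.over_iff_ind _ (H11.isClassFunction_of_irr χ.2), e, H11.classInner_irr_self χ.2]
      exact one_ne_zero
    · rw [lm]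
      by_cases hg : g ∈ l.ker
      · rw [MonoidHom.mem_ker.1 hg, Units.val_one, one_mul]
      · rw [← e, indFun_apply, sum_eq_zero fun x _ => extendByZero_of_not_mem _ _ fun h => hg (by
          simpa [mul_assoc] using (inferInstance : l.ker.Normal).conj_mem _ h x)]
        simp
  · have h3 := inv l hf f' x
    simp only [h] at h3
    rw [← sum_mul, geo, if_neg (by rwa [inv_mem_iff]), zero_mul] at h3
    exact (mul_eq_zero.1 h3.symm).resolve_left c0
  · funext g
    have o : ∀ x : G, ∀ h : x⁻¹ * g * x ∈ l.ker,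
        IsPRegular p (⟨_, h⟩ : l.ker) ↔ IsPRegular p g := fun x h => by
      have := (MulAut.conj x⁻¹).orderOf_eq g
      rw [IsPRegular, IsPRegular, ← Subgroup.orderOf_coe, ← this]
      simp
    by_cases hg : IsPRegular p g
    · rw [pRegularPart, if_pos hg, av, av]
      congr 1
      refine sum_congr rfl fun x _ => ?_
      rw [extendByZero_eq_dite, extendByZero_eq_dite]
      split_ifs with h
      · rw [pRegularPart, if_pos ((o x h).2 hg)]
      · rfl
    · rw [pRegularPart, if_neg hg, av, sum_eq_zero fun x _ => ?_, mul_zero]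
      rw [extendByZero_eq_dite]
      split_ifs with h
      · rw [pRegularPart, if_neg fun e => hg ((o x h).1 e), mul_zero]
      · rw [mul_zero]

end Cfsg.Agent.H44.GbConc
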