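import Mathlib
import Cfsg.Prelude.Def_Classical
import Cfsg.Prelude.Def_LocalEven
import Cfsg.Prelude.Def_Sz
import Cfsg.Prelude.Def_Spor_Mathieu
import Cfsg.Prelude.Def_Spor_J1

/-!
Project CK (simple groups with 9, 10, 11 conjugacy classes): the list of known groups and their
class numbers.
-/

set_option autoImplicit false

namespace Cfsg.Agent.H44.CK

universe u

/-- The class number. -/
noncomputable abbrev kk (G : Type u) [Group G] : ℕ := Nat.card (ConjClasses G)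

/-- The known groups. -/
inductive Known (G : Type u) [Group G] : Prop
  | l2 (F : Type) [Field F] [Fintype F] :
      Nonempty (G ≃* Matrix.ProjectiveSpecialLinearGroup (Fin 2) F) → Known G
  | l3 (F : Type) [Field F] [Fintype F] : 3 ≤ Fintype.card F →
      Nonempty (G ≃* Matrix.ProjectiveSpecialLinearGroup (Fin 3) F) → Known G
  | u3 (F : Type) [Field F] [Fintype F] (q : ℕ) : Fintype.card F = q ^ 2 → 3 ≤ q →
      Nonempty (G ≃* Cfsg.PSU 3 F q) → Known G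
  | sz : Cfsg.Lie.IsoSuzuki G → Known G
  | a7 : Nonempty (G ≃* alternatingGroup (Fin 7)) → Known G
  | m11 : Cfsg.Spor.IsoM11 G → Known G
  | ree : Cfsg.IsReeType G → Known G
  | j1 : Cfsg.Spor.IsoJ1 G → Known G

/-- `k(L₂(q)) = (q + 5) / 2` for `q` odd and `q + 1` for `q` even. -/
def K2Stmt : Prop :=
  ∀ (F : Type) [Field F] [Fintype F],
    (Odd (Fintype.card F) →
      2 * kk (Matrix.ProjectiveSpecialLinearGroup (Fin 2) F) = Fintype.card F + 5) ∧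
    (Even (Fintype.card F) →
      kk (Matrix.ProjectiveSpecialLinearGroup (Fin 2) F) = Fintype.card F + 1)

/-- `k(L₃(3)) = 12`. -/
def K33Stmt : Prop :=
  ∀ (F : Type) [Field F] [Fintype F], Fintype.card F = 3 →
    12 ≤ kk (Matrix.ProjectiveSpecialLinearGroup (Fin 3) F)

/-- `k(L₃(4)) = 10`. -/
def K34Stmt : Prop :=
  ∀ (F : Type) [Field F] [Fintype F], Fintype.card F = 4 →
    kk (Matrix.ProjectiveSpecialLinearGroup (Fin 3) F) ≠ 9 ∧
    kk (Matrix.ProjectiveSpecialLinearGroup (Fin 3) F) ≠ 11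

/-- `k(U₃(3)) = 14`. -/
def KU3Stmt : Prop :=
  ∀ (F : Type) [Field F] [Fintype F], Fintype.card F = 3 ^ 2 → 12 ≤ kk (Cfsg.PSU 3 F 3)

/-- `k(U₃(5)) = 14`. -/
def KU5Stmt : Prop :=
  ∀ (F : Type) [Field F] [Fintype F], Fintype.card F = 5 ^ 2 → 12 ≤ kk (Cfsg.PSU 3 F 5)

/-- `L₃(q)` with `q ≥ 5` and `U₃(q)` with `q = 4` or `q ≥ 6`. -/
def KGenStmt : Prop :=
  (∀ (F : Type) [Field F] [Fintype F], 5 ≤ Fintype.card F →
    12 ≤ kk (Matrix.ProjectiveSpecialLinearGroup (Fin 3) F)) ∧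
  ∀ (F : Type) [Field F] [Fintype F] (q : ℕ), Fintype.card F = q ^ 2 → q = 4 ∨ 6 ≤ q →
    12 ≤ kk (Cfsg.PSU 3 F q)

/-- `k(Sz(q)) = q + 3`. -/
def KSzStmt : Prop :=
  ∀ (F : Type) [Field F] [Fintype F] (m : ℕ), 1 ≤ m → Fintype.card F = 2 ^ (2 * m + 1) →
    kk ↥(Cfsg.Lie.Sz F (2 ^ (m + 1))) = Fintype.card F + 3

/-- `k(A₇) = 9`. -/
def KA7Stmt : Prop :=
  kk ↥(alternatingGroup (Fin 7)) ≠ 10 ∧ kk ↥(alternatingGroup (Fin 7)) ≠ 11

/-- `k(M₁₁) = 10`. -/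
def KM11Stmt : Prop := kk ↥Cfsg.Spor.M11 ≠ 9 ∧ kk ↥Cfsg.Spor.M11 ≠ 11

/-- `k(J₁) = 15`. -/
def KJ1Stmt : Prop := 12 ≤ kk ↥Cfsg.Spor.J1

/-- Groups of Ree type. -/
def KReeStmt : Prop :=
  ∀ (G : Type u) [Group G] [Finite G], Cfsg.IsReeType G → 12 ≤ kk G

/-- Sylow 2-subgroups of order at most 32. -/
def Red64Stmt : Prop :=
  ∀ (G : Type u) [Group G] [Finite G] [IsSimpleGroup G], ¬ IsMulCommutative G →
    ¬ 64 ∣ Nat.card G → Known G

end Cfsg.Agent.H44.CK
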