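import Cfsg.Agent.H9.C3Defs
import Cfsg.Agent.S0023
import Cfsg.Agent.S0058

/-! The subgroups normalized by a Sylow 3-subgroup. -/

set_option autoImplicit false

namespace Cfsg.Agent.H44.C3K2a

open Subgroup Cfsg.Agent.H9.C3

universe u

variable {G : Type u} [Group G] [Finite G]

instance f3 : Fact (Nat.Prime 3) := ⟨Nat.prime_three⟩

omit [Finite G] in
theorem ord3 (h : Kit1 G) (P : Sylow 3 G) {x : G} (hx : x ∈ (P : Subgroup G)) (h1 : x ≠ 1) :
    orderOf x = 3 := orderOf_eq_prime (h.cube P x hx) h1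

theorem exists_out (h : Kit1 G) (P : Sylow 3 G) {x : G} (hx : orderOf x = 3) :
    ∃ y ∈ (P : Subgroup G), y ∉ zpowers x := by
  by_contra hn
  push Not at hn
  have := card_le_of_le (show (P : Subgroup G) ≤ zpowers x from hn)
  rw [h.c9, Nat.card_zpowers, hx] at this
  omega

theorem gen58 (h : Kit1 G) (P : Sylow 3 G) {K : Subgroup G} (hK : (P : Subgroup G) ≤ Nm K)
    (h3 : ¬ 3 ∣ Nat.card K) :
    (⨆ a ∈ {a : G | a ∈ (P : Subgroup G) ∧ a ≠ 1}, K ⊓ centralizer {a}) = K := by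
  have : IsMulCommutative (P : Subgroup G) :=
    ⟨⟨fun a b => Subtype.ext (h.comm P a a.2 b b.2)⟩⟩
  refine S0058.result _ K (fun hc => ?_) hK ?_
  · obtain ⟨g, hg⟩ := hc.exists_ofOrder_eq_natCard
    have : orderOf g ∣ 3 := orderOf_dvd_of_pow_eq_one (Subtype.ext (h.cube P g g.2))
    rw [hg, h.c9] at this
    omega
  · rw [h.c9]
    exact ((Nat.prime_three.coprime_iff_not_dvd).2 h3).pow_left 2

theorem cop (h : Kit1 G) : Cop G := by
  intro P K hK h0
  have h3 : ¬ 3 ∣ Nat.card K := by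
    rintro ⟨m, hm⟩
    have := card_subgroup_dvd_card (K ⊔ (P : Subgroup G))
    rw [H4.card_sup_of_le_normalizer hK (disjoint_iff.2 h0), hm, h.c9] at this
    exact h.ord.n27 (Dvd.dvd.trans ⟨m, by ring⟩ this)
  refine IsPGroup.of_card (Nat.eq_prime_pow_of_unique_prime_dvd Nat.card_pos.ne' ?_)
  intro p hp hd
  by_contra h2
  have := Fact.mk hp
  have : IsMulCommutative (P : Subgroup G) :=
    ⟨⟨fun a b => Subtype.ext (h.comm P a a.2 b b.2)⟩⟩
  obtain ⟨Q, hQ⟩ := S0023.result (P : Subgroup G) K hK (by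
    rw [h.c9]
    exact ((Nat.prime_three.coprime_iff_not_dvd).2 h3).pow_left 2)
    (Or.inl (Group.isSolvable_of_comm fun a b => Subtype.ext (h.comm P a a.2 b b.2))) p
  have hle : (Q : Subgroup K).map K.subtype ≤ K := map_subtype_le _
  have h3' : ¬ 3 ∣ Nat.card ((Q : Subgroup K).map K.subtype) := fun hh =>
    h3 (hh.trans (card_dvd_of_le hle))
  have hb : (Q : Subgroup K).map K.subtype = ⊥ := by
    rw [← gen58 h P hQ h3', eq_bot_iff]
    refine iSup₂_le fun a ha g hg => ?_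
    obtain ⟨k, hk⟩ := (IsPGroup.iff_orderOf.1 (Q.isPGroup'.map K.subtype)) ⟨g, hg.1⟩
    rw [← orderOf_coe] at hk
    have ho : orderOf g ∣ Nat.card K := orderOf_dvd_natCard _ (hle hg.1)
    have hc : Commute g a := (mem_centralizer_singleton_iff.1 hg.2)
    have e := hc.orderOf_mul_eq_mul_orderOf_of_coprime (by
      rw [ord3 h P ha.1 ha.2]
      exact ((Nat.prime_three.coprime_iff_not_dvd).2 fun hh => h3 (hh.trans ho)).symm)
    rw [ord3 h P ha.1 ha.2] at e
    rcases h.ord.o6 (g * a) (e ▸ dvd_mul_left _ _) with e' | e'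
    · exact orderOf_eq_one_iff.1 (by omega)
    · have : (2 : ℕ) ∣ p ^ k := hk ▸ ⟨1, by simp only; omega⟩
      exact absurd ((Nat.prime_dvd_prime_iff_eq Nat.prime_two hp).1
        (Nat.prime_two.dvd_of_dvd_pow this)).symm h2
  exact Q.ne_bot_of_dvd_card hd ((map_eq_bot_iff_of_injective _ K.subtype_injective).1 hb)

theorem gen (h : Kit1 G) : Gen G := by
  intro P K hK h2
  have h3 : ¬ 3 ∣ Nat.card K := by
    obtain ⟨n, hn⟩ := IsPGroup.iff_card.1 h2
    rw [hn]
    exact fun hh => absurd (Nat.prime_three.dvd_of_dvd_pow hh) (by decide)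
  refine (gen58 h P hK h3).symm.le.trans (iSup₂_le fun a ha => ?_)
  have oa := ord3 h P ha.1 ha.2
  have le : K ⊓ centralizer {a} ≤ VV a := fun g hg => by
    obtain ⟨k, hk⟩ := h2 ⟨g, hg.1⟩
    exact h.two a oa g k (mem_centralizer_singleton_iff.1 hg.2) (congrArg Subtype.val hk)
  by_cases hb : K ⊓ centralizer {a} = ⊥
  · rw [hb]; exact bot_le
  have c4 : Nat.card (VV a) = 4 := (h.card a oa).resolve_left fun e => hb (eq_bot_iff.2 (e ▸ le))
  obtain ⟨⟨v, hv⟩, v1⟩ := ne_bot_iff_exists_ne_one.1 hb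
  obtain ⟨y, hy, ya⟩ := exists_out h P oa
  have hw : y * v * y⁻¹ ∈ K ⊓ centralizer {a} := by
    refine ⟨(mem_normalizer_iff.1 (hK hy) v).1 hv.1, mem_centralizer_singleton_iff.2 ?_⟩
    have c1 : Commute y a := h.comm P y hy a ha.1
    have c2 : Commute v a := mem_centralizer_singleton_iff.1 hv.2
    exact (c1.mul_left c2).mul_left c1.inv_left
  have e : K ⊓ centralizer {a} = VV a := by
    refine eq_of_le_of_card_ge le ?_
    have d := card_dvd_of_le le
    rw [c4] at d ⊢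
    have n1 : Nat.card (K ⊓ centralizer {a} : Subgroup G) ≠ 1 := fun e => hb (card_eq_one.1 e)
    have n2 : Nat.card (K ⊓ centralizer {a} : Subgroup G) ≠ 2 := fun e => by
      obtain ⟨z, -, hz⟩ := (Nat.card_eq_two_iff' (1 : (K ⊓ centralizer {a} : Subgroup G))).1 e
      have e1 := hz _ v1
      have e2 := hz ⟨_, hw⟩ fun e => v1 (Subtype.ext (by
        simpa [mul_assoc] using congrArg (fun z => y⁻¹ * z.1 * y) e))
      have e3 : y * v * y⁻¹ = v := congrArg Subtype.val (e2.trans e1.symm)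
      exact v1 (Subtype.ext (h.fpf a y oa (ord3 h P hy fun e => ya (e ▸ one_mem _))
        (h.comm P a ha.1 y hy) ya v (le hv) (by rw [mul_inv_eq_iff_eq_mul] at e3; exact e3.symm)))
    have := Nat.le_of_dvd (by decide) d
    generalize Nat.card (K ⊓ centralizer {a} : Subgroup G) = n at *
    interval_cases n <;> omega
  exact le.trans (le_iSup₂_of_le (f := fun x (_ : x ∈ {x : G | x ∈ (P : Subgroup G) ∧ x ≠ 1 ∧
    VV x ≤ K}) => VV x) a ⟨ha.1, ha.2, e ▸ inf_le_left⟩ le_rfl)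

/-- **K2A** -/
theorem k2a : K2AStmt.{u} := fun _ _ _ h => ⟨cop h, gen h⟩

end Cfsg.Agent.H44.C3K2a
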