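import Cfsg.Agent.H53.DgDefs
import Cfsg.Agent.H36.McL2

/-! Opposite totally singular subspaces and elements of the Eichler group. -/

set_option autoImplicit false

namespace Cfsg.Agent.H44.DgOpp

open Module Cfsg.Agent.H26 Cfsg.Agent.H26.PForm Cfsg.Agent.H53.Dg

variable {F V : Type} [Field F] [AddCommGroup V] [Module F V] {P : PForm F V}
  {X : Submodule F V}

theorem top_mul (hX : TS P X) {a b : V ≃ₗ[F] V} (ha : Top P X a) (hb : Top P X b) :
    Top P X (a * b) := fun v hv => by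
  have h1 : b v ∈ P.perp X := by simpa using (P.perp X).add_mem (hX.2 (hb v hv)) hv
  have := X.add_mem (ha _ h1) (hb v hv)
  rwa [sub_add_sub_cancel] at this

theorem top_le (hX : TS P X) {a : V ≃ₗ[F] V} (ha : Top P X a) {x : V} (hx : x ∈ X) : a x ∈ X := by
  simpa using X.add_mem (ha x (hX.2 hx)) hx

theorem top_inv (hX : TS P X) {a : V ≃ₗ[F] V} (hi : a ∈ P.isom) (ha : Top P X a) :
    Top P X a⁻¹ := fun v hv => by
  have h1 : a⁻¹ v ∈ P.perp X := fun x hx => by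
    rw [← isom_f_right hi]; exact hv _ (top_le hX ha hx)
  have := X.neg_mem (ha _ h1)
  rwa [apply_inv_apply, neg_sub] at this

theorem rad_mul (hX : TS P X) {a b : V ≃ₗ[F] V} (ha : Rad P X a) (hb : Rad P X b) :
    Rad P X (a * b) :=
  ⟨fun x hx => by rw [mul_apply', hb.1 x hx, ha.1 x hx], top_mul hX ha.2 hb.2⟩

theorem rad_inv (hX : TS P X) {a : V ≃ₗ[F] V} (hi : a ∈ P.isom) (ha : Rad P X a) :
    Rad P X a⁻¹ :=
  ⟨fun x hx => by
    conv_lhs => rw [← ha.1 x hx]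
    exact inv_apply_apply a x, top_inv hX hi ha.2⟩

theorem top_eich {e y : V} {ν : F} (h : P.EV e y ν) (he : e ∈ X) : Top P X h.equiv :=
  fun v hv => by
    rw [EV.equiv_apply, eich_apply_of_orth _ _ (hv e he), sub_sub_cancel_left]
    exact X.neg_mem (X.smul_mem _ he)

theorem rad_eich (hX : TS P X) {e y : V} {ν : F} (h : P.EV e y ν) (he : e ∈ X)
    (hy : y ∈ P.perp X) : Rad P X h.equiv :=
  ⟨fun x hx => eich_apply_of_orth₂ _ _ (hX.2 hx e he) (f_of_mem_perp' hy hx), top_eich h he⟩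

theorem ts_mono {Y : Submodule F V} (hX : TS P X) (h : Y ≤ X) : TS P Y :=
  ⟨fun x hx => hX.1 x (h hx), h.trans (hX.2.trans (perp_anti h))⟩

theorem ts_map (hX : TS P X) {g : V ≃ₗ[F] V} (hg : g ∈ P.isom) : TS P (mp g X) :=
  ⟨by rintro _ ⟨x, hx, rfl⟩; exact (hX.1 x hx).map hg, by
    rintro _ ⟨x, hx, rfl⟩ _ ⟨y, hy, rfl⟩
    exact (isom_f hg x y).trans (hX.2 hx y hy)⟩

variable [FiniteDimensional F V]

theorem rad_mem_E (hX : TS P X) {g : V ≃ₗ[F] V} (hg : g ∈ P.isom) (h : Rad P X g) : g ∈ P.E := by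
  induction X using WellFoundedLT.induction generalizing g with
  | ind X ih =>
  by_cases h0 : X = ⊥
  · subst h0
    have : g = 1 := LinearEquiv.ext fun v => sub_eq_zero.1 (h.2 v (by rw [perp_bot]; trivial))
    exact this ▸ one_mem _
  obtain ⟨e, he, e0⟩ := Submodule.exists_mem_ne_zero_of_ne_bot h0
  obtain ⟨y, hy⟩ := P.exists_f_right_eq e0 1
  have hn : e ∉ X ⊓ P.perp (F ∙ y) := fun h => by
    have := mem_perp_span_singleton.1 h.2
    rw [hy] at this
    exact one_ne_zero this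
  have dec : ∀ x ∈ X, x - P.f x y • e ∈ X ⊓ P.perp (F ∙ y) := fun x hx =>
    ⟨X.sub_mem hx (X.smul_mem _ he), mem_perp_span_singleton.2 (by
      rw [f_sub_left, P.f_smul_left, hy, mul_one, sub_self])⟩
  obtain ⟨t, ht, st, h1⟩ := (hX.1 e he).exists_partner (S := X ⊓ P.perp (F ∙ y))
    (perp_anti inf_le_left (hX.2 he)) hn
  have h2 : P.f (g t) e = 1 := by rw [← h.1 e he, isom_f hg, h1]
  obtain ⟨ev, h3⟩ := exists_eich_map (hX.1 e he) st (st.map hg) h1 h2
  have r : Rad P X ev.equiv := rad_eich hX ev he fun x hx => by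
    rw [f_sub_left, ← h.1 x hx, isom_f hg, h.1 x hx, sub_self]
  have r1 := rad_mul hX (rad_inv hX ev.equiv_mem_isom r) h
  have i1 := mul_mem (inv_mem ev.equiv_mem_isom) hg
  have f1 : (ev.equiv⁻¹ * g) t = t :=
    (congrArg (fun z => ev.equiv⁻¹ z) h3.symm).trans (inv_apply_apply ev.equiv t)
  refine (mul_mem_cancel_left (inv_mem ev.equiv_mem_E)).1 (ih (X ⊓ P.perp (F ∙ y))
    (lt_of_le_of_ne inf_le_left fun e' => hn (e'.symm ▸ he)) (ts_mono hX inf_le_left) i1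
    ⟨fun x hx => r1.1 x hx.1, fun v hv => ?_⟩)
  generalize ev.equiv⁻¹ * g = k at r1 i1 f1
  have hv' : v - P.f v e • t ∈ P.perp X := fun x hx => by
    have a := hv _ (dec x hx)
    have b := ht _ (dec x hx)
    rw [f_sub_right, f_smul_right] at a b
    rw [f_sub_left, P.f_smul_left, sub_eq_zero.1 a, sub_eq_zero.1 b, h1]; ring
  have m := r1.2 _ hv'
  rw [map_sub, map_smul, f1, sub_sub_sub_cancel_right] at m
  have o : P.f (k v - v) t = 0 := by
    rw [f_sub_left, ← f1, isom_f i1, f1, sub_self]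
  have d := f_of_mem_perp' ht (dec _ m)
  rw [f_sub_left, P.f_smul_left, o, f_symm_one h1, zero_sub, neg_eq_zero,
    mul_eq_zero_iff_right P.ε_ne_zero] at d
  exact ⟨m, mem_perp_span_singleton.2 d⟩

theorem top_mem_E (hX : TS P X) {g : V ≃ₗ[F] V} (hg : g ∈ P.isom) (h : Top P X g)
    (hd : LinearMap.det (rs X g : X →ₗ[F] X) = 1) : g ∈ P.E := by
  have st : ∀ {u : V ≃ₗ[F] V}, Top P X u → u ∈ stabSub X := fun hu =>
    mem_stabSub.2 fun x hx => top_le hX hu hx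
  let H : Subgroup (X ≃ₗ[F] X) :=
    { carrier := {A | ∃ u ∈ P.E, Top P X u ∧ rs X u = A}
      one_mem' := ⟨1, one_mem _, fun v _ => by simp, rs_one X⟩
      mul_mem' := by
        rintro _ _ ⟨u, a1, a2, rfl⟩ ⟨w, b1, b2, rfl⟩
        exact ⟨u * w, mul_mem a1 b1, top_mul hX a2 b2, rs_mul (st a2) (st b2)⟩
      inv_mem' := by
        rintro _ ⟨u, a1, a2, rfl⟩
        refine ⟨u⁻¹, inv_mem a1, top_inv hX (E_le_isom a1) a2, eq_inv_of_mul_eq_one_left ?_⟩
        rw [← rs_mul (inv_mem (st a2)) (st a2), inv_mul_cancel, rs_one] }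
  obtain ⟨u, a1, a2, a3⟩ := H36.det_one_mem_of_transv H (fun θ z hz => by
    obtain ⟨φ, hφ⟩ := LinearMap.exists_extend θ
    obtain ⟨a, ha⟩ := P.exists_rep (-P.ε • φ)
    have h1 : ∀ x : X, P.f x a = -P.ε * θ x := fun x => by rw [ha, ← hφ]; rfl
    have ev : P.EV z a (P.h a) := EV.of_h (hX.1 z z.2) (f_symm_zero (by rw [h1, hz, mul_zero]))
    refine ⟨ev.equiv, ev.equiv_mem_E, top_eich ev z.2, LinearEquiv.ext fun x => Subtype.ext ?_⟩
    rw [rs_apply (st (top_eich ev z.2)), EV.equiv_apply, eich_apply_of_orth _ _ (hX.2 x.2 z z.2),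
      h1, neg_mul, mul_neg, ε_mul_ε_mul, neg_smul, sub_neg_eq_add]
    rfl) _ hd
  refine (mul_mem_cancel_left (inv_mem a1)).1 (rad_mem_E hX (mul_mem (inv_mem (E_le_isom a1)) hg)
    ⟨fun x hx => ?_, top_mul hX (top_inv hX (E_le_isom a1) a2) h⟩)
  have : g x = u x := by
    rw [← rs_apply (st h) ⟨x, hx⟩, ← a3, rs_apply (st a2)]
  rw [mul_apply', this, inv_apply_apply]

theorem opp_sup {X' : Submodule F V} (h : X ⊓ P.perp X' = ⊥) : P.perp X ⊔ X' = ⊤ := by
  rw [← perp_perp (P := P) X', ← perp_inf, h, perp_bot]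

theorem opp_symm {X' : Submodule F V} (d : finrank F X' = finrank F X) (h : X ⊓ P.perp X' = ⊥) :
    X' ⊓ P.perp X = ⊥ := by
  have h1 := Submodule.finrank_sup_add_finrank_inf_eq (P.perp X) X'
  have h2 := P.finrank_perp X
  rw [opp_sup h, finrank_top] at h1
  rw [inf_comm, ← Submodule.finrank_eq_zero]
  omega

theorem opp_trans (hX : TS P X) {X' X'' : Submodule F V} (h1 : TS P X') (h2 : TS P X'')
    (d1 : finrank F X' = finrank F X) (d2 : finrank F X'' = finrank F X)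
    (o1 : X ⊓ P.perp X' = ⊥) (o2 : X ⊓ P.perp X'' = ⊥) :
    ∃ u ∈ P.E, Rad P X u ∧ mp u X' = X'' := by
  generalize hD : X' ⊓ X'' = D
  induction D using WellFoundedGT.induction generalizing X' with
  | ind D ih =>
  subst hD
  by_cases hle : X' ≤ X''
  · exact ⟨1, one_mem _, ⟨fun _ _ => rfl, fun v _ => by simp⟩,
      (Submodule.map_id _).trans (Submodule.eq_of_le_of_finrank_eq hle (d1.trans d2.symm))⟩
  obtain ⟨s, hs, ns⟩ := SetLike.not_le_iff_exists.1 hle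
  obtain ⟨p, hp, t, ht, e1⟩ := Submodule.mem_sup.1 ((opp_sup o2).symm ▸ Submodule.mem_top (x := s))
  obtain ⟨y, hy, e2⟩ := P.exists_perp_f_right (W := X' ⊓ X'') (x := s) (fun h => ns h.2) 1
  obtain ⟨q, hq, e, he, e3⟩ :=
    Submodule.mem_sup.1 ((opp_sup (opp_symm d1 o1)).symm ▸ Submodule.mem_top (x := y))
  have a1 : P.f s e = 1 := by
    rw [← e2, ← e3, f_add_right, f_of_mem_perp' hq hs, zero_add]
  have a2 : t - s ∈ P.perp X := by
    rw [← e1, sub_add_cancel_right]; exact neg_mem hp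
  have a3 : P.f t e = 1 := by
    have := a2 e he
    rw [f_sub_left, a1] at this
    exact sub_eq_zero.1 this
  obtain ⟨ev, a4⟩ := exists_eich_map (hX.1 e he) (h1.1 s hs) (h2.1 t ht) a1 a3
  have r := rad_eich hX ev he a2
  have fx : ∀ d ∈ X' ⊓ X'', ev.equiv d = d := fun d hd => eich_apply_of_orth₂ _ _ (by
      have := f_of_mem_perp' hy hd
      rwa [← e3, f_add_right, f_of_mem_perp' hq hd.1, zero_add] at this)
    (by rw [f_sub_right, h2.2 hd.2 t ht, h1.2 hd.1 s hs, sub_self])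
  obtain ⟨u, b1, b2, b3⟩ := ih (mp ev.equiv X' ⊓ X'') (lt_of_le_of_ne
    (fun d hd => ⟨⟨d, hd.1, fx d hd⟩, hd.2⟩) fun e' => by
      have m : t ∈ X' ⊓ X'' := e'.symm ▸ ⟨⟨s, hs, a4⟩, ht⟩
      have : t - s ∈ X' ⊓ P.perp X := ⟨X'.sub_mem m.1 hs, a2⟩
      rw [opp_symm d1 o1, Submodule.mem_bot, sub_eq_zero] at this
      exact ns (this ▸ ht)) (ts_map h1 ev.equiv_mem_isom)
    ((LinearEquiv.finrank_map_eq _ _).trans d1) (eq_bot_iff.2 fun x hx => o1.le ⟨hx.1, fun w hw => by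
      rw [← isom_f ev.equiv_mem_isom, r.1 x hx.1]
      exact hx.2 _ ⟨w, hw, rfl⟩⟩) rfl
  exact ⟨u * ev.equiv, mul_mem b1 ev.equiv_mem_E, rad_mul hX b2 r,
    (Submodule.map_comp _ _ _).trans b3⟩

/-- **OPP** -/
theorem opp : OppStmt := fun _ _ _ _ _ _ _ _ _ _ hX =>
  ⟨fun _ _ => opp_trans hX, fun _ => rad_mem_E hX, fun _ => top_mem_E hX⟩

end Cfsg.Agent.H44.DgOpp
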