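import Cfsg.Agent.H6.E82Defs

/-! The composition factors of the Fitting components of `Eop` (piece `FIT2` of S5915). -/

set_option autoImplicit false

namespace Cfsg.Agent.H44.E82Fit2

open Cfsg.Agent.H6.E82 Module Finset

section
variable {W : Type} [AddCommGroup W] [Module K W] (ρ : SL →* Module.End K W)

theorem eop_mem {U : Submodule K W} (hU : Inv ρ U) (v : W) (hv : v ∈ U) : Eop ρ v ∈ U := by
  rw [Eop, LinearMap.sum_apply]
  exact U.sum_mem fun g _ => hU g v hv

theorem map_eop {U : Submodule K W} (Φ : W →ₗ[K] (SL → K))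
    (h : ∀ g, ∀ v ∈ U, Φ (ρ g v) = reg g (Φ v)) (v : W) (hv : v ∈ U) :
    Φ (Eop ρ v) = Eop reg (Φ v) := by
  rw [Eop, Eop, LinearMap.sum_apply, LinearMap.sum_apply, map_sum]
  exact sum_congr rfl fun g _ => h g v hv

end

theorem sp_ne (mono : MonoStmt) (p : Par) (r : ℕ) (hr : r < 64) : SP p r ≠ ⊥ := fun h => by
  have e := ((mono p).2 r hr).2.1
  rw [h, finrank_bot] at e
  have : 0 < dS r := card_pos.2 ⟨0, by simp [JS]⟩
  omega

theorem fit2 (mono : MonoStmt) (emod : EmodStmt) : Fit2Stmt := by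
  intro p W _ _ _ ρ U L h
  induction h with
  | nil => simp
  | @cons U U' L r _ hs ih =>
    obtain ⟨hr, hle, hinv, Φ, hΦ, hmap, hker⟩ := hs
    obtain ⟨f, hf, hf0⟩ := Submodule.exists_mem_ne_zero_of_ne_bot (sp_ne mono p r hr)
    have hE : ∀ v ∈ U', Φ (Eop ρ v) = if r = 63 then Φ v else 0 := fun v hv => by
      rw [map_eop ρ Φ hΦ v hv]
      exact (emod p).1 r hr _ (hmap ▸ Submodule.mem_map_of_mem hv)
    rw [← hmap] at hf
    obtain ⟨v, hv, rfl⟩ := hf
    refine ⟨fun ⟨n, hn⟩ hm => ?_, fun hi => ?_⟩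
    · rcases List.mem_cons.1 hm with h63 | h63
      · have key : ∀ k : ℕ, (Eop ρ ^ k) v ∈ U' ∧ Φ ((Eop ρ ^ k) v) = Φ v := fun k => by
          induction k with
          | zero => exact ⟨hv, rfl⟩
          | succ k ihk =>
            rw [pow_succ', Module.End.mul_apply]
            exact ⟨eop_mem ρ hinv _ ihk.1, by rw [hE _ ihk.1, if_pos h63.symm, ihk.2]⟩
        exact hf0 (by rw [← (key n).2, hn v hv, map_zero])
      · exact ih.1 ⟨n, fun a ha => hn a (hle ha)⟩ h63
    · intro s hs
      rcases List.mem_cons.1 hs with rfl | hs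
      · by_contra h63
        have hU : ∀ a ∈ U', Eop ρ a ∈ U := fun a ha =>
          (hker _ (eop_mem ρ hinv a ha)).1 (by rw [hE a ha, if_neg h63])
        have hinj : Function.Injective ((Eop ρ).restrict hU) := by
          rw [← LinearMap.ker_eq_bot, LinearMap.ker_eq_bot']
          intro a ha
          exact Subtype.ext (hi a a.2 (congrArg Subtype.val ha))
        have heq : U = U' := Submodule.eq_of_le_of_finrank_le hle
          (LinearMap.finrank_le_finrank_of_injective hinj)
        exact hf0 ((hker v hv).2 (heq ▸ hv))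
      · exact ih.2 (fun b hb => hi b (hle hb)) s hs

end Cfsg.Agent.H44.E82Fit2
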