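import Cfsg.Agent.H6.E82Defs

/-! Composition multiplicities of a submodule and its orthogonal complement (piece `PERP` of S5915). -/

set_option autoImplicit false
set_option maxRecDepth 100000

namespace Cfsg.Agent.H44.E82Perp

open Cfsg.Agent.H6.E82 Module Finset

section
variable {k W : Type*} [Field k] [AddCommGroup W] [Module k W]

/-- The projector on an eigenspace of an operator of finite order. -/
noncomputable def pj (T : Module.End k W) (n : ℕ) (c : k) (v : W) : W :=
  ∑ i ∈ range n, c ^ i • (T ^ i) v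

theorem pj_eig (T : Module.End k W) (n : ℕ) (hT : T ^ n = 1) (c d : k) (hcd : c * d = 1)
    (hc : c ^ n = 1) (v : W) : pj T n c v ∈ T.eigenspace d := by
  rw [Module.End.mem_eigenspace_iff]
  have h1 : c • T (pj T n c v) = pj T n c v := by
    have e : c • T (pj T n c v) = ∑ i ∈ range n, c ^ (i + 1) • (T ^ (i + 1)) v := by
      rw [pj, map_sum, smul_sum]
      refine sum_congr rfl fun i _ => ?_
      rw [map_smul, smul_smul, pow_succ' c, pow_succ' T, Module.End.mul_apply]
    have e2 := sum_range_succ' (fun i => c ^ i • (T ^ i) v) n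
    rw [sum_range_succ, hT, hc, pow_zero, pow_zero] at e2
    rw [e, pj]
    exact (add_right_cancel e2).symm
  calc T (pj T n c v) = d • c • T (pj T n c v) := by rw [smul_smul, mul_comm, hcd, one_smul]
    _ = d • pj T n c v := by rw [h1]

theorem pj_mem (T : Module.End k W) (n : ℕ) (c : k) (M : Submodule k W) (hM : ∀ v ∈ M, T v ∈ M)
    (v : W) (hv : v ∈ M) : pj T n c v ∈ M :=
  M.sum_mem fun i _ => M.smul_mem _ (by
    induction i with
    | zero => exact hv
    | succ i ih => rw [pow_succ', Module.End.mul_apply]; exact hM _ (ih (by simp_all; omega)))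

theorem pj_form (T : Module.End k W) (n : ℕ) (hn : (n : k) = 1) (B : LinearMap.BilinForm k W)
    (hB : ∀ a b, B (T a) (T b) = B a b) (c : k) (a : W) (ha : a ∈ T.eigenspace c) (v : W) :
    B a (pj T n c v) = B a v := by
  rw [Module.End.mem_eigenspace_iff] at ha
  have h : ∀ i : ℕ, B a (c ^ i • (T ^ i) v) = B a v := fun i => by
    induction i with
    | zero => simp
    | succ i ih =>
      rw [← ih, ← hB a (c ^ i • (T ^ i) v), ha]
      simp only [map_smul, LinearMap.smul_apply, pow_succ' T, Module.End.mul_apply, smul_eq_mul]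
      ring
  rw [pj, map_sum, sum_congr rfl fun i _ => h i, sum_const, card_range, nsmul_eq_mul, hn, one_mul]

theorem key [FiniteDimensional k W] (T : Module.End k W) (n : ℕ) (hn : (n : k) = 1) (hT : T ^ n = 1)
    (B : LinearMap.BilinForm k W) (hs : ∀ a b, B a b = B b a) (hd : ∀ a, (∀ b, B a b = 0) → a = 0)
    (hB : ∀ a b, B (T a) (T b) = B a b) (c d : k) (hcd : c * d = 1) (hc : c ^ n = 1)
    (M : Submodule k W) (hM : ∀ v ∈ M, T v ∈ M) :
    finrank k (⊤ ⊓ T.eigenspace d : Submodule k W) = finrank k (M ⊓ T.eigenspace c : Submodule k W) +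
      finrank k (B.orthogonal M ⊓ T.eigenspace d : Submodule k W) := by
  have hd' : d ^ n = 1 := by
    have := congrArg (· ^ n) hcd
    simpa [mul_pow, hc] using this
  have e1 : B.orthogonal (M ⊓ T.eigenspace c) ⊓ T.eigenspace d = B.orthogonal M ⊓ T.eigenspace d := by
    refine le_antisymm (fun v hv => ⟨fun a ha => ?_, hv.2⟩) fun v hv => ⟨fun a ha => hv.1 a ha.1, hv.2⟩
    have h := hv.1 (pj T n d a) ⟨pj_mem T n d M hM a ha, pj_eig T n hT d c (by rw [mul_comm, hcd]) hd' a⟩
    change B _ v = 0 at h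
    change B a v = 0
    rw [hs, ← pj_form T n hn B hB d v hv.2 a, hs, h]
  have e2 : B.orthogonal (M ⊓ T.eigenspace c) ⊔ T.eigenspace d = ⊤ := by
    refine eq_top_iff.2 fun v _ => ?_
    have : v = (v - pj T n c v) + pj T n c v := (sub_add_cancel _ _).symm
    rw [this]
    refine Submodule.add_mem_sup (fun a ha => ?_) (pj_eig T n hT c d hcd hc v)
    change B a _ = 0
    rw [map_sub, pj_form T n hn B hB c a ha.2, sub_self]
  have e3 := Submodule.finrank_sup_add_finrank_inf_eq (B.orthogonal (M ⊓ T.eigenspace c))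
    (T.eigenspace d)
  have e4 := LinearMap.BilinForm.finrank_add_finrank_orthogonal (B := B)
    (fun a b h => by rw [hs, h]) (M ⊓ T.eigenspace c)
  have e5 : B.orthogonal ⊤ = ⊥ := eq_bot_iff.2 fun v hv =>
    hd v fun b => by rw [hs]; exact hv b trivial
  rw [e5, inf_bot_eq, finrank_bot] at e4
  rw [e1, e2, finrank_top] at e3
  rw [top_inf_eq]
  omega

end

theorem ee_symm : (∀ r < 64, ∀ e < 65, EE 65 r ((65 - e) % 65) = EE 65 r e) ∧
    ∀ r < 64, ∀ e < 63, EE 63 r ((63 - e) % 63) = EE 63 r e := by decide +kernel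

theorem se_add (m1 m2 : ℕ → ℕ) (n e e' : ℕ) (h : ∀ r < 64, EE n r e' = EE n r e) :
    SE (fun r => m1 r + m2 r) n e = SE m1 n e' + SE m2 n e := by
  rw [SE, SE, SE, ← sum_add_distrib]
  exact sum_congr rfl fun r hr => by rw [h r (mem_range.1 hr), add_mul]

theorem pow_inv (x : K) (n e : ℕ) (hx : x ^ n = 1) (he : e < n) :
    x ^ ((n - e) % n) * x ^ e = 1 ∧ (x ^ ((n - e) % n)) ^ n = 1 := by
  refine ⟨?_, by rw [← pow_mul, mul_comm, pow_mul, hx, one_pow]⟩
  rw [← pow_eq_pow_mod _ hx, ← pow_add, Nat.sub_add_cancel he.le, hx]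

theorem odd_cast (n : ℕ) : ((2 * n + 1 : ℕ) : K) = 1 := by
  have : (2 : K) = 0 := CharTwo.two_eq_zero
  push_cast
  rw [this, zero_mul, zero_add]

theorem perp (par : ParStmt) (uni : UniStmt) : PerpStmt := by
  intro p W _ _ _ ρ B hB M m m1 m2 hM h h1 h2
  obtain ⟨ox, ot, -, hl, -⟩ := par.2 p
  have hθ : (p.θ : K) ^ 65 = 1 := by rw [← Units.val_pow_eq_pow_val, p.hθ.pow_eq_one, Units.val_one]
  have hlam : (lam p : K) ^ 63 = 1 := by rw [← Units.val_pow_eq_pow_val, hl.pow_eq_one, Units.val_one]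
  refine uni m (fun r => m1 r + m2 r) (fun e he => ?_) fun e he => ?_
  · rw [se_add m1 m2 65 e _ fun r hr => ee_symm.1 r hr e he, ← h.1 e he, ← h2.1 e he,
      ← h1.1 _ (Nat.mod_lt _ (by norm_num))]
    exact key (ρ (x0 p)) 65 (odd_cast 32) (by rw [← map_pow, ← ox, pow_orderOf_eq_one, map_one]) B
      hB.1 hB.2.1 (hB.2.2 _) _ _ (pow_inv _ 65 e hθ he).1 (pow_inv _ 65 e hθ he).2 M (hM _)
  · rw [se_add m1 m2 63 e _ fun r hr => ee_symm.2 r hr e he, ← h.2 e he, ← h2.2 e he,
      ← h1.2 _ (Nat.mod_lt _ (by norm_num))]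
    exact key (ρ (t0 p)) 63 (odd_cast 31) (by rw [← map_pow, ← ot, pow_orderOf_eq_one, map_one]) B
      hB.1 hB.2.1 (hB.2.2 _) _ _ (pow_inv _ 63 e hlam he).1 (pow_inv _ 63 e hlam he).2 M (hM _)

end Cfsg.Agent.H44.E82Perp
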