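import Mathlib
import Cfsg.Agent.H50.E83Defs2

/-! An involution inverting the element of order eleven has a large `-1`-eigenspace. -/

set_option autoImplicit false

namespace Cfsg.Agent.H44.E83Inv11

open Equiv Cfsg.Lie H37 H40 H34 H29 Module
open Cfsg.Agent.H50.E83
open scoped Matrix

theorem co_tab : ∀ r < 240, ∀ i < 8, co chevE8 r i = gt rcE8 r i := by decide +kernel

theorem co_rc (r : Rt) (i : Fin chevE8.rank) : co chevE8 r i = C8.R.rc r i := by
  rw [rc_eq C8 tabOKE8]; exact co_tab r r.2 i i.2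

/-- `f11` from the tables. -/
def g11 (r : ℕ) : ℤ := gt rcE8 r 0 + gt rcE8 r 1 + gt rcE8 r 6 + gt rcE8 r 7

theorem f11_eq (r : Rt) : f11 r = g11 r := by
  have h3 : ∀ r < 240, ∑ j : Fin 8, gt rcE8 r j * (([1, 1, 0, 0, 0, 0, 1, 1] : List ℕ).getD j 0 : ℕ)
      = g11 r := by decide +kernel
  simp only [f11, vN, rc_eq C8 tabOKE8]
  exact h3 r r.2

theorem z_tab : ∀ r < 240, g11 r % 11 = 0 → ∀ i ∈ [0, 1, 6, 7], co chevE8 r i = 0 := by
  decide +kernel

theorem act_basis (A : Module.End K V) (v : V) (j : chevE8.Idx) :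
    A v j = ∑ k, v k * A (Pi.single k 1) j := by
  conv_lhs => rw [← Finset.univ_sum_single v]
  rw [map_sum, Finset.sum_apply]
  refine Finset.sum_congr rfl fun k _ => ?_
  rw [show (Pi.single k (v k) : V) = v k • Pi.single k 1 by
    rw [← Pi.single_smul, smul_eq_mul, mul_one], map_smul]
  rfl

theorem coord_of (A : Module.End K V) (i : Fin chevE8.rank) (ε : K)
    (h : ∀ k, A (Pi.single k 1) (Sum.inl i) = ε * (Pi.single k 1 : V) (Sum.inl i)) (v : V) :
    A v (Sum.inl i) = ε * v (Sum.inl i) := by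
  rw [act_basis, Finset.sum_eq_single (Sum.inl i)]
  · rw [h]; simp [mul_comm]
  · intro k _ hk
    rw [h, Pi.single_eq_of_ne hk.symm]; simp
  · simp

theorem coord_N (hN : NactStmt) {n : GK} (hn : n ∈ P8.N) (i : Fin chevE8.rank) (ε : ℤ)
    (h : ∀ r, C8.R.rc (P8.ν n r) i = ε * C8.R.rc r i) (v : V) :
    act n v (Sum.inl i) = (ε : K) * v (Sum.inl i) := by
  obtain ⟨⟨c, hc⟩, hh⟩ := hN n hn
  refine coord_of _ i _ (fun k => ?_) v
  rcases k with j | r
  · have e : (Pi.single (Sum.inl j) 1 : V) = hR chevE8 K (C8.R.simple j) := by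
      rw [← hV_eq_single, C8.simple_val, hR_simple C8.V.basic j.2]
    rw [e, hh]
    simp only [hR, Sum.elim_inl, co_rc, h]
    push_cast; rfl
  · rw [← eV_eq_single, hc]
    simp [eV]

theorem coord_x (r : Rt) (t : K) (i : Fin chevE8.rank) (h : co chevE8 r i = 0) (v : V) :
    act (C8.xg K r t) v (Sum.inl i) = v (Sum.inl i) := by
  have := coord_of (act (C8.xg K r t)) i 1 (fun k => ?_) v
  · rwa [one_mul] at this
  rw [act_apply, Cert.coe_xg, C8.V.coe_xG, x_eq_xMat r.2, one_mul, Matrix.mulVec_single_one]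
  unfold co at h
  rcases k with j | s
  · simp [ChevalleyDatum.xMat, Pi.single_apply]
  · simp only [ChevalleyDatum.xMat, Matrix.col_apply, Matrix.of_apply, h]
    split_ifs <;> simp

/-- The elements preserving a coordinate. -/
def stab (i : Fin chevE8.rank) : Subgroup GK where
  carrier := {g | ∀ v : V, act g v (Sum.inl i) = v (Sum.inl i)}
  one_mem' v := by simp
  mul_mem' {a b} ha hb v := by rw [map_mul, Module.End.mul_apply, ha, hb]
  inv_mem' {a} ha v := by
    rw [← ha (act a⁻¹ v), ← Module.End.mul_apply, ← map_mul, mul_inv_cancel, map_one,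
      Module.End.one_apply]

theorem coord_t (hN : NactStmt) (hNeg : NegStmt) (hSt : St11Stmt) {ζ : Kˣ} {h t : GK}
    (hζ : IsPrimitiveRoot ζ 11) (hl : Lab C8 ζ h f11) (ht : t * h * t⁻¹ = h⁻¹)
    (i : Fin chevE8.rank) (hi : (i : ℕ) ∈ [0, 1, 6, 7]) (v : V) :
    act t v (Sum.inl i) = - v (Sum.inl i) := by
  obtain ⟨w, hw, hw'⟩ := hNeg
  obtain ⟨n, hn, rfl⟩ := P8.exists_lift hw
  have h1 : n⁻¹ * h * n * h = 1 := (((hl.conj hn).mul hl).eq_one_iff hζ).2 fun r => by
    rw [hw']
    simp [f11, vN, C8.R.rc_neg]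
  have h2 : Commute h (n * t) := by
    have e1 : t * h = h⁻¹ * t := by rw [← ht]; group
    have e2 : n * h⁻¹ = h * n := by
      rw [eq_inv_of_mul_eq_one_left h1 |>.symm]; group
    rw [Commute, SemiconjBy, mul_assoc, e1, ← mul_assoc, ← mul_assoc, e2]
  have h3 : n * t ∈ stab i := by
    refine hl.cent_le (P := stab i) hζ (fun r hr s v => ?_) (fun m hm hf v => ?_) h2
    · refine coord_x r s i (z_tab r r.2 ?_ i hi) v
      rw [f11_eq, ZMod.intCast_zmod_eq_zero_iff_dvd] at hr
      exact Int.emod_eq_zero_of_dvd hr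
    · have hw : P8.ν m ∈ C8.S.W := P8.ν_mem m hm
      have h5 := hSt (P8.ν m) hw (fun r => by
        have h6 := hf r
        generalize f11 (P8.ν m r) = a at h6 ⊢
        generalize f11 r = b at h6 ⊢
        exact h6)
      have := coord_N hN hm i 1 (fun r => by rw [one_mul]; exact h5 r i hi) v
      rwa [Int.cast_one, one_mul] at this
  have h4 := h3 v
  rw [map_mul, Module.End.mul_apply, coord_N hN hn i (-1) (fun r => by
    rw [hw', C8.R.rc_neg]; simp)] at h4
  rw [← h4]; simp

/-- The index set of the basis vectors used. -/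
def inT : chevE8.Idx → Bool
  | Sum.inl i => decide ((i : ℕ) ∈ [0, 1, 6, 7])
  | Sum.inr r => decide (1 ≤ g11 r % 11 ∧ g11 r % 11 ≤ 5)

theorem card_T : Fintype.card {k : chevE8.Idx // inT k = true} = 114 := by
  rw [Fintype.card_subtype]
  decide +kernel

theorem coord_e (hMu : MuStmt) {ζ : Kˣ} {h t : GK} (hζ : IsPrimitiveRoot ζ 11)
    (hl : Lab C8 ζ h f11) (ht : t * h * t⁻¹ = h⁻¹) {r s : Rt} (hr : inT (Sum.inr r) = true)
    (hs : inT (Sum.inr s) = true) : act t (Pi.single (Sum.inr s) 1) (Sum.inr r) = 0 := by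
  have h1 : (Pi.single (Sum.inr s) 1 : V) ∈ eig h ((ζ ^ f11 s : Kˣ) : K) :=
    (hMu.2.1 ζ h f11 hl _ _).2 ⟨fun _ i => by simp, fun u hu => by
      rw [Pi.single_eq_of_ne]
      rintro ⟨⟩
      exact hu rfl⟩
  have h2 : act t (Pi.single (Sum.inr s) 1) ∈ eig h ((ζ ^ (-f11 s) : Kˣ) : K) := by
    rw [mem_eig] at h1 ⊢
    have e : h * t * h = t := by
      rw [mul_assoc, show t * h = h⁻¹ * t by rw [← ht]; group, mul_inv_cancel_left]
    have e2 := congrArg (fun g => act g (Pi.single (Sum.inr s) 1 : V)) e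
    simp only [map_mul, Module.End.mul_apply, h1, map_smul] at e2
    rw [← e2, smul_smul, ← Units.val_mul, ← zpow_add, neg_add_cancel, zpow_zero, Units.val_one,
      one_smul, e2]
  refine ((hMu.2.1 ζ h f11 hl _ _).1 h2).2 r fun e => ?_
  have h3 := (zpow_eq_iff hζ).1 (Units.ext e)
  rw [ZMod.intCast_eq_intCast_iff_dvd_sub, f11_eq, f11_eq] at h3
  simp only [inT, decide_eq_true_eq] at hr hs
  omega

theorem inv11 (hMu : MuStmt) (hN : NactStmt) (hNeg : NegStmt) (hSt : St11Stmt) : Inv11Stmt := by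
  intro ζ h t hζ hl htt ht
  classical
  let L : ({k : chevE8.Idx // inT k = true} → K) →ₗ[K] V :=
    { toFun := fun a j => if hj : inT j = true then a ⟨j, hj⟩ else 0
      map_add' := fun a b => by funext j; by_cases hj : inT j = true <;> simp [hj]
      map_smul' := fun c a => by funext j; by_cases hj : inT j = true <;> simp [hj] }
  have hL : ∀ a j, ¬ inT j = true → L a j = 0 := fun a j hj => dif_neg hj
  have hL' : ∀ a j (hj : inT j = true), L a j = a ⟨j, hj⟩ := fun a j hj => dif_pos hj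
  let φ : ({k : chevE8.Idx // inT k = true} → K) →ₗ[K] eig t (-1) :=
    LinearMap.codRestrict _ ((1 - act t) ∘ₗ L) fun a => by
      rw [mem_eig]
      simp only [LinearMap.comp_apply, LinearMap.sub_apply, Module.End.one_apply, map_sub]
      rw [← Module.End.mul_apply, ← map_mul, htt, map_one, Module.End.one_apply]
      simp
  have hφ : Function.Injective φ := by
    rw [injective_iff_map_eq_zero]
    intro a ha
    have h0 : L a = act t (L a) := sub_eq_zero.1 (congrArg Subtype.val ha)
    have h1 : ∀ i, L a (Sum.inl i) = 0 := fun i => by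
      by_cases hi : inT (Sum.inl i) = true
      · have e := coord_t hN hNeg hSt hζ hl ht i (of_decide_eq_true hi) (L a)
        rw [← h0, eq_neg_iff_add_eq_zero, ← two_mul, mul_eq_zero] at e
        refine e.resolve_left ?_
        have : ((2 : ℕ) : K) ≠ 0 := by
          rw [Ne, CharP.cast_eq_zero_iff K 3]; decide
        exact_mod_cast this
      · exact hL a _ hi
    funext ⟨j, hj⟩
    rw [← hL' a j hj]
    rcases j with i | r
    · exact h1 i
    rw [h0, act_basis]
    refine Finset.sum_eq_zero fun k _ => ?_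
    rcases k with i | s
    · rw [h1, zero_mul]
    by_cases hs : inT (Sum.inr s) = true
    · rw [coord_e hMu hζ hl ht hj hs, mul_zero]
    · rw [hL a _ hs, zero_mul]
  have := LinearMap.finrank_le_finrank_of_injective hφ
  rw [Module.finrank_fintype_fun_eq_card, card_T] at this
  exact le_trans (by norm_num) this

end Cfsg.Agent.H44.E83Inv11
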