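import Mathlib
import Cfsg.Agent.H44.E83Inv11

/-! The third step of the torality of `2⁴`. -/

set_option autoImplicit false

namespace Cfsg.Agent.H44.E83S3

open Equiv Cfsg.Lie H37 H40 H34 H29 Module
open Cfsg.Agent.H50.E83
open scoped Matrix

theorem prim2 : IsPrimitiveRoot (-1 : Kˣ) 2 := by
  have h : IsPrimitiveRoot (-1 : K) 2 := IsPrimitiveRoot.neg_one 3 (by decide)
  exact IsPrimitiveRoot.coe_units_iff.1 (by simpa using h)

theorem eV_fix (hMu : MuStmt) {h : GK} {f : Rt → ℤ} (hl : Lab C8 (-1) h f) {r : Rt}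
    (hr : Even (f r)) : act h (eV chevE8 K r) = eV chevE8 K r := by
  have := (hMu.2.1 (-1) h f hl 1 (eV chevE8 K r)).2 ⟨fun e => absurd rfl e, fun u hu => by
    rw [eV_eq_single, Pi.single_eq_of_ne]
    rintro ⟨⟩
    exact hu (by rw [hr.neg_one_zpow]; rfl)⟩
  rwa [mem_eig, one_smul] at this

theorem lab_fix {h n : GK} {f : Rt → ℤ} (hl : Lab C8 (-1) h f) (hn : n ∈ P8.N) (hc : Commute h n)
    (r : Rt) : (f (P8.ν n r) : ZMod 2) = f r := by
  have h1 : Lab C8 (-1) (n * h * n⁻¹) f := by rwa [← hc.eq, mul_inv_cancel_right]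
  have h6 := hl.rel_N prim2 hn h1 r
  generalize f (P8.ν n r) = a at h6 ⊢
  generalize f r = b at h6 ⊢
  exact h6

theorem sa_even (r : Rt) (hr : (r : ℕ) ∈ SA) : Even (f1 r) ∧ Even (f2 r) := by
  have h3 : ∀ r ∈ SA,
      Even (∑ j : Fin 8, gt rcE8 r j * (([0, 0, 1, 1, 0, 0, 0, 0] : List ℕ).getD j 0 : ℕ)) ∧
      Even (∑ j : Fin 8, gt rcE8 r j * (([0, 0, 0, 0, 0, 1, 0, 0] : List ℕ).getD j 0 : ℕ)) := by
    decide +kernel
  simp only [f1, f2, vN, rc_eq C8 tabOKE8]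
  exact h3 r hr

theorem card_SA : (Finset.univ.filter fun r : Rt => (r : ℕ) ∈ SA).card = 24 := by decide +kernel

theorem s3 (hMu : MuStmt) (hN : NactStmt) (hLb : LbStmt) (hS : S3wStmt) : S3Stmt := by
  intro h1 h2 n hl1 hl2 hn hnn hc1 hc2 hpos hd
  have hw : P8.ν n ∈ C8.S.W := P8.ν_mem n hn
  rcases hS _ hw (lab_fix hl1 hn hc1) (lab_fix hl2 hn hc2) hpos with e | ⟨e1, e2⟩
  · exact Split.mem_H_of hn e
  exfalso
  have h3 := hLb n hn hnn {h1, h2} (Finset.univ.filter fun r : Rt => (r : ℕ) ∈ SA)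
    (by rintro _ (rfl | rfl); exacts [hl1.mem_H, hl2.mem_H])
    (by rintro _ (rfl | rfl); exacts [hc1, hc2])
    (fun r hr => mem_Fix.2 (by
      have := sa_even r (Finset.mem_filter.1 hr).2
      rintro _ (rfl | rfl)
      exacts [eV_fix hMu hl1 this.1, eV_fix hMu hl2 this.2]))
    (fun r hr h => e2 r (Finset.mem_filter.1 hr).2 (Finset.mem_filter.1 h).2)
  rw [card_SA] at h3
  have h4 : act n (hR chevE8 K 120) = hR chevE8 K 136 := by
    have := (hN n hn).2 ⟨120, by decide⟩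
    rwa [e1 _ rfl] at this
  have h5 : act n (hR chevE8 K 136) = hR chevE8 K 120 := by
    rw [← h4, ← Module.End.mul_apply, ← map_mul, hnn, map_one, Module.End.one_apply]
  have h6 : hR chevE8 K 120 + hR chevE8 K 136 ∈ (eig n 1 ⊓ Cart : Submodule K V) :=
    ⟨mem_eig.2 (by rw [map_add, h4, h5, one_smul, add_comm]), fun r => by simp [hR]⟩
  have h7 : hR chevE8 K 120 + hR chevE8 K 136 ≠ 0 := fun h => by
    have := congrFun h (Sum.inl ⟨7, by decide⟩)
    have e3 : co chevE8 120 7 = 1 := by decide +kernel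
    have e4 : co chevE8 136 7 = 0 := by decide +kernel
    simp [hR, e3, e4] at this
  have h8 : 0 < finrank K (eig n 1 ⊓ Cart : Submodule K V) :=
    Module.finrank_pos_iff_exists_ne_zero.2 ⟨⟨_, h6⟩, fun h => h7 (congrArg Subtype.val h)⟩
  omega

end Cfsg.Agent.H44.E83S3
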