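import Mathlib
import Cfsg.Agent.H11.ElDefs

/-! A mixed element generates a self-normalising subgroup of the centraliser of the line. -/

set_option autoImplicit false

namespace Cfsg.Agent.H44.ElN3n

open Subgroup Cfsg.Agent.H11.EL

universe u

theorem cj_pow {G : Type u} [Group G] {g x : G} {i : ℤ} (h : g * x * g⁻¹ = x ^ i) (m : ℕ) :
    g ^ m * x * (g ^ m)⁻¹ = x ^ i ^ m := by
  induction m with
  | zero => simp
  | succ m ih =>
    rw [pow_succ', show g * g ^ m * x * (g * g ^ m)⁻¹ = g * (g ^ m * x * (g ^ m)⁻¹) * g⁻¹ by group, ih,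
      ← conj_zpow, h, ← zpow_mul, pow_succ']

theorem zp_iff {G : Type u} [Group G] {x : G} (h : orderOf x = 11) {i j : ℤ} :
    x ^ i = x ^ j ↔ (i : ZMod 11) = j := by
  rw [zpow_eq_zpow_iff_modEq, h, ZMod.intCast_eq_intCast_iff]

theorem n3n (b : Base.{u}) : N3nStmt.{u} := by
  intro G _ _ D A B k h ⟨kK, k1, B', hB', nB', kN⟩ n nK nN
  have lp := h.ne.lp A h.hA B h.hB h.AB
  obtain ⟨f, s, lc⟩ := b.lc1 A B lp
  obtain ⟨ok, ⟨a, aA, a1, ka1, kaK⟩, ck⟩ := h.ne.mix A h.hA B h.hB B' hB' h.AB.symm nB' k kK k1 kN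
  have cm : ∀ c ∈ Ct (A ⊔ B), ∀ x ∈ A ⊔ B, Commute c x := fun c hc x hx =>
    (mem_centralizer_iff.1 hc x hx).symm
  have oa : orderOf a = 11 := by
    have := A.orderOf_dvd_natCard aA
    rw [lp.cA] at this
    exact ((Nat.dvd_prime (by norm_num)).1 this).resolve_left (by rwa [orderOf_eq_one_iff])
  obtain ⟨i, hi⟩ := mem_zpowers_iff.1 ((mem_normalizer_iff.1 nN k).1 (mem_zpowers k))
  obtain ⟨e, he, e2⟩ := lc.big
  have e5 : (e : ZMod 11) ^ 5 = 1 := by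
    have := cj_pow (he a aA) 5
    rw [← lc.fo, pow_orderOf_eq_one, lc.fo, one_mul, inv_one, mul_one] at this
    have := (zp_iff oa).1 ((zpow_one a).trans this)
    simpa using this.symm
  have i5 : (i : ZMod 11) ^ 5 = 1 := by
    have h1 := cj_pow hi.symm (Nat.card (Ct (A ⊔ B)))
    rw [orderOf_dvd_iff_pow_eq_one.1 ((Ct (A ⊔ B)).orderOf_dvd_natCard nK), one_mul, inv_one,
      mul_one] at h1
    have h2 := (zp_iff ok).1 ((zpow_one k).trans h1)
    rw [Int.cast_pow, Int.cast_one] at h2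
    have h3 : ∀ z : ZMod 11, z ^ 5 = 1 ∨ z ^ 5 = -1 ∨ z ^ 5 = 0 := by decide
    have h4 : ((i : ZMod 11) ^ 5) ^ Nat.card (Ct (A ⊔ B)) = 1 := by
      rw [← pow_mul, mul_comm, pow_mul, ← h2, one_pow]
    rcases h3 i with e | e | e
    · exact e
    · rw [e, h.odd.neg_one_pow] at h4; exact absurd h4 (by decide)
    · rw [e, zero_pow Nat.card_pos.ne'] at h4; exact absurd h4 (by decide)
  have dv : ∀ z : ℤ, (11 : ℤ) ∣ z ^ 2 - 1 ↔ (z : ZMod 11) ^ 2 = 1 := fun z => by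
    rw [← sub_eq_zero]
    have := ZMod.intCast_zmod_eq_zero_iff_dvd (z ^ 2 - 1) 11
    push_cast at this
    exact this.symm
  have fin : ∀ y z : ZMod 11, y ^ 5 = 1 → z ^ 5 = 1 → z ^ 2 ≠ 1 →
      y = 1 ∨ (y ^ 2 ≠ 1 ∧ ∃ j : Fin 5, z ^ j.1 = y) := by decide
  rcases fin i e i5 e5 (by rwa [Ne, ← dv]) with h1 | ⟨h2, j, hj⟩
  · refine ck n nK (mul_inv_eq_iff_eq_mul.1 ?_)
    rw [← hi, (zp_iff ok (j := 1)).2 (by simpa using h1), zpow_one]
  · exfalso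
    have nn : ∀ X ≤ A ⊔ B, n ∈ Nm X := fun X hX =>
      centralizer_le_normalizer _ (centralizer_le hX nK)
    have ex : Ex (n * f ^ j.1) A (e ^ j.1) := fun x hx => by
      rw [show n * f ^ j.1 * x * (n * f ^ j.1)⁻¹ = n * (f ^ j.1 * x * (f ^ j.1)⁻¹) * n⁻¹ by group,
        cj_pow (he x hx), (cm n nK _ (zpow_mem (mem_sup_left hx) _)).eq, mul_inv_cancel_right]
    refine h.ne.five A h.hA B h.hB B' hB' h.AB.symm nB' (n * f ^ j.1)
      (mul_mem (nn A le_sup_left) (pow_mem lc.fA _)) (mul_mem (nn B le_sup_right) (pow_mem lc.fB _))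
      ⟨_, ex, by rw [dv, Int.cast_pow, hj]; exact h2⟩
      (h.ne.ti A h.hA B' hB' (fun e => nB' (e ▸ le_sup_left)) _ kaK ka1 _ ?_)
    have gk : n * f ^ j.1 * k * (n * f ^ j.1)⁻¹ = k ^ i := by
      rw [hi, mul_assoc n, ← (cm k kK _ (pow_mem lc.fL j.1)).eq]; group
    rw [show n * f ^ j.1 * (k * a) * (n * f ^ j.1)⁻¹ = n * f ^ j.1 * k * (n * f ^ j.1)⁻¹ *
      (n * f ^ j.1 * a * (n * f ^ j.1)⁻¹) by group, gk, ex a aA,
      (zp_iff oa (j := i)).2 (by rw [Int.cast_pow, hj]), ← (cm k kK a (mem_sup_left aA)).mul_zpow]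
    exact zpow_mem kaK i

end Cfsg.Agent.H44.ElN3n
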