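import Mathlib
import Cfsg.Agent.H29.G2Oct
import Cfsg.Agent.H44.MatW
import Cfsg.Agent.H44.G24sM

/-!
# The presentation `G24s` presents `G₂(4)`
-/

set_option autoImplicit false
set_option maxRecDepth 100000

namespace Cfsg.Agent.H44.G24I

open Cfsg.Agent.H44.MW Cfsg.Agent.H46 H28 H29 H24

/-- Some root elements. -/
noncomputable def g (x : ℕ) : autZ F4 :=
  g2y (r := [0, 0, 1, 1, 2, 6, 9, 10, 10].getD x 0 % 12) (Nat.mod_lt _ (by norm_num))
    (φ4 ([0, 1, 1, 2, 1, 2, 1, 1, 2].getD x 0))

/-- Their codes. -/
def c : List ℕ := [0, 7237005577444156523872561069450420334846831078110206874938030810694674284545, 7237005577437985881782606546792339200412241013716521539884041177884979625985, 7237005577438397257921936848302877942707880351342767223850449590443002822657, 7237116007064145538646600067773374768691834692745460088787381233161714274305, 7237005577437574505643467807224408694223896469468669644565585109916252635137, 7689318426020840894016600428856013882597767052717210011634820827503776497665, 7237005577437574505643276245287509448887425516882159600023660147369190621185, 7237005577437574505643276245293218439658249357674043344129687529411424813057]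

theorem cd : Cd φ4 4 4 (Equiv.refl (Fin 8)) (autMat F4) g c 8 := fun x h1 h2 => by
  rw [g, g2y, autMat_autOfMat]
  interval_cases x <;>
    exact ⟨canon_of_canonB (by decide +kernel), by decide +kernel⟩

/-- Words for the six involutions. -/
def W : List (List ℕ) := [[], [7, 1, 7], [5, 7, 1, 7, 5], [2, 8, 1, 8, 2], [2, 6, 4, 6, 2], [4], [3, 8, 1, 8, 3]]

/-- Their codes. -/
def c' : List ℕ := [0, 7237005577444156523872561069450777146770007568080471446725541089658122797057, 7237005577444979276154574006467543364729342188701137196878802172502222045185, 7237005577457320560331130717788373712153642862090598056553847459357007020033, 26959973985097398207196432092161620479006310735597571911163783938048, 7237116007064145538646600067773374768691834692745460088787381233161714274305, 7237005577450738542101845893619753835423413460070667037533449413989289164801]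

theorem cd' : Cd φ4 4 4 (Equiv.refl (Fin 8)) (autMat F4) (wt g W) c' 6 :=
  cd.wt (mc4 (by norm_num) le_rfl) (by decide +kernel) (by decide +kernel)

theorem sat : Sat (wt g W) G24s.Rm :=
  cd'.sat (mc4 (by norm_num) le_rfl) autMat_injective (by decide +kernel) (by decide +kernel)

theorem ne : wt g W 1 ≠ 1 := fun h => by
  have := (cd' 1 le_rfl (by norm_num)).2
  rw [h, map_one] at this
  exact absurd this (by decide +kernel)

theorem top : gen (wt g W) 6 = ⊤ :=
  have : Finite (autZ F4) := Finite.of_injective _ autMat_injective
  Subgroup.eq_top_of_card_eq _ (by rw [(G24sM.simple_card sat ne).2, card_autZ, card_F4]; norm_num)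

/-- A non-trivial group satisfying the relators is `G₂(4)`. -/
theorem equiv {G : Type*} [Group G] {h : ℕ → G} (hh : Sat h G24s.Rm) (hne : h 1 ≠ 1) :
    Nonempty (gen h 6 ≃* Cfsg.Lie.chevG2.group F4) :=
  let ⟨e1⟩ := G24sM.exists_equiv hh hne
  let ⟨e2⟩ := G24sM.exists_equiv sat ne
  let ⟨e3⟩ := nonempty_g2Iso F4
  ⟨e1.symm.trans <| e2.trans <| (MulEquiv.subgroupCongr top).trans <| Subgroup.topEquiv.trans e3.symm⟩

end Cfsg.Agent.H44.G24I
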