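import Cfsg.Agent.H98.GbL
import Cfsg.Agent.H70.GbDer0

/-! Project GB (S4536), piece `BR`: Green's primitive class functions. -/

set_option autoImplicit false

namespace Cfsg.Agent.H44.GbBr

open Cfsg Finset Matrix Polynomial Module Cfsg.Agent.H98.GB Cfsg.Agent.H70.GbDer0
open Cfsg.Agent.H22.Cusp (natRep DD Dr Inv invs mem_invs DD_congr DD_eq_Dr Dr_map inv_map_iff
  sum_DD Dr_bot sum_DD_tri natRep_apply bT bT_mul b_one)
open scoped MatrixGroups

universe u

theorem idx (k : ℕ) (i : Fin (k + 1)) : i + 1 + (k - i) = k + 1 := by omega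

variable {F : Type u} [Field F] {a b n : ℕ} (h : a + b = n)

theorem rep_bij (x : GL (Fin n) F) : Function.Bijective (natRep F n x) :=
  (Module.End.isUnit_iff _).1 ((Group.isUnit x).map _)

theorem rep_conj (x g : GL (Fin n) F) (w : Fin n → F) :
    natRep F n x (natRep F n g w) = natRep F n (x * g * x⁻¹) (natRep F n x w) := by
  rw [← End.mul_apply, ← End.mul_apply, ← map_mul, ← map_mul, inv_mul_cancel_right]

theorem range_emb : LinearMap.range (emb (F := F) h) = stdS F n a :=
  le_antisymm (by rintro _ ⟨w, rfl⟩; exact emb_mem h w) fun _ hw => exists_emb h hw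

theorem inv_tri (u : GL (Fin a) F) (c : Matrix (Fin a) (Fin b) F) (v : GL (Fin b) F) :
    Inv (natRep F n (tri h u c v)) (stdS F n a) := fun w hw => by
  obtain ⟨w, rfl⟩ := exists_emb h hw
  rw [natRep_apply, tri_emb]
  exact emb_mem h _

include h in
theorem finrank_imS (x : GL (Fin n) F) : finrank F (imS a x) = a := by
  rw [imS, ← (Submodule.equivMapOfInjective _ (rep_bij x).1 _).finrank_eq, ← range_emb h,
    LinearMap.finrank_range_of_inj (emb_inj h), Module.finrank_fin_fun]

theorem imS_mul (x y : GL (Fin n) F) :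
    imS a (x * y) = imS a x ↔ Inv (natRep F n y) (stdS F n a) := by
  rw [imS, imS, map_mul, End.mul_eq_comp, Submodule.map_comp,
    (Submodule.map_injective_of_injective (rep_bij x).1).eq_iff]
  refine ⟨fun e w hw => e ▸ Submodule.mem_map_of_mem hw, fun hY => ?_⟩
  exact Submodule.eq_of_le_of_finrank_eq (by rintro _ ⟨w, hw, rfl⟩; exact hY w hw)
    (Submodule.equivMapOfInjective _ (rep_bij y).1 _).finrank_eq.symm

variable [Fintype F] [DecidableEq F]

open Classical in
theorem inner (f : GL (Fin a) F → ℂ) (E : GL (Fin n) F → ℂ) (hf : ∀ u c v, f u = E (tri h u c v))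
    (y : GL (Fin n) F) : ∑ u, ∑ c, ∑ v, (if y = tri h u c v then f u else 0) =
      if Inv (natRep F n y) (stdS F n a) then E y else 0 := by
  split_ifs with hy
  · obtain ⟨u, c, v, rfl⟩ := exists_tri h (g := y) hy
    have e : ∀ u' c' v', tri h u c v = tri h u' c' v' ↔ u = u' ∧ c = c' ∧ v = v' := fun _ _ _ =>
      ⟨tri_inj, by rintro ⟨rfl, rfl, rfl⟩; rfl⟩
    simp [e, ite_and, hf u c v]
  · refine sum_eq_zero fun u _ => sum_eq_zero fun c _ => sum_eq_zero fun v _ => if_neg ?_
    rintro rfl
    exact hy (inv_tri h u c v)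

open Classical in
include h in
theorem count : ∑ y : GL (Fin n) F, (if Inv (natRep F n y) (stdS F n a) then (1 : ℂ) else 0) =
    (Fintype.card (GL (Fin a) F) * Fintype.card (GL (Fin b) F) * Fintype.card F ^ (a * b) : ℕ) := by
  rw [← sum_congr rfl fun y _ => inner h (fun _ => 1) (fun _ => 1) (fun _ _ _ => rfl) y, sum_comm,
    sum_congr rfl fun u _ => sum_comm, sum_congr rfl fun u _ => sum_congr rfl fun c _ => sum_comm]
  simp only [sum_ite_eq', mem_univ, if_true, sum_const, card_univ, nsmul_eq_mul, mul_one]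
  rw [show Fintype.card (Matrix (Fin a) (Fin b) F) = Fintype.card F ^ (a * b) by
    change Fintype.card (Fin a → Fin b → F) = _
    simp [← pow_mul, mul_comm]]
  push_cast
  ring

open Classical in
include h in
theorem fibre [Fintype (Submodule F (Fin n → F))] (E : Submodule F (Fin n → F) → ℂ) :
    ∑ x : GL (Fin n) F, E (imS a x) =
      (Fintype.card (GL (Fin a) F) * Fintype.card (GL (Fin b) F) * Fintype.card F ^ (a * b) : ℕ) *
        ∑ W ∈ univ.filter fun W : Submodule F (Fin n → F) => finrank F W = a, E W := by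
  rw [← sum_fiberwise_of_maps_to (s := univ) (g := fun x : GL (Fin n) F => imS a x)
    (t := univ.filter fun W : Submodule F (Fin n → F) => finrank F W = a)
    fun x _ => mem_filter.2 ⟨mem_univ _, finrank_imS h x⟩, mul_sum]
  refine sum_congr rfl fun W hW => ?_
  obtain ⟨x, rfl⟩ := exists_imS h W (mem_filter.1 hW).2
  rw [sum_congr rfl (g := fun _ => 1 * E (imS a x)) fun y hy => by rw [(mem_filter.1 hy).2, one_mul],
    ← sum_mul, sum_filter, ← count h, ← Equiv.sum_comp (Equiv.mulLeft x)]
  simp only [Equiv.coe_mulLeft, imS_mul]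

open Classical in
theorem cmp_DD [Fintype (Submodule F (Fin n → F))] (β : F[X] → ℂ) (g : GL (Fin n) F) :
    cmp 1 h (fun u => DD β (natRep F a u)) (fun _ => 1) g =
      ∑ W ∈ univ.filter fun W : Submodule F (Fin n → F) => finrank F W = a,
        if Inv (natRep F n g) W then Dr β (natRep F n g) W else 0 := by
  have e : ∀ x y : GL (Fin n) F, (True ∧ g = x * y * x⁻¹) ↔ x⁻¹ * g * x = y := fun x y => by
    rw [true_and]
    constructor
    · rintro rfl; group
    · rintro rfl; group
  have h1 : ∀ x : GL (Fin n) F, ∑ u, ∑ c, ∑ v,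
      (if x⁻¹ * g * x = tri h u c v then DD β (natRep F a u) else 0) =
      if Inv (natRep F n g) (imS a x) then Dr β (natRep F n g) (imS a x) else 0 := fun x => by
    have hc : ∀ w, natRep F n x (natRep F n (x⁻¹ * g * x) w) = natRep F n g (natRep F n x w) :=
      fun w => by rw [rep_conj]; congr 2; group
    rw [inner h _ (fun y => Dr β (natRep F n y) (stdS F n a)) fun u c v => by
      rw [DD_eq_Dr β (g' := natRep F n (tri h u c v)) (emb_inj h) fun w => (tri_emb h u c v w).symm,
        range_emb], imS, inv_map_iff (rep_bij x).1 hc]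
    split_ifs with hi
    · exact (Dr_map β (rep_bij x).1 hc hi).symm
    · rfl
  have h0 : ((Fintype.card (GL (Fin a) F) * Fintype.card (GL (Fin b) F) *
      Fintype.card F ^ (a * b) : ℕ) : ℂ) ≠ 0 := Nat.cast_ne_zero.2 (by positivity)
  simp only [H98.GB.cmp, cmpS, e, dl_one, MonoidHom.one_apply, Units.val_one, one_mul, mul_one]
  rw [inv_mul_eq_iff_eq_mul₀ h0, ← fibre h, ← sum_congr rfl fun x _ => h1 x]

theorem sum_cmp (β : F[X] → ℂ) (hβ : β 1 = 0) (k : ℕ) (g : GL (Fin (k + 1)) F) :
    ∑ i : Fin (k + 1), cmp 1 (idx k i)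
      (fun u => DD β (natRep F (i + 1) u)) (fun _ => 1) g = β (natRep F (k + 1) g).charpoly := by
  classical
  have := Fintype.ofFinite (Submodule F (Fin (k + 1) → F))
  set E : Submodule F (Fin (k + 1) → F) → ℂ := fun W =>
    if Inv (natRep F (k + 1) g) W then Dr β (natRep F (k + 1) g) W else 0 with hE
  have h1 : ∑ W, E W = β (natRep F (k + 1) g).charpoly := by
    rw [← sum_DD β, hE, ← sum_filter]
    refine sum_congr ?_ fun _ _ => rfl
    ext X; simp [mem_invs]
  rw [← h1, ← sum_fiberwise_of_maps_to (s := univ) (t := range (k + 1 + 1))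
    (g := fun W : Submodule F (Fin (k + 1) → F) => finrank F W) fun W _ => mem_range.2
      (Nat.lt_succ_of_le (by simpa using Submodule.finrank_le W)), sum_range_succ',
    sum_eq_zero (s := filter _ _) fun W hW => by
      rw [Submodule.finrank_eq_zero.1 (mem_filter.1 hW).2, hE]
      simp [Dr_bot β hβ], add_zero, Finset.sum_range]
  refine sum_congr rfl fun i _ => ?_
  rw [cmp_DD]

omit [DecidableEq F] in
theorem sum_tri {β : F[X] → ℂ} (hβ : ∀ f g : F[X], f.Monic → g.Monic → β (f * g) = β f + β g)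
    (ha : 0 < a) (hb : 0 < b) (u : GL (Fin a) F) (v : GL (Fin b) F) :
    ∑ c : Matrix (Fin a) (Fin b) F, DD β (natRep F n (tri h u c v)) = 0 := by
  have := Fintype.ofFinite ((Fin b → F) →ₗ[F] (Fin a → F))
  have : Nonempty (Fin a) := ⟨⟨0, ha⟩⟩
  have : Nonempty (Fin b) := ⟨⟨0, hb⟩⟩
  rw [← sum_DD_tri hβ (natRep F a u) (natRep F b v)]
  refine Fintype.sum_equiv toLin'.toEquiv _ _ fun c => ?_
  refine DD_congr β (φ := ((LinearEquiv.funCongrLeft F F (eqv h)).trans
    (LinearEquiv.sumArrowLequivProdArrow _ _ F F)).toLinearMap) (LinearEquiv.bijective _) fun w => ?_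
  exact Prod.ext (funext fun i => tri_inl h u c v w i) (funext fun j => tri_inr h u c v w j)

theorem br (hF : FOCKStmt.{u}) (hR : ROOTStmt.{u}) : BRStmt.{u} := by
  intro F _ _ _ C
  let _ := C.alg
  have tw : ∀ a m, Tw (dl 1 m) (C.P a m) := fun a m x g => by
    rw [dl_one, MonoidHom.one_apply, Units.val_one, one_mul]
    exact (DD_congr _ (rep_bij x) (rep_conj x g)).symm
  refine ⟨tw, fun a m hm => ⟨hm, fun a' b' h ha hb u v => ?_⟩, fun k => ?_⟩
  · rw [res]
    exact mul_eq_zero_of_right _ (sum_tri h (bT_mul _) ha hb u v)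
  have K := hF F 1 C.H
  have t1 : ∀ m, Tw (dl 1 m) fun _ : GL (Fin m) F => (1 : ℂ) := fun m x g => by simp [dl_one]
  have hg : ∀ m (f : GL (Fin m) F → ℂ), Tw (dl 1 m) f → C.H.Hg m (C.H.sg m f) := fun m f hf j hj => by
    rw [C.H.ev_sg hf, Pi.single_eq_of_ne hj]
  induction k using Nat.strong_induction_on with
  | _ k ih =>
    apply C.H.inj
    rw [C.H.ev_sg (t1 k)]
    rcases k with _ | k
    · rw [nw, C.H.ev_one]; rfl
    rw [nw, map_smul, map_sum, sum_congr rfl fun i _ => by rw [ih (k - i) (by omega)]]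
    funext j
    simp only [Pi.smul_apply, Finset.sum_apply, Ctx.pa]
    by_cases hj : j = k + 1
    · subst hj
      rw [Pi.single_eq_same, sum_congr rfl fun (i : Fin (k + 1)) _ => by
        rw [K.ev_mul_hg _ (idx k i) (hg _ _ (tw 0 _)),
          C.H.ev_sg (tw 0 _), C.H.ev_sg (t1 _), Pi.single_eq_same, Pi.single_eq_same]]
      funext g
      have h1 := sum_cmp (bT (C.T 0)) (b_one (bT_mul _)) k g
      have h2 : bT (C.T 0) (natRep F (k + 1) g).charpoly = (k + 1 : ℕ) := by
        have e : natRep F (k + 1) g = toLin' g.1 := rfl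
        have h3 := (hR F C).2.1 _ g
        rw [Ctx.roots, Multiset.card_map] at h3
        rw [e, charpoly_toLin', bT, Multiset.map_congr rfl (g := fun _ => 1) fun z hz => ?_,
          Multiset.map_const', Multiset.sum_replicate, h3, nsmul_eq_mul, mul_one]
        rw [Ctx.T, if_neg, pow_zero]
        rintro rfl
        have h4 := (mem_aroots.1 hz).2
        rw [← coeff_zero_eq_aeval_zero', map_eq_zero] at h4
        exact g.det_ne_zero (by rw [det_eq_sign_charpoly_coeff, h4, mul_zero])
      rw [Pi.smul_apply, Finset.sum_apply, smul_eq_mul, inv_mul_eq_iff_eq_mul₀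
        (by exact_mod_cast k.succ_ne_zero), mul_one, ← h2, ← h1]
      rfl
    · rw [Pi.single_eq_of_ne hj, sum_eq_zero fun (i : Fin (k + 1)) _ =>
        K.hg_mul (hg _ _ (tw 0 _)) (hg _ _ (t1 _)) j (by omega), smul_zero]

end Cfsg.Agent.H44.GbBr
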