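import Cfsg.Agent.H98.GbH

/-! Project GB (S4536), piece `INTB`, part A: the generating series of a Newton sequence. -/

set_option autoImplicit false

namespace Cfsg.Agent.H44.GbInt

open Cfsg.Agent.H98.GB Finset PowerSeries

variable {B : Type*} [CommRing B] [Algebra ℂ B]

/-- The Euler operator. -/
noncomputable def th (f : B⟦X⟧) : B⟦X⟧ := mk fun n => (n : B) * coeff n f
noncomputable def ZZ (Q : ℕ → B) : B⟦X⟧ := mk fun n => if n = 0 then 0 else Q n
noncomputable def EE (Q : ℕ → B) : B⟦X⟧ := mk (nw Q)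

omit [Algebra ℂ B] in
theorem th_mul (f g : B⟦X⟧) : th (f * g) = th f * g + f * th g := by
  ext n
  simp only [th, coeff_mk, map_add, coeff_mul, mul_sum, ← sum_add_distrib]
  refine sum_congr rfl fun p hp => ?_
  rw [← mem_antidiagonal.1 hp]
  push_cast
  ring

omit [Algebra ℂ B] in
theorem coeff_ZZ (Q : ℕ → B) (f : B⟦X⟧) (k : ℕ) :
    coeff (k + 1) (ZZ Q * f) = ∑ i : Fin (k + 1), Q (i + 1) * coeff (k - i) f := by
  rw [coeff_mul, Nat.antidiagonal_succ, sum_cons, sum_map,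
    Nat.sum_antidiagonal_eq_sum_range_succ_mk, Finset.sum_range]
  simp [ZZ]

theorem nw_zero (Q : ℕ → B) : nw Q 0 = 1 := by rw [nw]

theorem nw_succ (Q : ℕ → B) (k : ℕ) :
    nw Q (k + 1) = ((k + 1 : ℕ) : ℂ)⁻¹ • ∑ i : Fin (k + 1), Q (i + 1) * nw Q (k - i) := by rw [nw]

theorem cast_mul (k : ℕ) (x : B) : (k : B) * x = (k : ℂ) • x := by
  rw [Algebra.smul_def, map_natCast]

theorem th_EE (Q : ℕ → B) : th (EE Q) = ZZ Q * EE Q := by
  ext n
  rcases n with _ | k
  · simp [th, ZZ]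
  · rw [coeff_ZZ]
    simp only [th, EE, coeff_mk]
    rw [nw_succ, cast_mul, smul_smul, mul_inv_cancel₀ (by exact_mod_cast k.succ_ne_zero), one_smul]

theorem EE_uniq (Q : ℕ → B) (f : B⟦X⟧) (h0 : coeff 0 f = 1) (h : th f = ZZ Q * f) (n : ℕ) :
    nw Q n = coeff n f := by
  induction n using Nat.strong_induction_on with
  | _ n ih =>
    rcases n with _ | k
    · rw [nw_zero, h0]
    · have e := congrArg (coeff (k + 1)) h
      rw [coeff_ZZ, th, coeff_mk, cast_mul] at e
      rw [nw_succ, sum_congr rfl fun i _ => by rw [ih (k - i) (by omega)], ← e, smul_smul,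
        inv_mul_cancel₀ (by exact_mod_cast k.succ_ne_zero), one_smul]

theorem nw_add (Q Q' : ℕ → B) (n : ℕ) :
    nw (Q + Q') n = ∑ p ∈ antidiagonal n, nw Q p.1 * nw Q' p.2 := by
  have hz : ZZ (Q + Q') = ZZ Q + ZZ Q' := by
    ext k
    simp only [ZZ, coeff_mk, map_add, Pi.add_apply]
    split_ifs <;> simp
  rw [EE_uniq (Q + Q') (EE Q * EE Q') (by simp [EE, nw_zero, coeff_mul])
    (by rw [th_mul, th_EE, th_EE, hz]; ring), coeff_mul]
  simp only [EE, coeff_mk]

theorem nw_null (n : ℕ) : nw (0 : ℕ → B) n = if n = 0 then 1 else 0 := by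
  rw [EE_uniq 0 1 (by simp) (by ext k; rcases k with _ | k <;> simp [th, ZZ, coeff_one]), coeff_one]

/-- The stretched sequence. -/
noncomputable def St (r : ℕ) (c : B) (Y : ℕ → B) (m : ℕ) : B :=
  if r ∣ m then (r : B) * (c ^ (m / r) * Y (m / r)) else 0

theorem nw_St (r : ℕ) (hr : 0 < r) (c : B) (Y : ℕ → B) (n : ℕ) :
    nw (St r c Y) n = if r ∣ n then c ^ (n / r) * nw Y (n / r) else 0 := by
  have h1 : ∀ f : B⟦X⟧, th (expand r hr.ne' (rescale c f)) =
      C (r : B) * expand r hr.ne' (rescale c (th f)) := fun f => by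
    ext k
    simp only [th, coeff_mk, coeff_C_mul, coeff_expand, coeff_rescale]
    split_ifs with h
    · obtain ⟨j, rfl⟩ := h
      rw [Nat.mul_div_cancel_left _ hr]
      push_cast
      ring
    · simp
  have h2 : ZZ (St r c Y) = C (r : B) * expand r hr.ne' (rescale c (ZZ Y)) := by
    ext k
    simp only [ZZ, St, coeff_mk, coeff_C_mul, coeff_expand, coeff_rescale]
    by_cases h : r ∣ k
    · obtain ⟨j, rfl⟩ := h
      rw [Nat.mul_div_cancel_left _ hr]
      rcases j with _ | j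
      · simp
      · simp [hr.ne']
    · simp [h]
  rw [EE_uniq (St r c Y) (expand r hr.ne' (rescale c (EE Y)))
    (by simp [coeff_expand, EE, nw_zero]) (by rw [h1, h2, th_EE, map_mul, map_mul, mul_assoc]),
    coeff_expand, coeff_rescale, EE, coeff_mk]

theorem add_mem (S : Subring B) (n : ℕ) (hn : 0 < n) (Q Q' : ℕ → B) (h : ∀ k < n, nw Q k ∈ S)
    (h' : ∀ k < n, nw Q' k ∈ S) :
    (∀ k < n, nw (Q + Q') k ∈ S) ∧ nw (Q + Q') n - nw Q n - nw Q' n ∈ S := by
  refine ⟨fun k hk => ?_, ?_⟩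
  · rw [nw_add]
    exact S.sum_mem fun p hp => by
      have := mem_antidiagonal.1 hp
      exact S.mul_mem (h _ (by omega)) (h' _ (by omega))
  · have h1 : ((n, 0) : ℕ × ℕ) ∈ antidiagonal n := by simp
    have h2 : ((0, n) : ℕ × ℕ) ∈ (antidiagonal n).erase (n, 0) := by simp [hn.ne]
    rw [nw_add, ← add_sum_erase _ _ h1, ← add_sum_erase _ _ h2, nw_zero, nw_zero, mul_one, one_mul,
      add_sub_cancel_left, add_sub_cancel_left]
    refine S.sum_mem fun p hp => ?_
    simp only [mem_erase, HasAntidiagonal.mem_antidiagonal, ne_eq, Prod.ext_iff] at hp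
    exact S.mul_mem (h _ (by omega)) (h' _ (by omega))

theorem sum_mem' {ι : Type*} (S : Subring B) (n : ℕ) (hn : 0 < n) (T : Finset ι) (Q : ι → ℕ → B)
    (h : ∀ t ∈ T, ∀ k < n, nw (Q t) k ∈ S) :
    (∀ k < n, nw (∑ t ∈ T, Q t) k ∈ S) ∧ nw (∑ t ∈ T, Q t) n - ∑ t ∈ T, nw (Q t) n ∈ S := by
  classical
  induction T using Finset.induction_on with
  | empty =>
    simp only [sum_empty, nw_null, if_neg hn.ne', sub_zero]
    exact ⟨fun k _ => by split_ifs; exacts [S.one_mem, S.zero_mem], S.zero_mem⟩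
  | insert a T ha ih =>
    have ih' := ih fun t ht => h t (mem_insert_of_mem ht)
    have e := add_mem S n hn _ _ (h a (mem_insert_self _ _)) ih'.1
    rw [sum_insert ha, sum_insert ha]
    refine ⟨e.1, ?_⟩
    convert S.add_mem e.2 ih'.2 using 1
    ring

end Cfsg.Agent.H44.GbInt
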