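import Mathlib

/-! Project GB (S4536), piece `INTB`, part B: necklaces as periodic points of the shift. -/

set_option autoImplicit false

namespace Cfsg.Agent.H44.GbInt

open Finset Function

theorem orbit_dec {α M : Type*} [AddCommMonoid M] (σ : α → α) (Ω : Finset α)
    (hp : ∀ x ∈ Ω, x ∈ periodicPts σ) (hc : ∀ x ∈ Ω, σ x ∈ Ω) :
    ∃ T ⊆ Ω, ∀ f : α → M, (∀ x ∈ Ω, f (σ x) = f x) →
      ∑ x ∈ Ω, f x = ∑ x ∈ T, minimalPeriod σ x • f x := by
  classical
  induction Ω using Finset.strongInduction with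
  | H Ω ih =>
    rcases Ω.eq_empty_or_nonempty with rfl | ⟨x, hx⟩
    · exact ⟨∅, subset_rfl, fun f _ => by simp⟩
    have hr := minimalPeriod_pos_of_mem_periodicPts (hp x hx)
    set O := (range (minimalPeriod σ x)).image fun i => σ^[i] x with hO
    have mO : ∀ i, σ^[i] x ∈ O := fun i => mem_image.2
      ⟨_, mem_range.2 (Nat.mod_lt i hr), iterate_mod_minimalPeriod_eq⟩
    have hit : ∀ y ∈ Ω, ∀ i, σ^[i] y ∈ Ω := fun y hy i => by
      induction i with
      | zero => exact hy
      | succ i ih => rw [iterate_succ_apply']; exact hc _ ih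
    have hsub : O ⊆ Ω := fun y hy => by
      obtain ⟨i, -, rfl⟩ := mem_image.1 hy
      exact hit x hx i
    obtain ⟨T, hT, h⟩ := ih (Ω \ O) (sdiff_ssubset hsub ⟨x, mO 0⟩)
      (fun y hy => hp y (mem_sdiff.1 hy).1) fun y hy => by
        refine mem_sdiff.2 ⟨hc y (mem_sdiff.1 hy).1, fun h => (mem_sdiff.1 hy).2 ?_⟩
        obtain ⟨i, -, hi⟩ := mem_image.1 h
        have hy' := minimalPeriod_pos_of_mem_periodicPts (hp y (mem_sdiff.1 hy).1)
        have e : σ^[minimalPeriod σ y - 1 + i] x = y := by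
          rw [iterate_add_apply, hi, ← iterate_succ_apply, Nat.succ_eq_add_one,
            Nat.sub_add_cancel hy', iterate_minimalPeriod]
        exact e ▸ mO _
    have hxT : x ∉ T := fun h => (mem_sdiff.1 (hT h)).2 (mO 0)
    refine ⟨insert x T, insert_subset hx (hT.trans sdiff_subset), fun f hf => ?_⟩
    have hfi : ∀ i, f (σ^[i] x) = f x := fun i => by
      induction i with
      | zero => rfl
      | succ i ih => rw [iterate_succ_apply', hf _ (hit x hx i), ih]
    rw [sum_insert hxT, ← sum_sdiff hsub, h f fun y hy => hf y (mem_sdiff.1 hy).1, add_comm, hO,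
      sum_image fun i hi j hj e => iterate_injOn_Iio_minimalPeriod (by simpa using hi)
        (by simpa using hj) e, sum_congr rfl fun i _ => hfi i, sum_const, card_range]

/-- The shift. -/
def sh (x : ℕ → Bool) : ℕ → Bool := fun i => x (i + 1)
def ex (q : ℕ) (x : ℕ → Bool) (m : ℕ) : ℕ := ∑ i ∈ range m, if x i then q ^ i else 0
def per (m : ℕ) (S : Finset ℕ) : ℕ → Bool := fun i => decide (i % m ∈ S)
open Classical in
noncomputable def Fx (m : ℕ) : Finset (ℕ → Bool) := (range m).powerset.image (per m)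

theorem sh_it (k : ℕ) (x : ℕ → Bool) (i : ℕ) : sh^[k] x i = x (i + k) := by
  induction k generalizing x with
  | zero => rfl
  | succ k ih => rw [iterate_succ_apply, ih]; rfl

theorem per_iff {m : ℕ} {x : ℕ → Bool} : IsPeriodicPt sh m x ↔ ∀ i, x (i + m) = x i := by
  rw [IsPeriodicPt, IsFixedPt, funext_iff]
  simp only [sh_it]

theorem mem_Fx {m : ℕ} (hm : 0 < m) {x : ℕ → Bool} : x ∈ Fx m ↔ IsPeriodicPt sh m x := by
  classical
  rw [Fx, mem_image, per_iff]
  refine ⟨fun ⟨S, _, e⟩ i => by simp [← e, per], fun h => ⟨(range m).filter fun i => x i,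
    mem_powerset.2 (filter_subset _ _), funext fun i => ?_⟩⟩
  have : x (i % m) = x i := Function.Periodic.map_mod_nat (f := x) h i
  simp [per, Nat.mod_lt i hm, this]

theorem filter_per {m : ℕ} {S : Finset ℕ} (hS : S ⊆ range m) :
    (range m).filter (fun i => per m S i) = S := by
  ext i
  simp only [mem_filter, per, decide_eq_true_eq]
  refine ⟨fun h => Nat.mod_eq_of_lt (mem_range.1 h.1) ▸ h.2, fun h => ⟨hS h, ?_⟩⟩
  rwa [Nat.mod_eq_of_lt (mem_range.1 (hS h))]

theorem ex_per (q : ℕ) {m : ℕ} {S : Finset ℕ} (hS : S ⊆ range m) :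
    ex q (per m S) m = ∑ i ∈ S, q ^ i := by
  rw [ex, ← sum_filter, filter_per hS]

theorem sum_Fx {M : Type*} [AddCommMonoid M] (m : ℕ) (f : (ℕ → Bool) → M) :
    ∑ x ∈ Fx m, f x = ∑ S ∈ (range m).powerset, f (per m S) := by
  classical
  rw [Fx, sum_image fun S hS S' hS' e => by
    rw [← filter_per (mem_powerset.1 hS), e, filter_per (mem_powerset.1 hS')]]

theorem ex_sh (q : ℕ) (x : ℕ → Bool) (m : ℕ) (h : IsPeriodicPt sh m x) :
    ex q (sh x) m * q + (if x 0 then 1 else 0) = ex q x m + if x 0 then q ^ m else 0 := by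
  have e := sum_range_succ' (fun i => if x i then q ^ i else 0) m
  rw [sum_range_succ, show x m = x 0 by simpa using per_iff.1 h 0, pow_zero] at e
  rw [ex, ex, e, sum_mul]
  congr 1
  exact sum_congr rfl fun i _ => by rw [sh, ite_mul, zero_mul, pow_succ]

theorem ex_sh_one (x : ℕ → Bool) (m : ℕ) (h : IsPeriodicPt sh m x) : ex 1 (sh x) m = ex 1 x m := by
  simpa using ex_sh 1 x m h

theorem ex_sh_mod (q : ℕ) (hq : 1 ≤ q) (x : ℕ → Bool) (m : ℕ) (h : IsPeriodicPt sh m x) :
    ex q x m ≡ ex q (sh x) m * q [MOD q ^ m - 1] := by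
  have e := ex_sh q x m h
  have : 1 ≤ q ^ m := Nat.one_le_pow _ _ hq
  split_ifs at e
  · have e' : ex q (sh x) m * q = ex q x m + (q ^ m - 1) := by omega
    rw [e']
    exact (Nat.add_modEq_right).symm
  · rw [add_zero, add_zero] at e
    rw [e]

theorem ex_mul (q : ℕ) (x : ℕ → Bool) (r : ℕ) (h : IsPeriodicPt sh r x) (i : ℕ) :
    ex q x (r * i) = ex q x r * ∑ t ∈ range i, q ^ (r * t) := by
  induction i with
  | zero => simp [ex]
  | succ i ih =>
    rw [sum_range_succ, mul_add, mul_add, mul_one, ← ih, ex, sum_range_add, ex, ex, sum_mul]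
    congr 1
    refine sum_congr rfl fun j _ => ?_
    rw [add_comm, per_iff.1 (h.mul_const i), pow_add, ite_mul, zero_mul]

theorem ex_mul_one (x : ℕ → Bool) (r : ℕ) (h : IsPeriodicPt sh r x) (i : ℕ) :
    ex 1 x (r * i) = ex 1 x r * i := by
  simpa using ex_mul 1 x r h i

theorem mp_eq (x : ℕ → Bool) (r : ℕ) (h : IsPeriodicPt sh r x) (h1 : ex 1 x r = 1) :
    minimalPeriod sh x = r := by
  obtain ⟨i, hi⟩ := h.minimalPeriod_dvd
  have e := ex_mul_one x _ (isPeriodicPt_minimalPeriod sh x) i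
  rw [← hi, h1] at e
  rw [Nat.eq_one_of_mul_eq_one_left e.symm, mul_one] at hi
  exact hi.symm

/-- The sum over the periodic points with exactly one mark. -/
theorem sum_one {M : Type*} [AddCommMonoid M] (q r : ℕ) (f : (ℕ → Bool) → M) (y : M)
    (hf : ∀ x k, IsPeriodicPt sh r x → ex 1 x r = 1 → ex q x r = q ^ k → f x = y) (hr : 0 < r) :
    ∑ x ∈ (Fx r).filter (fun x => ex 1 x r = 1), f x = r • y := by
  rw [sum_filter, sum_Fx, ← sum_filter]
  have e : (range r).powerset.filter (fun S => ex 1 (per r S) r = 1) = powersetCard 1 (range r) := by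
    rw [powersetCard_eq_filter]
    exact filter_congr fun S hS => by rw [ex_per 1 (mem_powerset.1 hS)]; simp
  rw [e, sum_congr rfl (g := fun _ => y) fun S hS => ?_, sum_const, card_powersetCard, card_range,
    Nat.choose_one_right]
  obtain ⟨hS, hc⟩ := mem_powersetCard.1 hS
  obtain ⟨k, rfl⟩ := card_eq_one.1 hc
  classical
  exact hf _ k ((mem_Fx hr).1 (mem_image_of_mem _ (mem_powerset.2 hS))) (by simp [ex_per 1 hS])
    (by simp [ex_per q hS])

end Cfsg.Agent.H44.GbInt
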