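import Cfsg.Agent.H44.GbIntA
import Cfsg.Agent.H44.GbIntB

/-! Project GB (S4536), piece `INTB`: integrality of the Newton sequences of necklaces. -/

set_option autoImplicit false

namespace Cfsg.Agent.H44.GbInt

open Cfsg.Agent.H98.GB Finset Function Polynomial

universe u

section
variable {A : Type u} [CommRing A]

/-- The polynomials with coefficients in a subring. -/
def RX (R : Subring A) : Subring A[X] where
  carrier := {p | ∀ k, p.coeff k ∈ R}
  mul_mem' ha hb k := by
    rw [coeff_mul]; exact R.sum_mem fun _ _ => R.mul_mem (ha _) (hb _)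
  one_mem' k := by rw [coeff_one]; split_ifs; exacts [R.one_mem, R.zero_mem]
  add_mem' ha hb k := by rw [coeff_add]; exact R.add_mem (ha k) (hb k)
  zero_mem' _ := R.zero_mem
  neg_mem' ha k := by rw [coeff_neg]; exact R.neg_mem (ha k)

theorem coeff_XC (c k : ℕ) (y : A) : (X ^ c * C y : A[X]).coeff k = if k = c then y else 0 := by
  rw [coeff_mul_C, coeff_X_pow, ite_mul, one_mul, zero_mul]

def YY (P : ℕ → ℕ → A) (q r b : ℕ) : ℕ → A :=
  fun i => P (b * ∑ t ∈ range i, q ^ (r * t)) (r * i)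
noncomputable def FF (P : ℕ → ℕ → A) (q a m : ℕ) (x : ℕ → Bool) : A[X] :=
  if minimalPeriod sh x ∣ m then X ^ ex 1 x m * C (P (a * ex q x m) m) else 0
noncomputable def QQ (P : ℕ → ℕ → A) (q a : ℕ) (x : ℕ → Bool) : ℕ → A[X] :=
  St (minimalPeriod sh x) (X ^ ex 1 x (minimalPeriod sh x))
    fun i => C (YY P q (minimalPeriod sh x) (a * ex q x (minimalPeriod sh x)) i)

theorem QQ_eq (P : ℕ → ℕ → A) (q a m : ℕ) (x : ℕ → Bool) (hx : 0 < minimalPeriod sh x) :
    minimalPeriod sh x • FF P q a m x = QQ P q a x m := by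
  rw [FF, QQ, St]
  split_ifs with h
  · obtain ⟨i, rfl⟩ := h
    have hp := isPeriodicPt_minimalPeriod sh x
    rw [Nat.mul_div_cancel_left _ hx, ex_mul_one x _ hp, ex_mul q x _ hp, nsmul_eq_mul, pow_mul, YY,
      mul_assoc a]
  · rw [smul_zero]

theorem decomp (P : ℕ → ℕ → A) (q : ℕ) (hq : 1 ≤ q)
    (hP : ∀ a a' m, 0 < m → a' ≡ a * q [MOD q ^ m - 1] → P a' m = P a m) (b n r : ℕ) (hr : 0 < r)
    (hn : r ≤ n) : ∃ T : Finset (ℕ → Bool),
      (∀ t ∈ T, 0 < minimalPeriod sh t ∧ ¬ (IsPeriodicPt sh r t ∧ ex 1 t r = 1)) ∧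
      ∀ m, 0 < m → m ≤ n → ∑ S ∈ (range m).powerset,
        (X ^ #S * C (P (b * ∑ i ∈ S, q ^ i) m) : A[X]) =
        (St r X (fun i => C (YY P q r b i)) + ∑ t ∈ T, QQ P q b t) m := by
  classical
  set Ω := (Icc 1 n).biUnion Fx with hΩ
  have mΩ : ∀ x, x ∈ Ω ↔ ∃ m, 0 < m ∧ m ≤ n ∧ IsPeriodicPt sh m x := fun x => by
    simp only [hΩ, mem_biUnion, mem_Icc]
    exact ⟨fun ⟨m, hm, h⟩ => ⟨m, hm.1, hm.2, (mem_Fx hm.1).1 h⟩,
      fun ⟨m, h1, h2, h⟩ => ⟨m, ⟨h1, h2⟩, (mem_Fx h1).2 h⟩⟩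
  have pΩ : ∀ x ∈ Ω, x ∈ periodicPts sh := fun x hx => by
    obtain ⟨m, h1, -, h⟩ := (mΩ x).1 hx
    exact mk_mem_periodicPts h1 h
  obtain ⟨T, hT, hs⟩ := orbit_dec (M := A[X]) sh
    (Ω.filter fun x => ¬ (IsPeriodicPt sh r x ∧ ex 1 x r = 1))
    (fun x hx => pΩ x (mem_filter.1 hx).1) fun x hx => by
      obtain ⟨hx, h⟩ := mem_filter.1 hx
      obtain ⟨m, h1, h2, h3⟩ := (mΩ x).1 hx
      refine mem_filter.2 ⟨(mΩ _).2 ⟨m, h1, h2, h3.apply⟩, fun h' => h ?_⟩
      have : IsPeriodicPt sh r x := by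
        rw [isPeriodicPt_iff_minimalPeriod_dvd, ← minimalPeriod_apply (pΩ x hx),
          ← isPeriodicPt_iff_minimalPeriod_dvd]
        exact h'.1
      exact ⟨this, ex_sh_one x r this ▸ h'.2⟩
  have hpos : ∀ t ∈ T, 0 < minimalPeriod sh t := fun t ht =>
    minimalPeriod_pos_of_mem_periodicPts (pΩ t (mem_filter.1 (hT ht)).1)
  refine ⟨T, fun t ht => ⟨hpos t ht, (mem_filter.1 (hT ht)).2⟩, fun m hm hmn => ?_⟩
  have e1 : ∑ S ∈ (range m).powerset, (X ^ #S * C (P (b * ∑ i ∈ S, q ^ i) m) : A[X]) =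
      ∑ x ∈ Ω, FF P q b m x := by
    have : Ω.filter (fun x => minimalPeriod sh x ∣ m) = Fx m := by
      ext x
      rw [mem_filter, mem_Fx hm, ← isPeriodicPt_iff_minimalPeriod_dvd]
      exact ⟨fun h => h.2, fun h => ⟨(mΩ x).2 ⟨m, hm, hmn, h⟩, h⟩⟩
    simp only [FF]
    rw [← sum_filter, this, sum_Fx]
    refine sum_congr rfl fun S hS => ?_
    rw [ex_per _ (mem_powerset.1 hS), ex_per _ (mem_powerset.1 hS)]
    simp
  have e2 : Ω.filter (fun x => IsPeriodicPt sh r x ∧ ex 1 x r = 1) =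
      (Fx r).filter fun x => ex 1 x r = 1 := by
    ext x
    rw [mem_filter, mem_filter, mem_Fx hr]
    exact ⟨fun h => h.2, fun h => ⟨(mΩ x).2 ⟨r, hr, hn, h.1⟩, h⟩⟩
  have hPk : ∀ a k, P (a * q ^ k) m = P a m := fun a k => by
    induction k with
    | zero => rw [pow_zero, mul_one]
    | succ k ih => rw [← ih, pow_succ, ← mul_assoc]; exact hP _ _ m hm rfl
  rw [e1, ← sum_filter_add_sum_filter_not Ω (fun x => IsPeriodicPt sh r x ∧ ex 1 x r = 1), e2,
    hs (FF P q b m) fun x hx => ?_, sum_one q r (FF P q b m)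
      (if r ∣ m then X ^ (m / r) * C (YY P q r b (m / r)) else 0) (fun x k h1 h2 h3 => ?_) hr,
    Pi.add_apply, Finset.sum_apply, sum_congr rfl fun t ht => QQ_eq P q b m t (hpos t ht), St]
  · split_ifs <;> simp
  · rw [FF, mp_eq x r h1 h2]
    split_ifs with h
    · obtain ⟨i, rfl⟩ := h
      rw [Nat.mul_div_cancel_left _ hr, ex_mul_one x r h1, ex_mul q x r h1, h2, h3, one_mul, YY,
        mul_comm (q ^ k), ← mul_assoc, hPk]
    · rfl
  · rw [FF, FF, minimalPeriod_apply (pΩ x (mem_filter.1 hx).1)]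
    split_ifs with h
    · have hp := isPeriodicPt_iff_minimalPeriod_dvd.2 h
      rw [ex_sh_one x m hp, hP (b * ex q (sh x) m) (b * ex q x m) m hm
        (by rw [mul_assoc]; exact (ex_sh_mod q hq x m hp).mul_left b)]
    · rfl

end

theorem intb (hN : NWEHStmt.{u}) : INTBStmt.{u} := by
  intro A _ _ R q hq P hP H
  have hC : ∀ (Y : ℕ → A) (k : ℕ), nw (fun i => (C (Y i) : A[X])) k = C (nw Y k) := fun Y k =>
    (((hN A).2.2.2.1 A[X] CAlgHom Y).1 k).symm
  have hSt : ∀ r, 0 < r → ∀ (c : ℕ) (Y : ℕ → A) (k : ℕ), nw (St r (X ^ c) fun i => C (Y i)) k =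
      if r ∣ k then X ^ (c * (k / r)) * C (nw Y (k / r)) else 0 := fun r hr c Y k => by
    rw [nw_St r hr, hC, pow_mul]
  suffices h : ∀ n j r b, 0 < r → r * j = n → nw (YY P q r b) j ∈ R from
    fun r hr b j => h _ j r b hr rfl
  intro n
  induction n using Nat.strong_induction_on with
  | _ n ihn =>
    intro j
    induction j using Nat.strong_induction_on with
    | _ j ihj =>
      intro r b hr hn
      rcases Nat.eq_zero_or_pos j with rfl | hj
      · rw [nw_zero]; exact R.one_mem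
      have hn0 : 0 < n := hn ▸ Nat.mul_pos hr hj
      have good : ∀ r', 0 < r' → ∀ c b', ∀ k < n,
          nw (St r' (X ^ c) fun i => C (YY P q r' b' i)) k ∈ RX R := fun r' hr' c b' k hk l => by
        rw [hSt r' hr']
        split_ifs with h
        · rw [coeff_XC]
          split_ifs
          · exact ihn k hk _ r' b' hr' (Nat.mul_div_cancel' h)
          · exact R.zero_mem
        · exact R.zero_mem
      obtain ⟨T, hT, hd⟩ := decomp P q (by omega) hP b n r hr (hn ▸ Nat.le_mul_of_pos_right r hj)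
      have h1 := sum_mem' (RX R) n hn0 T (QQ P q b) fun t ht => good _ (hT t ht).1 _ _
      have h2 := (add_mem (RX R) n hn0 _ _ (by simpa only [pow_one] using good r hr 1 b) h1.1).2
      have h3 := H b n j
      rw [((hN A[X]).1 _ _ n).2 hd n le_rfl] at h3
      have h4 : (∑ t ∈ T, nw (QQ P q b t) n).coeff j ∈ R := by
        rw [finsetSum_coeff]
        refine R.sum_mem fun t ht => ?_
        rw [QQ, hSt _ (hT t ht).1]
        split_ifs with h
        · rw [coeff_XC]
          split_ifs with h'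
          · obtain ⟨j', hj'⟩ := h
            rw [hj', Nat.mul_div_cancel_left _ (hT t ht).1] at h' ⊢
            refine ihj j' ?_ _ _ (hT t ht).1 hj'.symm
            by_contra hc
            have hj0 : 0 < j' := by omega
            have hc1 : ex 1 t (minimalPeriod sh t) = 1 := by
              rcases hx : ex 1 t (minimalPeriod sh t) with _ | _ | c
              · rw [hx] at h'; omega
              · rfl
              · rw [hx] at h'; nlinarith
            rw [hc1, one_mul] at h'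
            have hr' : minimalPeriod sh t = r :=
              Nat.eq_of_mul_eq_mul_right hj (by rw [hn, hj', h'])
            exact (hT t ht).2 ⟨hr' ▸ isPeriodicPt_minimalPeriod sh t, hr' ▸ hc1⟩
          · exact R.zero_mem
        · exact R.zero_mem
      have h5 : (nw (St r X fun i => (C (YY P q r b i) : A[X])) n).coeff j = nw (YY P q r b) j := by
        have := hSt r hr 1 (YY P q r b) n
        rw [pow_one] at this
        rw [this, ← hn, if_pos (dvd_mul_right r j), Nat.mul_div_cancel_left _ hr, one_mul, coeff_XC,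
          if_pos rfl]
      have h6 := R.sub_mem (R.sub_mem (R.sub_mem h3 (h2 j)) (h1.2 j)) h4
      rw [← h5]
      convert h6 using 1
      simp only [coeff_sub]
      ring

end Cfsg.Agent.H44.GbInt
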