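import Cfsg.Agent.H99.HNSet

/-! Project HN3, piece S4: the action of `N(J)` on `J`. -/

set_option autoImplicit false
set_option synthInstance.maxSize 2000

namespace Cfsg.Agent.H44.HnS4

open Cfsg Subgroup Equiv Cfsg.Agent.H99.HN
open Cfsg.Agent.H91 (SL25 slX slY)
open Cfsg.Agent.H67.T3 (slF)

universe u

/-- the vector with a given code -/
def dc (k : ℕ) : W4 := ![(k : ZMod 3), (k / 3 : ℕ), (k / 9 : ℕ), (k / 27 : ℕ)]
/-- the code of a vector -/
def en (v : W4) : ℕ := (v 0).val + 3 * (v 1).val + 9 * (v 2).val + 27 * (v 3).val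

theorem dc_en (v : W4) : en v < 81 ∧ dc (en v) = v := by
  have : ∀ a b c d : ZMod 3, en ![a, b, c, d] < 81 ∧ dc (en ![a, b, c, d]) = ![a, b, c, d] := by
    decide +kernel
  have e : v = ![v 0, v 1, v 2, v 3] := by ext i; fin_cases i <;> rfl
  rw [e]; exact this ..

def tD : ℕ := 208136672052279725123498994312672316896407809112196720383432561116894275882762677724762605083947252909537632917731794798002215778148420581348968364179600729663745714511744
def tR : ℕ := 69242109221678265907702748589769889282263967057504681497654499584242192407056454609237452901764940935178086683720078554204532604086141893324408671045306956454296831222144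
def tS : ℕ := 154780008284377335182263412086490436820760012151974833042162165434817731405689533298913848818336988999312528066847553723522515555320347100751285402266619497228997861053440

/-- one generator on codes -/
def st (g k : ℕ) : ℕ :=
  Nat.mod (Nat.shiftRight (bif Nat.beq g 1 then tD else bif Nat.beq g 2 then tR else tS)
    (Nat.mul 7 k)) 128

/-- a word of length at most `l` on codes -/
def ev : ℕ → ℕ → ℕ → ℕ
  | 0, _, k => k
  | l + 1, w, k => bif Nat.beq w 0 then k else st (Nat.mod w 4) (ev l (Nat.div w 4) k)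

theorem st_ok : ∀ k < 81, (st 1 k < 81 ∧ dc (st 1 k) = mD (dc k)) ∧
    (st 2 k < 81 ∧ dc (st 2 k) = mR (dc k)) ∧ (st 3 k < 81 ∧ dc (st 3 k) = mS (dc k)) := by
  decide +kernel

def wM : List ℕ :=
  [0, 5, 11, 91, 103, 119, 153, 157, 175, 181, 422, 429, 438, 445, 474, 502, 870, 873, 877, 886,
   893, 985, 1383, 1399, 1433, 1437, 1622, 1629, 1647, 1653, 1695, 1759, 1878, 1881, 1909, 2471,
   2487, 2517, 2523, 2551, 2669, 2678, 2685, 2781, 2919, 3417, 3487, 5558, 5594, 5990, 5993,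
   5997, 6006, 6551, 6875, 6903, 6999, 7013, 7019, 7131, 7575, 8043, 9581, 9590, 9693, 9910,
   9917, 9946, 9974, 10202, 11702, 11709, 11738, 11766, 12137, 12141, 13911, 13925, 13979, 14007,
   14037, 14043, 14071, 15771, 15783, 15799, 22127, 22239, 22967, 23003, 23031, 23399, 23967,
   26075, 26230, 26237, 26333, 27610, 28118, 28121, 30107, 30317, 30333, 30425, 30429, 39287,
   39647, 39766, 39791, 39797, 39903, 40283, 40295, 42679, 42715, 42743, 42859, 42971, 44471,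
   46439, 46685, 46709, 46751, 46815, 46937, 48543, 55670, 55773, 56282, 63158, 63165, 63194,
   88939, 91866, 91894, 93622, 93629, 93658, 93686, 95899, 95927, 95963, 105894, 109999, 110005,
   112247, 112285, 114095, 121463, 153307, 155063, 157558, 158571, 158683, 159595, 170714,
   170970, 177882, 177910, 178138, 179629, 179638, 185782, 187127, 187223, 194231, 219551,
   222839, 224117, 224603, 224687, 252341, 252527, 252783, 367471, 367583, 419803, 421287,
   423271, 423321, 423583, 480887, 485111, 486253, 634329, 682863, 711535, 711647, 746971,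
   1497847, 2481007, 2874075]
def wZ : List ℕ :=
  [0, 3, 13, 15, 54, 55, 61, 217, 218, 219, 221, 246, 247, 869, 873, 875, 877, 879, 885, 985,
   987, 3477, 3479, 3503, 3509, 3510, 3517, 3542, 3943, 13917, 14037, 14041]
def wE : List ℕ :=
  [0, 1, 2, 3, 6, 7, 9, 25, 38, 39, 41, 54, 55, 102, 103, 105, 118, 119, 166, 167, 182, 183, 246,
   247, 422, 423, 438, 439, 502, 503, 630, 631, 694, 695, 758, 759, 1462, 1463, 1655, 1719, 1782,
   1783, 2487, 2551, 3494, 3511, 6583, 7590]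

/-- the basis vectors -/
def bs (i : Fin 4) : W4 := dc (3 ^ i.val)

theorem mon_ok : ∀ (σ : Perm (Fin 4)), ∀ k < 81, Det1 (dc k) σ →
    ∃ w ∈ wM, ∀ i : Fin 4, ev 11 w (3 ^ i.val) = en (dc k * bs i ∘ σ) := by decide +kernel

theorem tz_ok : ∀ k < 81, dc k ≠ 0 → qf (dc k) = 0 → ∃ w ∈ wZ, ev 11 w 31 = k := by decide +kernel

theorem te_ok : ∀ k < 81, qf (dc k) ≠ 0 → ∃ w ∈ wE, ev 11 w k = 27 := by decide +kernel

/-- the condition on the image of one basis vector -/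
def P1 (a : W4) : Prop := qf a ≠ 0 ∧ qf (a + bs 3) ≠ 0 ∧ qf (a - bs 3) ≠ 0
instance (a : W4) : Decidable (P1 a) := by unfold P1; infer_instance
/-- the condition on the images of two basis vectors -/
def P2 (a b : W4) : Prop := qf (a + b + bs 3) = 0 ∧ qf (a + b - bs 3) = 0 ∧
  qf (a - b + bs 3) = 0 ∧ qf (a - b - bs 3) = 0
instance (a b : W4) : Decidable (P2 a b) := by unfold P2; infer_instance
/-- the conclusion for the stabilizer -/
def P3 (a b c : W4) : Prop := ∃ σ : Perm (Fin 4),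
  (∀ i, (a + b + c + bs 3) * bs i ∘ σ = ![a, b, c, bs 3] i) ∧
    (Det1 (a + b + c + bs 3) σ ∨ Det1 (![1, 1, -1, 1] * (a + b + c + bs 3)) σ)
instance (a b c : W4) : Decidable (P3 a b c) := by unfold P3; infer_instance

theorem stab_ok : ∀ a < 81, P1 (dc a) → ∀ b < 81, P1 (dc b) → P2 (dc a) (dc b) → ∀ c < 81, P1 (dc c) →
    P2 (dc a) (dc c) → P2 (dc b) (dc c) → P3 (dc a) (dc b) (dc c) := by decide +kernel

theorem ind {P : W4 → Prop} (h0 : P 0) (h : ∀ v i, P v → P (v + bs i)) (v : W4) : P v := by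
  have key : ∀ (n : ℕ) v i, P v → P (v + n • bs i) := fun n v i hv => by
    induction n with
    | zero => simpa using hv
    | succ n ih => rw [succ_nsmul, ← add_assoc]; exact h _ _ ih
  have : ∀ a b c d : ZMod 3, (![a, b, c, d] : W4) =
      0 + a.val • bs 0 + b.val • bs 1 + c.val • bs 2 + d.val • bs 3 := by decide +kernel
  have e : v = ![v 0, v 1, v 2, v 3] := by ext i; fin_cases i <;> rfl
  rw [e, this]
  exact key _ _ _ (key _ _ _ (key _ _ _ (key _ _ _ h0)))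

variable {G : Type u} [Group G] {z : G} {Q : Subgroup G} {ι : SL25 →* G} {j : W4 → G}

section
variable (g : Geo z Q ι j)
include g

theorem j0 : j 0 = 1 := mul_eq_left.1 ((g.add 0 0).symm.trans (by rw [add_zero]))

theorem jsub (v w : W4) : j (v - w) = j v * (j w)⁻¹ := by
  rw [eq_mul_inv_iff_mul_eq, ← g.add, sub_add_cancel]

theorem jinj : Function.Injective j := fun v w e =>
  sub_eq_zero.1 (g.inj _ (by rw [jsub g, e, mul_inv_cancel]))

theorem jz {v : W4} (h : j v ∈ zpowers z) [Finite G] : v 0 = v 1 ∧ v 2 = 0 := by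
  obtain ⟨n, hn⟩ := mem_powers_iff_mem_zpowers.2 h
  have : ∀ n : ℕ, z ^ n = j (n • ![1, 1, 0, 1]) := fun n => by
    induction n with
    | zero => rw [pow_zero, zero_smul, j0 g]
    | succ n ih => rw [pow_succ, succ_nsmul, g.add, ih, g.jz]
  rw [← jinj g ((this n).symm.trans hn)]
  simp

theorem nj_inv {n : G} (h : NJ j n) : NJ j n⁻¹ := by
  choose f hf using h
  intro v
  obtain ⟨w, rfl⟩ := Finite.surjective_of_injective (f := f) (fun a b e => jinj g (by
    have := (hf a).trans ((congrArg j e).trans (hf b).symm)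
    simpa using this)) v
  exact ⟨w, by rw [← hf]; group⟩

theorem word (l w : ℕ) : ∃ n : G, ∀ k < 81, ev l w k < 81 ∧ n * j (dc k) * n⁻¹ = j (dc (ev l w k)) := by
  induction l generalizing w with
  | zero => exact ⟨1, fun k hk => ⟨hk, by simp [ev]⟩⟩
  | succ l ih =>
    obtain ⟨n, hn⟩ := ih (Nat.div w 4)
    have key : ∀ (c : ℕ) (m : G) (f : W4 → W4), (∀ v, m * j v * m⁻¹ = j (f v)) →
        (∀ k < 81, st c k < 81 ∧ dc (st c k) = f (dc k)) → ∃ n : G, ∀ k < 81,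
          st c (ev l (Nat.div w 4) k) < 81 ∧
            n * j (dc k) * n⁻¹ = j (dc (st c (ev l (Nat.div w 4) k))) := fun c m f h1 h2 =>
      ⟨m * n, fun k hk => ⟨(h2 _ (hn k hk).1).1, by
        rw [(h2 _ (hn k hk).1).2, ← h1, ← (hn k hk).2]; group⟩⟩
    obtain ⟨-, r, -, -, -, hr⟩ := g.r1
    obtain ⟨s, hs⟩ := g.r2
    unfold ev
    cases Nat.beq w 0
    · simp only [Bool.cond_false]
      rcases (show Nat.mod w 4 = 1 ∨ Nat.mod w 4 = 2 ∨ ∀ k, st (Nat.mod w 4) k = st 3 k by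
        generalize Nat.mod w 4 = c
        rcases c with _ | _ | _ | c
        exacts [.inr (.inr fun _ => rfl), .inl rfl, .inr (.inl rfl), .inr (.inr fun _ => rfl)])
        with e | e | e <;> simp only [e]
      exacts [key 1 _ _ g.jd fun k hk => (st_ok k hk).1, key 2 _ _ hr fun k hk => (st_ok k hk).2.1,
        key 3 _ _ hs fun k hk => (st_ok k hk).2.2]
    · exact ⟨1, fun k hk => ⟨hk, by simp⟩⟩

theorem word' (w : ℕ) : ∃ n : G, NJ j n ∧ NJ j n⁻¹ ∧
    ∀ k < 81, n * j (dc k) * n⁻¹ = j (dc (ev 11 w k)) := by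
  obtain ⟨n, hn⟩ := word g 11 w
  have : NJ j n := fun v => ⟨_, (dc_en v).2 ▸ (hn _ (dc_en v).1).2⟩
  exact ⟨n, this, nj_inv g this, fun k hk => (hn k hk).2⟩

theorem of_basis {n : G} {ε : W4} {σ : Perm (Fin 4)}
    (h : ∀ i, n * j (bs i) * n⁻¹ = j (ε * bs i ∘ σ)) : ∀ v, n * j v * n⁻¹ = j (ε * v ∘ σ) := by
  refine ind (by rw [Pi.zero_comp, mul_zero, j0 g]; group) fun v i hv => ?_
  rw [g.add, ← conj_mul, hv, h, ← g.add, Pi.add_comp, mul_add]

theorem exM (ε : W4) (σ : Perm (Fin 4)) (h : Det1 ε σ) :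
    ∃ n, ∀ v, n * j v * n⁻¹ = j (ε * v ∘ σ) := by
  obtain ⟨h1, h2⟩ := dc_en ε
  obtain ⟨w, -, hw⟩ := mon_ok σ _ h1 (h2.symm ▸ h)
  obtain ⟨n, -, -, hn⟩ := word' g w
  refine ⟨n, of_basis g fun i => ?_⟩
  rw [bs, hn _ (by revert i; decide), hw, (dc_en _).2, h2, bs]

theorem tz (v : W4) (h0 : v ≠ 0) (h : qf v = 0) :
    ∃ n, NJ j n ∧ NJ j n⁻¹ ∧ n * j ![1, 1, 0, 1] * n⁻¹ = j v := by
  obtain ⟨h1, h2⟩ := dc_en v
  obtain ⟨w, -, hw⟩ := tz_ok _ h1 (h2.symm ▸ h0) (h2.symm ▸ h)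
  obtain ⟨n, k1, k2, hn⟩ := word' g w
  exact ⟨n, k1, k2, by rw [← h2, ← hw, ← hn _ (by decide), show dc 31 = ![1, 1, 0, 1] by decide]⟩

theorem te (v : W4) (h : qf v ≠ 0) :
    ∃ n, NJ j n ∧ NJ j n⁻¹ ∧ n * j v * n⁻¹ = j ![0, 0, 0, 1] := by
  obtain ⟨h1, h2⟩ := dc_en v
  obtain ⟨w, -, hw⟩ := te_ok _ h1 (h2.symm ▸ h)
  obtain ⟨n, k1, k2, hn⟩ := word' g w
  exact ⟨n, k1, k2, by rw [← h2, hn _ h1, hw, show dc 27 = ![0, 0, 0, 1] by decide]⟩

theorem ιu (v : W4) : ι (-1) * j v * (ι (-1))⁻¹ = j ![v 1, v 0, -v 2, v 3] := by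
  have : ∀ a b c d : ZMod 3, mD (mD ![a, b, c, d]) = ![b, a, -c, d] := by decide +kernel
  have e : v = ![v 0, v 1, v 2, v 3] := by ext i; fin_cases i <;> rfl
  rw [← this, ← e, ← g.jd, ← g.jd, ← H67.T3.slF_sq, map_mul]; group

variable [Finite G]

theorem no_diag (t : T1 z Q ι) {n : G} (h : ∀ v, n * j v * n⁻¹ = j (![1, 1, -1, 1] * v)) :
    False := by
  have nz : n * z = z * n := mul_inv_eq_iff_eq_mul.1 (by
    rw [← g.jz, h]; exact congrArg j (by decide))
  have nx : n * ι slX * n⁻¹ = ι slX := by rw [← g.jx, h]; exact congrArg j (by decide)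
  obtain ⟨q, hq, k, rfl⟩ := t.dec n nz
  have h1 : k * slX * k⁻¹ * slX⁻¹ = 1 := t.ιQ _ (by
    have : ι (k * slX * k⁻¹ * slX⁻¹) = q⁻¹ * (ι slX * q * (ι slX)⁻¹) := by
      rw [map_mul, map_mul, map_mul, map_inv, map_inv]
      exact (by group : _ = q⁻¹ * (q * ι k * ι slX * (q * ι k)⁻¹) * q * (ι slX)⁻¹).trans
        (by rw [nx]; group)
    rw [this]
    exact mul_mem (inv_mem hq) (t.nQ _ (by rw [t.ιz, mul_inv_cancel_right]; exact mem_zpowers z) q hq))
  have cx : ∀ (i : ℕ) v, ι (slX ^ i) * j v * (ι (slX ^ i))⁻¹ = j v := fun i v => by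
    rw [mul_inv_eq_iff_eq_mul, map_pow, ← g.jx]
    exact (Commute.pow_left (by rw [Commute, SemiconjBy, ← g.add, ← g.add, add_comm]) i).eq
  have key : ∀ v : W4, v 0 + v 1 + v 3 = 0 → q * j v * q⁻¹ = j ![1, -1, -1, 0] →
      (![1, -1, -1, 0] - v : W4) 0 = (![1, -1, -1, 0] - v : W4) 1 ∧
        (![1, -1, -1, 0] - v : W4) 2 = 0 := fun v hv e =>
    jz g (by rw [jsub g, ← e]; exact t.QQ q hq _ ((g.jQ v).2 hv))
  have h2 : q * (ι k * j ![1, -1, 1, 0] * (ι k)⁻¹) * q⁻¹ = j ![1, -1, -1, 0] :=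
    (by group : _ = q * ι k * j ![1, -1, 1, 0] * (q * ι k)⁻¹).trans
      ((h _).trans (congrArg j (by decide)))
  obtain ⟨i, rfl | rfl⟩ := H67.T3.sl_cent k (mul_inv_eq_iff_eq_mul.1 (mul_inv_eq_one.1 h1))
  · rw [cx] at h2
    exact absurd (key _ (by decide) h2) (by decide)
  · rw [map_mul, show ∀ a b c : G, a * b * c * (a * b)⁻¹ = a * (b * c * b⁻¹) * a⁻¹ from
      fun a b c => by group, ιu g, cx] at h2
    exact absurd (key _ (by decide) h2) (by decide)

theorem stab (t : T1 z Q ι) (n : G) (hn : NJ j n)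
    (h3 : n * j ![0, 0, 0, 1] = j ![0, 0, 0, 1] * n) :
    ∃ ε σ, Det1 ε σ ∧ ∀ v, n * j v * n⁻¹ = j (ε * v ∘ σ) := by
  choose M hM using hn
  have ad : ∀ v w, M (v + w) = M v + M w := fun v w =>
    jinj g (by rw [← hM, g.add, g.add, ← hM, ← hM, conj_mul])
  have sb : ∀ v w, M (v - w) = M v - M w := fun v w => by
    rw [eq_sub_iff_add_eq, ← ad, sub_add_cancel]
  have m3 : M (bs 3) = bs 3 := jinj g (by
    rw [← hM, show bs 3 = ![0, 0, 0, 1] by decide, h3, mul_inv_cancel_right])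
  have cz : ∀ v, v ≠ 0 → qf v = 0 → IsConj z (j v) := fun v h0 h => by
    obtain ⟨m, -, -, e⟩ := tz g v h0 h
    exact isConj_iff.2 ⟨m, g.jz ▸ e⟩
  have q1 : ∀ v, v ≠ 0 → qf v = 0 → qf (M v) = 0 := fun v h0 h =>
    g.ty _ ((cz v h0 h).trans (isConj_iff.2 ⟨n, hM v⟩))
  have q2 : ∀ v, qf v ≠ 0 → qf (M v) ≠ 0 := fun v h e => h (g.ty _ ((cz _ (fun k => h (by
    have := hM v
    rw [k, j0 g, conj_eq_one_iff] at this
    rw [g.inj v this]; decide)) e).trans (isConj_iff.2 ⟨n, hM v⟩).symm))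
  have p1 : ∀ i, P1 (bs i) → P1 (dc (en (M (bs i)))) := fun i h => by
    rw [(dc_en _).2, P1, ← m3, ← ad, ← sb]
    exact ⟨q2 _ h.1, q2 _ h.2.1, q2 _ h.2.2⟩
  have p2 : ∀ i k : Fin 3, i < k →
      P2 (dc (en (M (bs i.castSucc)))) (dc (en (M (bs k.castSucc)))) := fun i k h => by
    rw [(dc_en _).2, (dc_en _).2, P2, ← m3, ← ad, ← sb, ← ad, ← sb, ← ad, ← sb]
    refine ⟨q1 _ ?_ ?_, q1 _ ?_ ?_, q1 _ ?_ ?_, q1 _ ?_ ?_⟩ <;> revert i k <;> decide +kernel
  obtain ⟨σ, h1, h2⟩ := stab_ok _ (dc_en _).1 (p1 0 (by decide)) _ (dc_en _).1 (p1 1 (by decide))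
    (p2 0 1 (by decide)) _ (dc_en _).1 (p1 2 (by decide)) (p2 0 2 (by decide)) (p2 1 2 (by decide))
  simp only [(dc_en _).2] at h1 h2
  generalize M (bs 0) + M (bs 1) + M (bs 2) + bs 3 = ε at h1 h2
  have h4 := of_basis g (n := n) (ε := ε) (σ := σ) fun i => by
    rw [hM, h1]
    fin_cases i
    exacts [rfl, rfl, rfl, congrArg j m3]
  refine ⟨ε, σ, h2.resolve_right fun h => ?_, h4⟩
  obtain ⟨m, hm⟩ := exM g _ _ h
  refine no_diag g t (n := n * m⁻¹) fun u => ?_
  obtain ⟨v, hv⟩ := nj_inv g (fun v => ⟨_, hm v⟩) u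
  have e : u = ![1, 1, -1, 1] * ε * v ∘ σ := jinj g (by rw [← hm, ← hv]; group)
  rw [show n * m⁻¹ * j u * (n * m⁻¹)⁻¹ = n * (m⁻¹ * j u * m⁻¹⁻¹) * n⁻¹ by group, hv, h4, e,
    ← mul_assoc, ← mul_assoc, show (![1, 1, -1, 1] * ![1, 1, -1, 1] : W4) = 1 by decide, one_mul]

end

theorem s4 : S4Stmt.{u} := by
  intro G _ _ z Q ι j t g
  refine ⟨fun x hx => g.cA x fun a ha => ?_, exM g, stab g t, ιu g, fun r h1 h2 => ?_,
    fun h => absurd (g.ty _ (g.jz ▸ h.symm)) (by decide), tz g, te g⟩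
  · obtain ⟨v, rfl⟩ := g.jA a ha
    exact hx v
  · rw [g.jz] at h1 ⊢
    obtain ⟨q, hq, k, rfl⟩ := t.dec r h1
    have e : ι (-1) * q * (ι (-1))⁻¹ = q := by
      rw [mul_assoc q, ← map_mul, show k * -1 = -1 * k by simp, map_mul, ← mul_assoc, ← mul_assoc,
        mul_left_inj] at h2
      rw [← h2, mul_inv_cancel_right]
    have h3 := t.inv q hq
    rw [e] at h3
    obtain ⟨i, hi⟩ := mem_powers_iff_mem_zpowers.2 (show q ∈ zpowers z by
      rw [show q = q * q * (q * q) by rw [show q * q * (q * q) = q ^ 3 * q by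
        simp only [pow_succ, pow_zero, one_mul, mul_assoc], t.Qe q hq, one_mul]]
      exact mul_mem h3 h3)
    exact ⟨i, k, by rw [← hi]⟩

end Cfsg.Agent.H44.HnS4
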