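import Cfsg.Agent.H76.K0Defs
import Cfsg.Agent.H21.Basic
import Cfsg.Agent.H19.GaloisBlock

set_option autoImplicit false

namespace Cfsg.Agent.H44.K0Fw3

open Cfsg Cfsg.Agent.H76.K0

universe u

theorem three {X : Type u} (h : Nat.card X = 3) (t : X) :
    ∃ x y : X, t ≠ x ∧ t ≠ y ∧ x ≠ y ∧ ∀ {A : Type} [AddCommMonoid A] (f : X → A), ∑ᶠ z, f z = f t + f x + f y := by
  classical
  have : Finite X := Nat.finite_of_card_ne_zero (by omega)
  have := Fintype.ofFinite X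
  have h2 : (Finset.univ.erase t).card = 2 := by
    rw [Finset.card_erase_of_mem (Finset.mem_univ t), Finset.card_univ, ← Nat.card_eq_fintype_card, h]
  obtain ⟨x, y, hxy, he⟩ := Finset.card_eq_two.mp h2
  have hx : x ∈ Finset.univ.erase t := by rw [he]; simp
  have hy : y ∈ Finset.univ.erase t := by rw [he]; simp
  refine ⟨x, y, (Finset.ne_of_mem_erase hx).symm, (Finset.ne_of_mem_erase hy).symm, hxy, fun f => ?_⟩
  rw [finsum_eq_sum_of_fintype, ← Finset.add_sum_erase _ _ (Finset.mem_univ t), he, Finset.sum_pair hxy, add_assoc]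

theorem fin9 (d e : ℕ) (b c : ℤ) (hb : b = 1 ∨ b = -1) (hc : c = 1 ∨ c = -1) (hd : (3 : ℤ) ∣ b - d)
    (he : (3 : ℤ) ∣ c - e) (h : 1 + b * d + c * e = 0 ∨ 1 + b * d + c * e = 3) : ¬ 9 ∣ 1 + d ^ 2 + e ^ 2 := by
  intro h9
  have key : ∀ k : ℕ, ¬ 9 ∣ 1 + (3 * k + 1) ^ 2 + (3 * k + 2) ^ 2 ∧ ¬ 9 ∣ 1 + (3 * k + 4) ^ 2 + (3 * k + 2) ^ 2 := by
    intro k
    have e1 : 1 + (3 * k + 1) ^ 2 + (3 * k + 2) ^ 2 = 9 * (2 * k ^ 2 + 2 * k) + 6 := by ring
    have e2 : 1 + (3 * k + 4) ^ 2 + (3 * k + 2) ^ 2 = 9 * (2 * k ^ 2 + 4 * k + 2) + 3 := by ring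
    rw [e1, e2]
    constructor <;> omega
  rcases hb with rfl | rfl <;> rcases hc with rfl | rfl
  · obtain ⟨rfl, rfl⟩ : d = 1 ∧ e = 1 := by omega
    omega
  · obtain ⟨k, rfl⟩ : ∃ k, e = 3 * k + 2 := ⟨e / 3, by omega⟩
    rcases h with h | h
    · obtain rfl : d = 3 * k + 1 := by omega
      exact (key k).1 h9
    · obtain rfl : d = 3 * k + 4 := by omega
      exact (key k).2 h9
  · obtain ⟨k, rfl⟩ : ∃ k, d = 3 * k + 2 := ⟨d / 3, by omega⟩
    rw [add_right_comm] at h9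
    rcases h with h | h
    · obtain rfl : e = 3 * k + 1 := by omega
      exact (key k).1 h9
    · obtain rfl : e = 3 * k + 4 := by omega
      exact (key k).2 h9
  · omega

theorem fw3 (r0 : R0Stmt.{u}) (tri : TriStmt.{u}) (ar : ArStmt) : Fw3Stmt.{u} := by
  intro G _ _ p hp M hM P h3
  obtain ⟨h1, h2, h4, h5⟩ := r0 G p M hM P
  have hP : p ∣ Nat.card P := by
    by_contra h
    have := h5 h
    omega
  let t : Ht0 p M G := ⟨H21.triv G, H21.triv_mem_principal hM.2.1, by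
    change ¬ p ∣ charDegree (fun _ : G => (1 : ℂ))
    rw [H21.charDegree_one]; exact hp.out.not_dvd_one⟩
  have ht : charDegree (t.1 : G → ℂ) = 1 := H21.charDegree_one
  obtain ⟨x, y, hx, hy, hxy, hs⟩ := three h3 t
  set d := charDegree (x.1 : G → ℂ) with hd
  set e := charDegree (y.1 : G → ℂ) with he
  have hdp : ¬ p ∣ d := x.2.2
  have hep : ¬ p ∣ e := y.2.2
  have h2' := h2 hP
  rw [hs, ht, ← hd, ← he, one_pow] at h2' h4
  have hp0 : (p : ℂ) ≠ 0 := Nat.cast_ne_zero.mpr hp.out.ne_zero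
  have hint : ∀ a b c : ℤ, (p : ℤ) ∣ b - a * d → (p : ℤ) ∣ c - a * e → ∀ g,
      IsIntegral ℤ (((a : ℂ) + b * (x.1 : G → ℂ) g + c * (y.1 : G → ℂ) g) / p) := by
    rintro a b c ⟨m, hm⟩ ⟨n, hn⟩ g
    obtain ⟨α, hα, h⟩ := h1 hP g
    rw [hs, ht] at h
    have h' : (1 : ℂ) + d * (x.1 : G → ℂ) g + e * (y.1 : G → ℂ) g = p * α := by
      rw [← h]; simp [t, H21.triv_apply, hd, he]
    have hb : (b : ℂ) = a * d + p * m := by
      have : b = a * d + p * m := by linarith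
      rw [this]; push_cast; ring
    have hc : (c : ℂ) = a * e + p * n := by
      have : c = a * e + p * n := by linarith
      rw [this]; push_cast; ring
    have : ((a : ℂ) + b * (x.1 : G → ℂ) g + c * (y.1 : G → ℂ) g) / p =
        a * α + m * (x.1 : G → ℂ) g + n * (y.1 : G → ℂ) g := by
      rw [div_eq_iff hp0, hb, hc]
      linear_combination (a : ℂ) * h'
    rw [this]
    have hz : ∀ k : ℤ, IsIntegral ℤ (k : ℂ) := fun k => isIntegral_algebraMap (x := k)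
    exact (((hz a).mul hα).add ((hz m).mul (H19.irr_isIntegral _ g))).add ((hz n).mul (H19.irr_isIntegral _ g))
  have hT := tri G x.1 y.1 (fun h => hxy (Subtype.ext h)) (fun h => hx (Subtype.ext (Subtype.ext h.symm)))
    (fun h => hy (Subtype.ext (Subtype.ext h.symm))) p hp.out.pos
  have hp2 : p ≠ 2 := by
    rintro rfl
    have a1 : Odd d := Nat.not_even_iff_odd.mp (fun h => hdp h.two_dvd)
    have a2 : Odd e := Nat.not_even_iff_odd.mp (fun h => hep h.two_dvd)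
    have a3 := Nat.odd_iff.mp (a1.pow (n := 2))
    have a4 := Nat.odd_iff.mp (a2.pow (n := 2))
    omega
  have hp3 : p = 3 := ar p hp.out hp2 d e (fun h => hdp (Int.natCast_dvd_natCast.mp h))
    (fun h => hep (Int.natCast_dvd_natCast.mp h)) (fun a b c hb hc => (hT a b c (hint a b c hb hc)).1)
  subst hp3
  obtain ⟨b, hb, hbd⟩ : ∃ b : ℤ, (b = 1 ∨ b = -1) ∧ (3 : ℤ) ∣ b - d := by
    by_cases h : d % 3 = 1
    · exact ⟨1, Or.inl rfl, by omega⟩
    · exact ⟨-1, Or.inr rfl, by omega⟩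
  obtain ⟨c, hc, hce⟩ : ∃ c : ℤ, (c = 1 ∨ c = -1) ∧ (3 : ℤ) ∣ c - e := by
    by_cases h : e % 3 = 1
    · exact ⟨1, Or.inl rfl, by omega⟩
    · exact ⟨-1, Or.inr rfl, by omega⟩
  have hE := (hT 1 b c (hint 1 b c (by simpa using hbd) (by simpa using hce))).2
    (by rcases hb with rfl | rfl <;> rcases hc with rfl | rfl <;> norm_num)
  have h9 := fin9 d e b c hb hc hbd hce (by simpa using hE)
  obtain ⟨k, hk⟩ := P.isPGroup'.exists_card_eq
  rw [hk] at hP h4 ⊢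
  rcases k with _ | _ | k
  · simp at hP
  · rfl
  · exact absurd (by simpa using h4 (pow_dvd_pow 3 (by omega))) h9

end Cfsg.Agent.H44.K0Fw3
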