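import Cfsg.Agent.H44.K5Defs

set_option autoImplicit false

namespace Cfsg.Agent.H44.K5

open Cfsg

universe u

theorem main (ch : ChStmt.{u}) (cyc : CycStmt.{u}) {G : Type u} [Group G] [Finite G] (p : ℕ) [Fact p.Prime] (M : Ideal Cfsg.AlgInt) (hM : Cfsg.IsPModular p M) (P : Sylow p G) :
    Nat.card {χ : Cfsg.IrrCharacter G // χ ∈ Cfsg.principalBlock M G ∧ ¬ p ∣ Cfsg.charDegree (χ : G → ℂ)} = 5 ↔
      ((Nat.card P = 5 ∧ ((Subgroup.centralizer ((P : Subgroup G) : Set G)).relIndex (Subgroup.normalizer ((P : Subgroup G) : Set G)) = 1 ∨ (Subgroup.centralizer ((P : Subgroup G) : Set G)).relIndex (Subgroup.normalizer ((P : Subgroup G) : Set G)) = 4)) ∨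
        (Nat.card P = 7 ∧ ((Subgroup.centralizer ((P : Subgroup G) : Set G)).relIndex (Subgroup.normalizer ((P : Subgroup G) : Set G)) = 2 ∨ (Subgroup.centralizer ((P : Subgroup G) : Set G)).relIndex (Subgroup.normalizer ((P : Subgroup G) : Set G)) = 3))) := by
  have hp : p.Prime := Fact.out
  have h2 := hp.two_le
  have key : ∀ q : ℕ, q.Prime → Nat.card P = q → p = q := fun q hq h => by
    obtain ⟨n, hn⟩ := P.isPGroup'.exists_card_eq
    rw [h] at hn
    exact ((Nat.prime_dvd_prime_iff_eq hq hp).mp (hq.dvd_of_dvd_pow (Dvd.intro 1 (by rw [mul_one]; exact hn)))).symm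
  constructor
  · intro h
    have h1 := ch G p M hM P h
    obtain ⟨⟨f, hf⟩, h3⟩ := cyc G p M hM P h1 _ rfl
    generalize (Subgroup.centralizer ((P : Subgroup G) : Set G)).relIndex (Subgroup.normalizer ((P : Subgroup G) : Set G)) = e at *
    have he : 0 < e := Nat.pos_of_ne_zero (by rintro rfl; omega)
    have h4 : e + f = 5 := by
      rw [hf, Nat.mul_div_cancel_left _ he] at h3
      exact h3.symm.trans h
    have h5 : e ≤ 5 := by omega
    rw [h1]
    interval_cases e <;> omega
  · rintro (⟨h, h'⟩ | ⟨h, h'⟩)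
    · obtain rfl := key 5 (by norm_num) h
      rcases h' with h' | h' <;> exact (cyc G 5 M hM P h _ h').2
    · obtain rfl := key 7 (by norm_num) h
      rcases h' with h' | h' <;> exact (cyc G 7 M hM P h _ h').2

end Cfsg.Agent.H44.K5
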