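import Cfsg.Agent.H76.K0Defs

set_option autoImplicit false

namespace Cfsg.Agent.H44.K5

open Cfsg Cfsg.Agent.H76.K0 Matrix

universe u

/-- Hermite bound -/
def HermStmt : Prop := ∀ (n : ℕ) (A : Matrix (Fin (n + 1)) (Fin (n + 1)) ℤ), Aᵀ = A →
  (∀ x : Fin (n + 1) → ℤ, x ≠ 0 → 0 < x ⬝ᵥ A *ᵥ x) → ∃ U : Matrix (Fin (n + 1)) (Fin (n + 1)) ℤ, IsUnit U.det ∧
    ((Uᵀ * A * U) 0 0) ^ (n + 1) * 3 ^ (n * (n + 1) / 2) ≤ 4 ^ (n * (n + 1) / 2) * A.det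

def UniStmt : Prop := ∀ (n : ℕ), n ≤ 5 → ∀ (A : Matrix (Fin n) (Fin n) ℤ), Aᵀ = A →
  (∀ x : Fin n → ℤ, x ≠ 0 → 0 < x ⬝ᵥ A *ᵥ x) → A.det = 1 → ∃ U : Matrix (Fin n) (Fin n) ℤ, Uᵀ * A * U = 1

def NeiStmt : Prop := ∀ p : ℕ, p.Prime → p ≠ 2 → ∀ x y z t : ℤ, ¬ (p : ℤ) ∣ x →
  (p : ℤ) ∣ 1 + x ^ 2 + y ^ 2 + z ^ 2 + t ^ 2 → ∃ a b c d e : ℤ, ¬ (p : ℤ) ∣ a ∧ (p : ℤ) ∣ b - a * x ∧
    (p : ℤ) ∣ c - a * y ∧ (p : ℤ) ∣ d - a * z ∧ (p : ℤ) ∣ e - a * t ∧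
    p * a = a ^ 2 + b ^ 2 + c ^ 2 + d ^ 2 + e ^ 2

def ChStmt : Prop := ∀ (G : Type u) [Group G] [Finite G] (p : ℕ) [Fact p.Prime] (M : Ideal AlgInt),
  IsPModular p M → ∀ (P : Sylow p G), Nat.card (Ht0 p M G) = 5 → Nat.card P = p

def CycStmt : Prop := ∀ (G : Type u) [Group G] [Finite G] (p : ℕ) [Fact p.Prime] (M : Ideal AlgInt),
  IsPModular p M → ∀ (P : Sylow p G), Nat.card P = p → ∀ e : ℕ,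
  (Subgroup.centralizer ((P : Subgroup G) : Set G)).relIndex (Subgroup.normalizer ((P : Subgroup G) : Set G)) = e →
  e ∣ p - 1 ∧ Nat.card (Ht0 p M G) = e + (p - 1) / e

end Cfsg.Agent.H44.K5
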