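import Cfsg.Agent.H50.L81Defs

/-! Fixed vectors of the normaliser of the split torus in modules of `SL₂(81)`. -/

set_option autoImplicit false

namespace Cfsg.Agent.H44.L81Nfx

open Module Finset H50.E83 H50.SL2S H50.L81 H82

/-- The indices that can carry a fixed vector. -/
def JF (r : ℕ) : Finset ℕ :=
  (JJ 3 r).filter fun j => (r / 2 + 39 * j) % 40 = 0 ∧ (r = 2 * j → Even j)

theorem card_JF : ∀ r < 81, Even r → (JF r).card ≤ nf r := by decide +kernel

theorem le_JJ {r j : ℕ} (h : j ∈ JJ 3 r) : j ≤ r :=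
  Nat.lt_succ_iff.1 (mem_range.1 (mem_filter.1 h).1)

theorem two_ne : (2 : K) ≠ 0 := by
  intro h
  have h3 : ((3 : ℕ) : K) = 0 := CharP.cast_eq_zero K 3
  have : (1 : K) = 0 := by
    have e : (1 : K) = ((3 : ℕ) : K) - 2 := by norm_num
    rw [e, h3, h, sub_zero]
  exact one_ne_zero this

theorem sp_fix (hP : ParStmt) (hM : MonoStmt) (hA : MonaStmt) (p : Par) (r : ℕ) (hr : r < 81)
    (he : Even r) :
    finrank K (SP p r ⊓ Fx reg {t0 p, ww F} : Submodule K (SL → K)) ≤ nf r := by
  obtain ⟨⟨cf, hcf⟩, hsp⟩ := hM p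
  have hz : IsPrimitiveRoot (zy p) 40 := (hP.2.2.2 p).2.2.2.2.2.2.1
  have hz' : IsPrimitiveRoot ((zy p : Kˣ) : K) 40 := IsPrimitiveRoot.coe_units_iff.2 hz
  have hle : (SP p r ⊓ Fx reg {t0 p, ww F} : Submodule K (SL → K)) ≤
      Submodule.span K (Set.range fun j : JF r => mono p r j) := by
    rintro f ⟨hf, hx⟩
    obtain ⟨c, rfl⟩ := ((hsp r hr).1 f).1 hf
    refine Submodule.sum_mem _ fun i hi => ?_
    by_cases hJ : i ∈ JF r
    · exact Submodule.smul_mem _ _ (Submodule.subset_span ⟨⟨i, hJ⟩, rfl⟩)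
    suffices h0 : c i = 0 by rw [h0, zero_smul]; exact Submodule.zero_mem _
    have hci : cf i (∑ j ∈ JJ 3 r, c j • mono p r j) = c i := by
      rw [map_sum, Finset.sum_eq_single i]
      · rw [map_smul, hcf r hr i (le_JJ hi), if_pos rfl, smul_eq_mul, mul_one]
      · intro j hj hji
        rw [map_smul, hcf r hr j (le_JJ hj), if_neg hji.symm, smul_zero]
      · intro h; exact absurd hi h
    by_cases hw : (r / 2 + 39 * i) % 40 = 0
    · have h2 : r = 2 * i ∧ ¬ Even i := by
        by_contra hc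
        exact hJ (mem_filter.2 ⟨hi, hw, fun e => by
          by_contra d; exact hc ⟨e, d⟩⟩)
      have h1 := congrArg (cf i) (hx (ww F) (by simp))
      rw [hci, map_sum, map_sum, Finset.sum_eq_single i] at h1
      · rw [map_smul, (hA p r hr i (le_JJ hi)).2.2.1, map_smul, map_smul,
          hcf r hr (r - i) (Nat.sub_le _ _), if_pos (by omega),
          (Nat.not_even_iff_odd.1 h2.2).neg_one_pow] at h1
        have : (2 : K) * c i = 0 := by
          simp only [smul_eq_mul, mul_one, mul_neg] at h1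
          linear_combination -h1
        exact (mul_eq_zero.1 this).resolve_left two_ne
      · intro j hj hji
        have := le_JJ hj
        rw [map_smul, (hA p r hr j (le_JJ hj)).2.2.1, map_smul, map_smul,
          hcf r hr (r - j) (Nat.sub_le _ _), if_neg (by omega), smul_zero, smul_zero]
      · intro h; exact absurd hi h
    · have h1 := congrArg (cf i) (hx (t0 p) (by simp))
      have ev : ∀ j ∈ JJ 3 r, reg (t0 p) (mono p r j) =
          ((zy p : K) ^ ((r / 2 + 39 * j) % 40)) • mono p r j := fun j hj =>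
        Module.End.mem_eigenspace_iff.1 ((hA p r hr j (le_JJ hj)).2.2.2.2 he)
      rw [hci, map_sum, map_sum, Finset.sum_eq_single i] at h1
      · rw [map_smul, ev i hi, map_smul, map_smul, hcf r hr i (le_JJ hi), if_pos rfl] at h1
        have hne : (zy p : K) ^ ((r / 2 + 39 * i) % 40) ≠ 1 :=
          hz'.pow_ne_one_of_pos_of_lt hw (Nat.mod_lt _ (by norm_num))
        have : c i * ((zy p : K) ^ ((r / 2 + 39 * i) % 40) - 1) = 0 := by
          simp only [smul_eq_mul, mul_one] at h1
          linear_combination h1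
        exact (mul_eq_zero.1 this).resolve_right (sub_ne_zero.2 hne)
      · intro j hj hji
        rw [map_smul, ev j hj, map_smul, map_smul, hcf r hr j (le_JJ hj), if_neg hji.symm,
          smul_zero, smul_zero]
      · intro h; exact absurd hi h
  have hf : Module.Finite K (Submodule.span K (Set.range fun j : JF r => mono p r j)) :=
    Module.Finite.span_of_finite K (Set.finite_range _)
  refine (Submodule.finrank_mono hle).trans ((finrank_range_le_card _).trans ?_)
  rw [Fintype.card_coe]; exact card_JF r hr he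

section
variable {W : Type} [AddCommGroup W] [Module K W] (ρ : SL →* Module.End K W)

theorem step_le [FiniteDimensional K W] (p : Par) (S : Set SL) {U U' : Submodule K W} {r : ℕ}
    (h : Step ρ p U U' r) : finrank K (U' ⊓ Fx ρ S : Submodule K W) ≤
      finrank K (SP p r ⊓ Fx reg S : Submodule K (SL → K)) +
        finrank K (U ⊓ Fx ρ S : Submodule K W) := by
  obtain ⟨-, -, -, -, Φ, he, hm, hk⟩ := h
  have h1 := LinearMap.finrank_range_add_finrank_ker (Φ.domRestrict (U' ⊓ Fx ρ S))
  have a : LinearMap.range (Φ.domRestrict (U' ⊓ Fx ρ S)) ≤ SP p r ⊓ Fx reg S := by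
    rintro _ ⟨⟨v, hv, hx⟩, rfl⟩
    refine ⟨hm ▸ Submodule.mem_map_of_mem hv, fun g hg => ?_⟩
    show reg g (Φ v) = Φ v
    rw [← he g v hv, hx g hg]
  have b : (LinearMap.ker (Φ.domRestrict (U' ⊓ Fx ρ S))).map (U' ⊓ Fx ρ S).subtype ≤ U ⊓ Fx ρ S := by
    rintro _ ⟨⟨v, hv, hx⟩, h0, rfl⟩
    exact ⟨(hk v hv).1 h0, hx⟩
  have b' := Submodule.finrank_mono b
  rw [Submodule.finrank_map_subtype_eq] at b'
  have a' := Submodule.finrank_mono a
  omega

theorem step_ne (hP : ParStmt) (hM : MonoStmt) (p : Par) (h1 : ρ (-1) = 1) {U U' : Submodule K W}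
    (h : Step ρ p U U' 0) : U' ⊓ Fx ρ {t0 p, ww F} ≠ ⊥ := by
  obtain ⟨-, -, -, hI, Φ, he, hm, -⟩ := h
  obtain ⟨-, h40, -, -, -, -, -, -, -, hwt, hww⟩ := hP.2.2.2 p
  have m1 : mono p 0 0 = 1 := by simp [mono]
  have hm1 : (1 : SL → K) ∈ SP p 0 := (((hM p).2 0 (by norm_num)).1 _).2 ⟨fun _ => 1, by
    rw [show JJ 3 0 = {0} by decide, Finset.sum_singleton, one_smul, m1]⟩
  rw [← hm] at hm1
  obtain ⟨v, hv, hΦ⟩ := hm1
  have r1 : ∀ g, reg g (1 : SL → K) = 1 := fun g => rfl
  have h80 : t0 p ^ 80 = 1 := by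
    rw [show 80 = 40 * 2 from rfl, pow_mul, h40, neg_one_sq]
  set u := ∑ k ∈ range 80, ρ (t0 p ^ k) v with hu
  have huU : u ∈ U' := Submodule.sum_mem _ fun k _ => hI _ v hv
  have hut : ρ (t0 p) u = u := by
    have e := Finset.sum_range_succ (fun k => ρ (t0 p ^ k) v) 80
    have e' := Finset.sum_range_succ' (fun k => ρ (t0 p ^ k) v) 80
    rw [e, h80, pow_zero] at e'
    rw [hu, map_sum, add_right_cancel e']
    exact Finset.sum_congr rfl fun k _ => by
      rw [pow_succ', map_mul, Module.End.mul_apply]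
  have hui : ρ (t0 p)⁻¹ u = u := by
    conv_lhs => rw [← hut]
    rw [← Module.End.mul_apply, ← map_mul, inv_mul_cancel, map_one, Module.End.one_apply]
  have hΦu : Φ u = (80 : K) • (1 : SL → K) := by
    rw [hu, map_sum, Finset.sum_congr rfl fun k _ => (he _ v hv).trans (by rw [hΦ, r1]),
      Finset.sum_const, card_range, ← Nat.cast_smul_eq_nsmul K]
    norm_num
  have htw : t0 p * ww F = ww F * (t0 p)⁻¹ := by
    have : ww F * t0 p = (t0 p)⁻¹ * ww F := by rw [← hwt]; group
    calc t0 p * ww F = t0 p * (ww F * t0 p) * (t0 p)⁻¹ := by group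
      _ = _ := by rw [this]; group
  intro hb
  have hw : u + ρ (ww F) u ∈ U' ⊓ Fx ρ {t0 p, ww F} := by
    refine ⟨U'.add_mem huU (hI _ u huU), ?_⟩
    rintro g (rfl | rfl)
    · rw [map_add, hut, ← Module.End.mul_apply, ← map_mul, htw, map_mul, Module.End.mul_apply, hui]
    · rw [map_add, ← Module.End.mul_apply, ← map_mul, hww, h1, Module.End.one_apply, add_comm]
  rw [hb, Submodule.mem_bot] at hw
  have h0 := congrArg Φ hw
  rw [map_add, he _ u huU, hΦu, map_smul, r1, map_zero, ← add_smul] at h0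
  have h3 : ((3 : ℕ) : K) = 0 := CharP.cast_eq_zero K 3
  have e : (80 + 80 : K) = 1 := by
    have : (80 + 80 : K) = 53 * ((3 : ℕ) : K) + 1 := by norm_num
    rw [this, h3, mul_zero, zero_add]
  rw [e, one_smul] at h0
  exact one_ne_zero h0
end

theorem nfx (hP : ParStmt) (hM : MonoStmt) (hA : MonaStmt) : NfxStmt := by
  intro p W _ _ _ ρ h1 U L h
  induction h with
  | nil => simp
  | @cons U U' L r _ hs ih =>
    refine ⟨fun h0 => ?_, ?_⟩
    · rcases List.mem_cons.1 h0 with rfl | h0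
      · exact step_ne ρ hP hM p h1 hs
      · intro hb
        exact ih.1 h0 (le_bot_iff.1 (hb ▸ inf_le_inf_right _ hs.2.2.1))
    · rw [List.map_cons, List.sum_cons]
      exact (step_le ρ p _ hs).trans (Nat.add_le_add (sp_fix hP hM hA p r hs.1 hs.2.1) ih.2)

end Cfsg.Agent.H44.L81Nfx
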