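import Cfsg.Agent.H42.N7B

/-! Project N7, piece B2: the permutation action on four involutions. -/

set_option autoImplicit false

namespace Cfsg.Agent.H44.N7B2

open Subgroup Equiv Cfsg.Agent.H85
open Cfsg.Agent.H93.LT (cn)

variable {G : Type*} [Group G] {e : Fin 4 → G}

/-- `n` permutes the `e i` as `p` -/
def Act (e : Fin 4 → G) (n : G) (p : Perm (Fin 4)) : Prop := ∀ i, cn (e i) n = e (p i)

theorem cc (x g k : G) : cn (cn x g) k = cn x (g * k) := by simp [cn, mul_assoc]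
theorem cm (x y g : G) : cn (x * y) g = cn x g * cn y g := by simp [cn, mul_assoc]
theorem ic (x g : G) : IsConj x (cn x g) := isConj_iff.2 ⟨g⁻¹, by simp [cn]⟩

theorem Act.one : Act e 1 1 := fun i => by simp [cn]

theorem Act.mul {n m : G} {p q : Perm (Fin 4)} (h : Act e n p) (k : Act e m q) :
    Act e (n * m) (q * p) := fun i => by rw [← cc, h, k, Perm.mul_apply]

theorem Act.inv {n : G} {p : Perm (Fin 4)} (h : Act e n p) : Act e n⁻¹ p⁻¹ := fun i => by
  conv_lhs => rw [← p.apply_symm_apply i, ← h, cc]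
  simp [cn, Perm.inv_def]

theorem Act.cj {n c : G} {p q : Perm (Fin 4)} (h : Act e n p) (k : Act e c q) :
    Act e (cn n c) (q * (p * q⁻¹)) := (k.inv.mul h).mul k

theorem Act.pow {n : G} {p : Perm (Fin 4)} (h : Act e n p) (k : ℕ) : Act e (n ^ k) (p ^ k) := by
  induction k with
  | zero => simpa using Act.one
  | succ k ih => rw [pow_succ, pow_succ']; exact ih.mul h

theorem Act.two (inj : Function.Injective e) {n : G} {p : Perm (Fin 4)} (h : Act e n p) {k : ℕ}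
    (hk : n ^ 2 ^ k = 1) : p ^ 4 = 1 := by
  have h1 : p ^ 2 ^ k = 1 := Equiv.ext fun i => inj (by rw [← h.pow _ i, hk]; simp [cn])
  refine ((by decide +kernel : ∀ p : Perm (Fin 4), p ^ 4 = 1 ∨ p ^ 3 = 1) p).elim id fun h3 => ?_
  rw [orderOf_eq_one_iff.1 (Nat.eq_one_of_dvd_coprimes (Nat.Coprime.pow_left k (by decide : Nat.Coprime 2 3))
    (orderOf_dvd_of_pow_eq_one h1) (orderOf_dvd_of_pow_eq_one h3)), one_pow]

theorem exists_act (inj : Function.Injective e) {n : G} (h : ∀ i, ∃ j, cn (e i) n = e j) :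
    ∃ p, Act e n p := by
  choose f hf using h
  refine ⟨Equiv.ofBijective f (Finite.injective_iff_bijective.1 fun i j k => inj ?_), hf⟩
  simpa [cn] using (hf i).trans ((congrArg e k).trans (hf j).symm)

def w0 : Perm (Fin 4) := swap 0 1 * swap 2 3
def w1 : Perm (Fin 4) := swap 0 2 * swap 1 3
def c3 : Perm (Fin 4) := swap 1 3 * swap 1 2

/-- the elements preserving the partition -/
def HH (e : Fin 4 → G) : Subgroup G where
  carrier := {n | ∃ p, Act e n p ∧ Commute p w0}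
  one_mem' := ⟨1, .one, .one_left _⟩
  mul_mem' := fun ⟨_, a, b⟩ ⟨_, c, d⟩ => ⟨_, a.mul c, d.mul_left b⟩
  inv_mem' := fun ⟨_, a, b⟩ => ⟨_, a.inv, b.inv_left⟩

theorem core [Finite G] (inj : Function.Injective e) {Q X : Subgroup G} [hX : X.Normal]
    (sQ : IsSyl 2 Q ⊤) (aQ : ∀ q ∈ Q, ∃ p, Act e q p) {a y s : G} (ha : a ∈ Q) (hy : y ∈ Q)
    (aX : a ∈ X) (aa : a * a = 1) (Aa : Act e a (swap 2 3)) (Ay : Act e y w0) (As : Act e s c3)
    (ya : Commute y a) (zf : e 2 * e 3 ≠ e 0 * e 1) (ee : e 0 * e 0 = 1)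
    (c01 : Commute (e 0) (e 1)) (c23 : Commute (e 2) (e 3))
    (Ea : ∀ g ∈ Q, Act e g 1 → cn a g = a ∨ cn a g = a * (e 2 * e 3)) :
    ∃ m ∈ Q, m ∈ X ∧ m * m = 1 ∧ Act e m w1 ∧ Commute a (cn a m) ∧ IsConj (a * cn a m) m := by
  have ai : a⁻¹ = a := inv_eq_of_mul_eq_one_right aa
  have cQ : ∀ {x g}, x ∈ Q → g ∈ Q → cn x g ∈ Q := fun h k => mul_mem (mul_mem (inv_mem k) h) k
  have cX : ∀ {x} g, x ∈ X → cn x g ∈ X := fun g h => by simpa [cn] using hX.conj_mem _ h g⁻¹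
  have QH : Q ≤ HH e := fun q hq => by
    obtain ⟨p, hp⟩ := aQ q hq
    obtain ⟨k, hk⟩ := sQ.isPGroup ⟨_, mul_mem ha (cQ ha hq)⟩
    exact ⟨p, hp, (by decide +kernel : ∀ p : Perm (Fin 4),
      (p * (swap 2 3 * p⁻¹) * swap 2 3) ^ 4 = 1 → p * w0 = w0 * p) p
      ((Aa.mul (Aa.cj hp)).two inj (congrArg Subtype.val hk))⟩
  have T : ∀ u ∈ Q, Act e u w0 → ∃ m ∈ Q, Act e m w1 ∧ ∃ g, m = cn u g := fun u hu Au => by
    obtain ⟨c, ⟨p, hp, hc⟩, h⟩ := (sQ.of_le QH le_top).exists_le_cj (Q := cj s⁻¹ (zpowers u))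
      (isPGroup_cj _ (sQ.isPGroup.to_le (zpowers_le_of_mem hu))) (by
        rw [cj_le_iff_le_cj_inv, zpowers_le, mem_cj]
        exact ⟨_, by simpa [cn] using Au.cj As, (by decide : _ * w0 = w0 * _)⟩)
    have h1 : cn (cn u s) c ∈ Q := mem_cj.1 (h (mem_cj.2 (by simp [cn, mul_assoc])))
    have h2 := (Au.cj As).cj hp
    rcases (by decide +kernel : ∀ p : Perm (Fin 4), p * w0 = w0 * p → p * (c3 * (w0 * c3⁻¹) * p⁻¹) = w1 ∨
      swap 2 3 * (p * (c3 * (w0 * c3⁻¹) * p⁻¹) * (swap 2 3)⁻¹) = w1) p hc with k | k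
    · exact ⟨_, h1, k ▸ h2, _, cc ..⟩
    · exact ⟨_, cQ h1 ha, k ▸ h2.cj Aa, _, by rw [cc, cc]⟩
  have L : ∀ m ∈ Q, Act e m w1 → Commute a (cn a m) := fun m hm Am => by
    have A' : Act e (cn a m) (swap 0 1) := (by decide : w1 * (swap 2 3 * w1⁻¹) = swap 0 1) ▸ Aa.cj Am
    have h1 := Ea _ (mul_mem (inv_mem (mul_mem hy ha)) (cQ ha hm))
      ((by decide : swap 0 1 * (swap 2 3 * w0)⁻¹ = 1) ▸ (Ay.mul Aa).inv.mul A')
    rw [← cc, show cn a (y * a)⁻¹ = a by
      rw [cn, inv_inv, (ya.mul_left (.refl a)).eq, mul_inv_cancel_right]] at h1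
    rcases h1 with h1 | h1
    · rw [Commute, SemiconjBy, ← mul_inv_cancel_left (cn a m) (a * _), ← mul_assoc _ a]
      exact congrArg _ h1
    have hz : cn (e 2 * e 3) (cn a m) = e 2 * e 3 := by rw [cm, A', A']; rfl
    have h2 : cn (cn a m) a = cn a m * (e 0 * e 1) := by
      have h3 : cn (cn a m) (cn a (m * m)) = cn a m * (e 0 * e 1) := by
        have := congrArg (cn · m) h1
        simp only [cm, Am 2, Am 3] at this
        refine Eq.trans ?_ this
        simp [cn, mul_assoc]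
      rcases Ea _ (mul_mem hm hm) ((by decide : w1 * w1 = 1) ▸ Am.mul Am) with k | k <;> rw [k] at h3
      · exact h3
      · have hz' : cn (e 2 * e 3) a = e 2 * e 3 := by rw [cm, Aa, Aa]; exact c23.symm
        generalize cn a m = b at h3 hz ⊢
        generalize e 2 * e 3 = z at h3 hz hz'
        rw [← h3]
        have k1 : z * b = b * z := by rw [← mul_inv_cancel_left b (z * b), ← mul_assoc _ z]; exact congrArg _ hz
        have k2 : z * a = a * z := by rw [← mul_inv_cancel_left a (z * a), ← mul_assoc _ z]; exact congrArg _ hz'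
        rw [← k2, ← cc, show cn b z = b by rw [cn, mul_assoc, ← k1, inv_mul_cancel_left]]
    have bb : cn a m * cn a m = 1 := by rw [← cm, aa]; simp [cn]
    generalize cn a m = b at h1 h2 hz bb
    have bi : b⁻¹ = b := inv_eq_of_mul_eq_one_right bb
    rw [cn, bi] at h1 hz
    rw [cn, ai] at h2
    refine absurd (mul_left_cancel (a := b) ?_) zf
    rw [← h2, ← mul_inv_cancel_left a (b * _), ai, mul_assoc, mul_right_inj, ← hz]
    calc a * (b * (b * (e 2 * e 3) * b)) = a * (b * b) * (e 2 * e 3) * b := by group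
      _ = b * a * (b * b) := by rw [← mul_assoc (b * a), h1, bb, mul_one]
      _ = b * a := by rw [bb, mul_one]
  obtain ⟨m0, h0, A0, -⟩ := T y hy Ay
  have Av : Act e (a * cn a m0) w0 := (by decide : w1 * (swap 2 3 * w1⁻¹) * swap 2 3 = w0) ▸ Aa.mul (Aa.cj A0)
  obtain ⟨m, hm, Am, g, hg⟩ := T _ (mul_mem ha (cQ ha h0)) Av
  have vv : a * cn a m0 * (a * cn a m0) = 1 := by
    rw [(L _ h0 A0).symm.mul_mul_mul_comm, aa, ← cm, aa]; simp [cn]
  refine ⟨m, hm, hg ▸ cX _ (mul_mem aX (cX _ aX)), by rw [hg, ← cm, vv]; simp [cn], Am, L m hm Am,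
    IsConj.trans ?_ (hg ▸ ic _ g)⟩
  have e1 : cn a m = cn (cn a (m * m0⁻¹)) m0 := by rw [cc, inv_mul_cancel_right]
  rcases Ea _ (mul_mem hm (inv_mem h0)) ((by decide : w1⁻¹ * w1 = 1) ▸ Am.mul A0.inv) with k | k <;>
    rw [e1, k]
  rw [cm, cm, A0, A0, ← mul_assoc]
  refine (isConj_iff.2 ⟨e 0, ?_⟩).symm
  have := Av 0
  generalize a * cn a m0 = v at this ⊢
  rw [inv_eq_of_mul_eq_one_right ee, ← mul_inv_cancel_left v (e 0 * v), ← mul_assoc _ (e 0),
    mul_assoc, mul_right_inj]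
  exact (congrArg (· * e 0) this).trans c01.symm

open Cfsg.Agent.H42.N7 Cfsg.Agent.H42.N60

universe u

/-- the four transpositions in the model -/
def ε : Fin 4 → M := ![M.t, M.t * M.f, M.t * M.f * M.z * M.b, M.t * M.f * M.b]

theorem b2 (hk : KitStmt.{u}) : B2Stmt.{u} := by
  intro G _ _ h
  have K := hk G h.toHyp
  obtain ⟨-, om, Q, sQ, T0Q, yQ, QN, cQ⟩ := b1 h K
  set ψ := φ h.toHyp with hψ
  have inj : Function.Injective ψ := φ_inj h.toHyp
  have ie : Function.Injective (ψ ∘ ε) := inj.comp (by decide)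
  have cψ : ∀ x y, cn (ψ x) (ψ y) = ψ (y⁻¹ * x * y) := fun x y => by simp [cn]
  have gen : ∀ {g p}, Act (ψ ∘ ε) g p → cn h.t g = ψ (ε (p 0)) ∧ cn h.f g = ψ (ε (p 0) * ε (p 1)) ∧
      cn h.z g = ψ (ε (p 2) * ε (p 3)) ∧ cn h.b g = ψ (ε (p 1) * ε (p 3)) := fun {g p} A => by
    have k : ∀ i j, cn (ψ (ε i * ε j)) g = ψ (ε (p i) * ε (p j)) := fun i j => by
      rw [map_mul, map_mul, cm]; exact congrArg₂ _ (A i) (A j)
    rw [← φ_t, ← φ_f, ← φ_z, ← φ_b]
    exact ⟨A 0, k 0 1, k 2 3, k 1 3⟩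
  have EQ : h.E2 ≤ Q := (H42.N3.E2_T0 h.toHyp).trans T0Q
  obtain ⟨m, mQ, mX, mm, Am, h1, h2⟩ := core (hX := h.Xn) ie sQ (fun q hq => exists_act ie fun i => by
      obtain ⟨y, hy, e⟩ := om q (QN hq) (ε i) (by revert i; decide)
      obtain ⟨j, rfl⟩ := (by decide : ∀ y : M, y.Om → ∃ j, y = ε j) y hy
      exact ⟨j, e⟩)
    (T0Q (H42.N3.aT0 h.toHyp)) yQ K.aX.1 h.aa (s := h.s)
    (fun i => by rw [← φ_a h.toHyp]; exact (cψ _ _).trans (congrArg ψ (by revert i; decide)))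
    (fun i => (cn_φ h.toHyp (t := M.t * M.f) (f := M.f) (z := M.z) (a := M.a) (b := M.b * M.f * M.z) _
      (by rw [h.ty, map_mul, φ_t, φ_f]) (by rw [H42.N3.cn_comm h.yf.symm, φ_f]) (by
        rw [zab h.toPre]
        simp only [cm, show ∀ x : G, cn x⁻¹ h.y = (cn x h.y)⁻¹ by simp [cn, mul_assoc], h.by,
          H42.N3.cn_comm h.ya.symm]
        rw [show M.z = M.a⁻¹ * (M.b * M.f * M.z)⁻¹ * M.a * (M.b * M.f * M.z) by decide]
        simp only [map_mul, map_inv, φ_a, φ_b, φ_f, φ_z])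
      (fun _ => by rw [H42.N3.cn_comm h.ya.symm, φ_a])
      fun _ => by rw [h.by, map_mul, map_mul, φ_b, φ_f, φ_z]).trans (congrArg ψ (by revert i; decide)))
    (fun i => (cn_s h.toHyp (by revert i; decide)).trans (congrArg ψ (by revert i; decide))) h.ya
    (fun e => absurd (inj ((map_mul ψ _ _).trans (e.trans (map_mul ψ _ _).symm))) (by decide))
    ((map_mul ψ _ _).symm.trans (map_one ψ)) (Commute.map (by decide : _ * _ = _ * _) ψ)
    (Commute.map (by decide : _ * _ = _ * _) ψ) fun g hg A => by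
      obtain ⟨e1, e2, e3, e4⟩ := gen A
      have : g ∈ h.E2 := (K.sylE2.eq_of_le (Q := Q ⊓ centralizer h.E2) sQ.isPGroup.to_inf_left
        (le_inf EQ K.sylE2.le) inf_le_right).le ⟨hg, fun x hx => by
          obtain ⟨x, hx', rfl⟩ := (map_E2 h.toHyp).ge hx
          refine H42.N3.comm_of_cn ((cn_φ h.toHyp (a := 1) x e1 e2 e3 (fun e => ?_) fun _ => e4).trans
            (congrArg ψ ?_))
          · exact absurd (e.symm.trans hx') (by decide)
          · exact (by decide : ∀ x : M, x.k = false →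
              (ε 0).sub (ε 0 * ε 1) (ε 2 * ε 3) 1 (ε 1 * ε 3) x = x) x hx'⟩
      obtain ⟨x, hx, rfl⟩ := (map_E2 h.toHyp).ge this
      rw [← φ_a h.toHyp, cψ, Function.comp, Function.comp, ← map_mul, ← map_mul, inj.eq_iff, inj.eq_iff]
      exact (by decide : ∀ x : M, x⁻¹ * M.a * x = M.a ∨ x⁻¹ * M.a * x = M.a * (ε 2 * ε 3)) x
  obtain ⟨e1, e2, -, e4⟩ := gen Am
  exact ⟨⟨h, m, Q, sQ, cQ, T0Q, mQ, mX, mm, by
      rw [e1, ← φ_t h.toHyp, ← φ_f h.toHyp, ← φ_z h.toHyp, ← φ_b h.toHyp, ← map_mul, ← map_mul, ← map_mul]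
      rfl,
    e2.trans ((congrArg ψ (by decide)).trans (φ_z _)),
    H42.N3.comm_of_cn (e4.trans ((congrArg ψ (by decide)).trans (φ_b _))), h1, h2⟩, rfl, rfl, rfl⟩

end Cfsg.Agent.H44.N7B2
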