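import Cfsg.Agent.H54.O84Defs

/-! The element of order five of the centraliser of `w` (piece `U5Stmt` of S3384). -/

set_option autoImplicit false
set_option maxRecDepth 100000

namespace Cfsg.Agent.H44.O84U5

open Cfsg.Agent.H54.O84 Equiv Cfsg.Lie
open scoped Matrix

def uL : List ℕ := [7, 5, 6, 3, 4, 5, 1, 3, 4, 2, 3, 0, 2, 1, 3, 4, 5, 6, 7, 5, 6, 2, 3, 4, 5, 1, 3,
  4, 2, 3, 0, 2, 1, 3, 4, 5, 6, 3, 4, 5, 2, 1, 3, 4, 1, 3, 0, 2, 1, 0]
noncomputable def fU (r : ℕ) : ℕ := uL.foldr (fun i s => rf (i % 8) s) r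
noncomputable def it (k r : ℕ) : ℕ := Nat.rec r (fun _ s => fU s) k
noncomputable def uu : Perm Rt := wd uL
def al (i : ℕ) : ℕ := [141, 135, 130, 126].getD i 0
def tb (k i j : ℕ) : ℕ :=
  (([[[1, 4, 0, 0], [0, 0, 1, 4], [0, 1, 4, 0], [0, 0, 1, 1]],
    [[3, 2, 1, 4], [1, 1, 2, 2], [0, 0, 2, 4], [2, 3, 1, 4]],
    [[0, 2, 0, 4], [0, 2, 0, 1], [0, 3, 1, 0], [2, 0, 4, 0]],
    [[0, 3, 0, 3], [1, 0, 4, 0], [1, 3, 2, 4], [0, 1, 0, 4]],
    [[1, 4, 4, 4], [3, 2, 3, 3], [4, 3, 1, 2], [1, 1, 4, 1]]].getD k []).getD i []).getD j 0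

theorem uu_val (r : Rt) : (uu r : ℕ) = fU r := wd_val _ r

theorem pow_val (k : ℕ) (r : Rt) : ((uu ^ k) r : ℕ) = it k r := by
  induction k with
  | zero => rfl
  | succ k ih => rw [pow_succ', Perm.mul_apply, uu_val, ih]; rfl

theorem uu_mem : uu ∈ CW w := by
  have h : ∀ r < 240, fU (piF 0 r) = piF 0 (fU r) := by decide +kernel
  refine mem_CW.2 ⟨wd_mem _, Perm.ext fun r => Fin.ext ?_⟩
  rw [Perm.mul_apply, Perm.mul_apply, uu_val, w_val, w_val, uu_val]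
  exact h r r.2

theorem uu_five : uu ^ 5 = 1 := by
  have h : ∀ r < 240, it 5 r = r := by decide +kernel
  exact Perm.ext fun r => Fin.ext ((pow_val 5 r).trans (h r r.2))

theorem uu_ne : uu ≠ 1 := fun h => by
  have e : fU 141 ≠ 141 := by decide +kernel
  have := uu_val ⟨141, (by decide : 141 < 240)⟩
  rw [h] at this
  exact e this.symm

theorem dot_val (x : V) (r : Rt) :
    x ⬝ᵥ m r = x 0 * mF r 0 + x 1 * mF r 1 + x 2 * mF r 2 + x 3 * mF r 3 := by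
  rw [dotProduct, Fin.sum_univ_four, m_val, m_val, m_val, m_val]
  rfl

theorem tb_val : ∀ k < 5, ∀ i < 4, ∀ j < 4, mF (it k (al i)) j = tb k i j := by decide +kernel

theorem al_lt : ∀ i < 4, al i < 240 := by decide

set_option synthInstance.maxSize 4000 in
theorem fin_check : ∀ k < 5, k ≠ 0 → ∀ a b c d : ZMod 5,
    (∀ i < 4, a * tb k i 0 + b * tb k i 1 + c * tb k i 2 + d * tb k i 3 =
      a * tb 0 i 0 + b * tb 0 i 1 + c * tb 0 i 2 + d * tb 0 i 3) →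
    b = a * 3 ∧ c = a * 2 ∧ d = a * 3 := by decide +kernel

theorem u5 : U5Stmt := by
  refine ⟨uu, uu_mem, uu_five, uu_ne, ![1, 3, 2, 3], fun k hk x hx => ⟨x 0, ?_⟩⟩
  have hk5 : k % 5 < 5 := Nat.mod_lt _ (by norm_num)
  have hp : uu ^ k = uu ^ (k % 5) := pow_eq_pow_mod k uu_five
  have key := fin_check (k % 5) hk5 (by omega) (x 0) (x 1) (x 2) (x 3) fun i hi => by
    have h := hx ⟨al i, al_lt i hi⟩
    rw [hp, dot_val, dot_val, pow_val] at h
    simp only [← tb_val _ hk5 i hi 0 (by norm_num), ← tb_val _ hk5 i hi 1 (by norm_num),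
      ← tb_val _ hk5 i hi 2 (by norm_num), ← tb_val _ hk5 i hi 3 (by norm_num),
      ← tb_val 0 (by norm_num) i hi 0 (by norm_num), ← tb_val 0 (by norm_num) i hi 1 (by norm_num),
      ← tb_val 0 (by norm_num) i hi 2 (by norm_num), ← tb_val 0 (by norm_num) i hi 3 (by norm_num)]
    exact h
  funext j
  fin_cases j
  · simp
  · simpa using key.1
  · simpa using key.2.1
  · simpa using key.2.2

end Cfsg.Agent.H44.O84U5
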