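import Mathlib
import Cfsg.Agent.H71.P3Defs

/-! An invariant family of maximal totally isotropic subspaces. -/

set_option autoImplicit false
set_option linter.unusedSectionVars false

namespace Cfsg.Agent.H44.P3W2

open Cfsg Module Cfsg.Agent.H27 Cfsg.Agent.H71.P3 Finset
open scoped Pointwise Classical

variable {F V : Type} [Field F] [Finite F] [AddCommGroup V] [Module F V] [Fintype V]

theorem card_sub (A : Submodule F V) :
    ((univ.erase (0 : V)).filter (· ∈ A)).card + 1 = Nat.card F ^ dm A := by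
  have : Module.Finite F V := Module.Finite.of_finite
  rw [← Module.natCard_eq_pow_finrank, filter_erase, card_erase_add_one (by simp),
    Nat.card_eq_fintype_card, Fintype.card_subtype]

theorem count (S : Sp F V) {K : Subgroup (V ≃ₗ[F] V)} (pt : S.PtT K) {W : V → Submodule F V}
    {w : ℕ} (h : S.WS K W w) {z : V} (hz : z ≠ 0) :
    ((univ.erase (0 : V)).filter (z ∈ W ·)).card + 1 = Nat.card F ^ w := by
  have h1 : ∀ z' ∈ univ.erase (0 : V), ((univ.erase (0 : V)).filter (z' ∈ W ·)).card =
      ((univ.erase (0 : V)).filter (z ∈ W ·)).card := fun z' hz' => by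
    have hz'' := ne_of_mem_erase hz'
    obtain ⟨g, hg, c, e⟩ := pt z' z hz'' hz
    have hc : c ≠ 0 := by
      rintro rfl
      exact hz'' (g.map_eq_zero_iff.1 (by rw [e, zero_smul]))
    refine card_bijective g g.bijective fun y => ?_
    simp only [mem_filter, mem_erase, mem_univ, and_true, ne_eq, g.map_eq_zero_iff]
    refine and_congr_right fun hy => ?_
    rw [h.inv g hg y hy, ← (g • W y).smul_mem_iff hc, ← e, H71.P3.smul_mem_smul]
  have h2 : ∀ y ∈ univ.erase (0 : V), ((univ.erase (0 : V)).filter (· ∈ W y)).card =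
      Nat.card F ^ w - 1 := fun y hy => by
    rw [← h.dim y (ne_of_mem_erase hy), ← card_sub]; rfl
  have h3 : ∑ z' ∈ univ.erase (0 : V), ((univ.erase (0 : V)).filter (z' ∈ W ·)).card =
      ∑ y ∈ univ.erase (0 : V), ((univ.erase (0 : V)).filter (· ∈ W y)).card := by
    simp only [card_filter]
    exact sum_comm
  rw [sum_congr rfl h1, sum_congr rfl h2, sum_const, sum_const, smul_eq_mul, smul_eq_mul] at h3
  have h4 : 0 < (univ.erase (0 : V)).card := card_pos.2 ⟨z, by simp [hz]⟩
  rw [Nat.eq_of_mul_eq_mul_left h4 h3]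
  exact Nat.sub_add_cancel (Nat.pow_pos Nat.card_pos)

theorem key (S : Sp F V) {K : Subgroup (V ≃ₗ[F] V)} (pt : S.PtT K) {W : V → Submodule F V}
    (h : S.WS K W S.k) (T : Submodule F V) (hT : dm T ≤ 2) {x x' : V} (hx : x ≠ 0) (hx' : x' ≠ 0)
    (H : ∀ y, y ≠ 0 → (∀ s ∈ T, S.B y s = 0) → x ∈ W y ∨ x' ∈ W y) : False := by
  have : Module.Finite F V := Module.Finite.of_finite
  have h1 := count S pt h hx
  have h2 := count S pt h hx'
  have h3 := card_sub (S.B.orthogonal T)
  have h4 : dm (S.B.orthogonal T) = finrank F V - finrank F T :=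
    LinearMap.BilinForm.finrank_orthogonal S.nd T
  have h5 : ((univ.erase (0 : V)).filter (· ∈ S.B.orthogonal T)).card ≤
      ((univ.erase (0 : V)).filter (x ∈ W ·)).card +
        ((univ.erase (0 : V)).filter (x' ∈ W ·)).card := by
    refine (card_le_card fun y hy => ?_).trans (card_union_le _ _)
    obtain ⟨a, b⟩ := mem_filter.1 hy
    rw [mem_union, mem_filter, mem_filter]
    exact (H y (ne_of_mem_erase a) fun s hs => S.alt.isRefl _ _ (b s hs)).imp (⟨a, ·⟩) (⟨a, ·⟩)
  have hq : 2 ≤ Nat.card F := Finite.one_lt_card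
  have h6 : Nat.card F ^ (S.k + 1) ≤ Nat.card F ^ dm (S.B.orthogonal T) :=
    Nat.pow_le_pow_right (by omega) (by have := S.dim; have := S.hk; unfold dm at *; omega)
  have h7 : Nat.card F ^ S.k * 2 ≤ Nat.card F ^ (S.k + 1) := by
    rw [pow_succ]; exact Nat.mul_le_mul_left _ hq
  omega

theorem maxl (S : Sp F V) {A : Submodule F V} (hA : S.Iso A) (hd : dm A = S.k) {x : V}
    (hx : ∀ v ∈ A, S.B v x = 0) : x ∈ A := by
  have : Module.Finite F V := Module.Finite.of_finite
  have h4 : finrank F (S.B.orthogonal A) = finrank F V - finrank F A :=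
    LinearMap.BilinForm.finrank_orthogonal S.nd A
  have h1 : A = S.B.orthogonal A := Submodule.eq_of_le_of_finrank_eq
    (fun u hu v hv => hA v hv u hu) (by have := S.dim; unfold dm at *; omega)
  rw [h1]
  exact hx

theorem w2 : W2Stmt := by
  intro F V _ _ _ _ _ S K hK pt W h
  have := Fintype.ofFinite V
  have : Module.Finite F V := Module.Finite.of_finite
  have fix : ∀ g ∈ K, ∀ y, y ≠ 0 → g y = y → ∀ v ∈ W y, g v ∈ W y := fun g hg y hy e v hv => by
    rw [← e, h.inv g hg y hy]
    exact H71.P3.smul_mem_smul.2 hv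
  refine ⟨fun x u c hx hu g hg hE => ?_, fun L hL g hg hA => ?_⟩
  · have h2 := S.two_ne_zero
    refine key S pt h (Submodule.span F {x, u}) ?_ hx (x' := (2 : F) • u + c • x) (fun e => hu ?_)
      fun y hy hT => ?_
    · have := finrank_span_finset_le_card (R := F) ({x, u} : Finset V)
      rw [Set.finrank, coe_insert, coe_singleton] at this
      exact this.trans card_le_two
    · refine Submodule.mem_span_singleton.2 ⟨-(2⁻¹ * c), ?_⟩
      have e2 := congrArg ((2⁻¹ : F) • ·) (eq_neg_of_add_eq_zero_left e)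
      simp only [smul_smul, inv_mul_cancel₀ h2, one_smul, smul_neg] at e2
      rw [e2, neg_smul]
    have a1 : S.B y x = 0 := hT x (Submodule.subset_span (by simp))
    have a2 : S.B y u = 0 := hT u (Submodule.subset_span (by simp))
    by_cases hv : ∀ v ∈ W y, S.B v x = 0
    · exact Or.inl (maxl S (h.iso y hy) (h.dim y hy) hv)
    right
    push Not at hv
    obtain ⟨v, v1, v2⟩ := hv
    have a3 : g v - v ∈ W y := sub_mem (fix g hg y hy (by rw [hE.2, a1, a2]; simp) v v1) v1
    have a4 : g v - v = S.B v u • x + S.B v x • u + (c * S.B v x) • x := by rw [hE.2]; abel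
    have a5 := h.iso y hy v v1 _ a3
    rw [a4] at a3 a5
    simp only [map_add, map_smul, smul_eq_mul] at a5
    have a6 : 2 * S.B v u + c * S.B v x = 0 :=
      (mul_eq_zero.1 (show S.B v x * _ = 0 by linear_combination a5)).resolve_left v2
    rw [← (W y).smul_mem_iff v2]
    convert (W y).smul_mem 2 a3 using 1
    have a7 : S.B v x * c = 2 * S.B v u + 2 * (c * S.B v x) := by linear_combination -a6
    simp only [smul_add, smul_smul, a7, add_smul, mul_comm (S.B v x) 2]
    abel
  · obtain ⟨s, s1, s2⟩ := Submodule.exists_mem_ne_zero_of_ne_bot (p := L) (by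
      rintro rfl
      have := hL.1
      rw [dm, finrank_bot] at this
      omega)
    refine key S pt h L hL.1.le s2 s2 fun y hy hT => Or.inl ?_
    exact maxl S (h.iso y hy) (h.dim y hy) fun v hv =>
      hA.2.2 v (h.iso y hy _ (fix g hg y hy (hA.1 y hT) v hv) v hv) s s1

end Cfsg.Agent.H44.P3W2
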