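import Cfsg.Agent.H87.PWDefs

/-! Project PW: the pieces IND and M. -/

set_option autoImplicit false

namespace Cfsg.Agent.H44.Pw

open Equiv Cfsg.Agent.H87.PW

variable {ι α : Type} [DecidableEq ι]

theorem res_wr {i : ι} (π : Perm {j // j ≠ i}) (τ : ι → Perm α) (x : ι → α) :
    res i (wr (Perm.ofSubtype π) τ x) = wr π (fun j => τ j.1) (res i x) := by
  funext j
  have : (Perm.ofSubtype π).symm j.1 = (π.symm j).1 := by
    rw [symm_apply_eq, Perm.ofSubtype_apply_coe, apply_symm_apply]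
  simp only [res, wr_apply, this]

theorem res_co' {i : ι} (j : {j // j ≠ i}) (τ : Perm α) (x : ι → α) :
    res i (co j.1 τ x) = co j τ (res i x) := by
  funext l
  by_cases h : l = j
  · subst h
    simp [res]
  · rw [co_ne h]
    exact co_ne (fun e => h (Subtype.ext e)) τ x

theorem ind : IndStmt := by
  intro ι α _ _ _ _ hm hP X i a S hS hX hL hco htop
  let H : Subgroup (Perm ({j // j ≠ i} → α)) :=
    { carrier := {ψ | ∃ g ∈ X, ∀ x ∈ S, res i (g x) = ψ (res i x)}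
      one_mem' := ⟨1, X.one_mem, fun _ _ => rfl⟩
      mul_mem' := by
        rintro ψ ψ' ⟨g, hg, h⟩ ⟨g', hg', h'⟩
        exact ⟨g * g', X.mul_mem hg hg', fun x hx => by
          rw [Perm.mul_apply, h _ (hX _ hg' x hx), h' x hx, Perm.mul_apply]⟩
      inv_mem' := by
        rintro ψ ⟨g, hg, h⟩
        refine ⟨g⁻¹, X.inv_mem hg, fun x hx => ?_⟩
        rw [Perm.eq_inv_iff_eq, ← h _ (hX _ (X.inv_mem hg) x hx)]
        simp }
  have key : ∀ g ∈ X, ∀ x ∈ S, res i (g x) = res i (g (ins i a (res i x))) := fun g hg x hx =>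
    hL g hg x hx _ (hS _ (ins_self _ _ _)) (res_ins _ _ _).symm
  have inv : ∀ g ∈ X, ∀ l, res i (g⁻¹ (ins i a (res i (g (ins i a l))))) = l := fun g hg l => by
    rw [← key _ (X.inv_mem hg) _ (hX _ hg _ (hS _ (ins_self _ _ _)))]
    simp
  have hA : (∀ ψ ∈ H, InW ψ) → ∀ g ∈ X, ∃ (π : Perm ι) (τ : ι → Perm α), π i = i ∧ τ i = 1 ∧
      ∀ x ∈ S, res i (g x) = res i (wr π τ x) := fun h g hg => by
    let ψ : Perm ({j // j ≠ i} → α) := ⟨fun l => res i (g (ins i a l)),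
      fun l => res i (g⁻¹ (ins i a l)), inv g hg, inv g⁻¹ (X.inv_mem hg)⟩
    obtain ⟨π, τ, e⟩ := h ψ ⟨g, hg, key g hg⟩
    refine ⟨Perm.ofSubtype π, fun j => if h : j = i then 1 else τ ⟨j, h⟩,
      Perm.ofSubtype_apply_of_not_mem π (by simp), by simp, fun x hx => ?_⟩
    have : (fun j : {j // j ≠ i} => if h : j.1 = i then 1 else τ ⟨j.1, h⟩) = τ :=
      funext fun j => dif_neg j.2
    rw [res_wr, this, ← e]
    exact key g hg x hx
  by_cases hk : 3 ≤ Fintype.card ι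
  · refine (hP _ α (card_ne i) hm H ⟨fun j τ hτ => ⟨_, hco j.1 j.2 τ hτ, fun x _ => res_co' j τ x⟩,
      fun π => ?_⟩).imp hA fun h => ⟨hk, fun ψ hψ => h (Perm.mem_alternatingGroup.2 hψ)⟩
    obtain ⟨τ, hτ⟩ := htop (Perm.ofSubtype π) (Perm.ofSubtype_apply_of_not_mem π (by simp))
    exact ⟨_, _, hτ, fun x _ => res_wr π τ x⟩
  · have : Subsingleton {j // j ≠ i} :=
      Fintype.card_le_one_iff_subsingleton.1 (by rw [card_ne]; omega)
    exact Or.inl (hA fun ψ _ => inW_of_subsingleton ψ)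

/-- The setwise stabiliser of a hyperplane. -/
def st (H : Subgroup (Perm (ι → α))) (i : ι) (a : α) : Subgroup (Perm (ι → α)) where
  carrier := {g | g ∈ H ∧ ∀ x : ι → α, x i = a ↔ g x i = a}
  one_mem' := ⟨H.one_mem, fun _ => Iff.rfl⟩
  mul_mem' := fun hg hg' => ⟨H.mul_mem hg.1 hg'.1, fun x => (hg'.2 x).trans (hg.2 _)⟩
  inv_mem' := fun {g} hg => ⟨H.inv_mem hg.1, fun x => by simpa using (hg.2 (g⁻¹ x)).symm⟩

variable [Fintype ι] [Fintype α] [DecidableEq α] {H : Subgroup (Perm (ι → α))} {i : ι} {a : α}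
  {g : Perm (ι → α)}

omit [DecidableEq ι] [DecidableEq α] in
theorem mem_st (hg : g ∈ H) (h : ∀ x : ι → α, x i = a → g x i = a) : g ∈ st H i a :=
  ⟨hg, fun x => ⟨h x, fun hx => by
    simpa using Perm.perm_symm_on_of_perm_on_finite (p := fun x : ι → α => x i = a) h hx⟩⟩

theorem conj_co (hc : Ctx H) (hs : H87.PW.Small H) (hg : g ∈ st H i a) {β : Perm α}
    (h1 : Perm.sign β = 1) (h2 : β a = a) : ∃ τ, ∀ x, g (co i β x) = co i τ (g x) := by
  obtain ⟨τ, h⟩ := hs i a (g * co i β * g⁻¹)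
    (H.mul_mem (H.mul_mem hg.1 (hc.hyp.co_mem i β h1)) (H.inv_mem hg.1)) fun z hz => by
      have h3 : g⁻¹ z i = a := (((st H i a).inv_mem hg).2 z).1 hz
      rw [Perm.mul_apply, Perm.mul_apply, (co_fix_iff _ _ _).2 (by rw [h3, h2])]
      simp
  exact ⟨τ, fun x => by rw [← h]; simp⟩

theorem par' (hc : Ctx H) (hs : H87.PW.Small H) (hg : g ∈ st H i a) {x y : ι → α} (h : g x i = g y i) :
    x i = y i := by
  by_cases h1 : x i = a
  · rw [h1, (hg.2 y).2 (h ▸ (hg.2 x).1 h1)]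
  by_cases h2 : y i = a
  · exact absurd ((hg.2 x).2 (h ▸ (hg.2 y).1 h2)) h1
  by_contra h3
  obtain ⟨e, e1, e2, e3, -⟩ := exists_new hc.hm a (x i) (y i) a
  obtain ⟨f, f1, f2, f3, f4⟩ := exists_new hc.hm a (x i) (y i) e
  obtain ⟨τ, hτ⟩ := conj_co hc hs hg (c3_sign e3.symm f3.symm)
    (c3_of_ne (Ne.symm h2) e1.symm f1.symm)
  have h4 := hτ x
  rw [(co_fix_iff _ _ _).2 (c3_of_ne h3 e2.symm f2.symm), eq_comm, co_fix_iff, h,
    ← co_fix_iff, ← hτ, g.apply_eq_iff_eq, co_fix_iff, c3_1 e3.symm f4.symm] at h4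
  exact e3 h4

theorem par (hc : Ctx H) (hs : H87.PW.Small H) (hg : g ∈ st H i a) {x y : ι → α} (h : x i = y i) :
    g x i = g y i :=
  par' hc hs ((st H i a).inv_mem hg) (by simpa using h)

theorem exists_s (hc : Ctx H) (hs : H87.PW.Small H) (hg : g ∈ st H i a) :
    ∃ s : Perm α, ∀ x, g x i = s (x i) :=
  ⟨Equiv.ofBijective (fun c => g (fun _ => c) i) (Finite.injective_iff_bijective.1
    fun _ _ h => par' hc hs hg h), fun _ => par hc hs hg rfl⟩

theorem col (hc : Ctx H) (hs : H87.PW.Small H) (hg : g ∈ st H i a) {x y : ι → α} (hx : x i ≠ a)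
    (hy : y i ≠ a) (h : res i x = res i y) : res i (g x) = res i (g y) := by
  obtain ⟨β, h1, h2, h3⟩ := exists_even2 hc.hm hx.symm hy.symm
  obtain ⟨τ, hτ⟩ := conj_co hc hs hg h1 h2
  have : co i β x = y := ext_res (i := i) (by simpa using h3) (by simpa using h)
  rw [← this, hτ, res_co]

theorem col' (hc : Ctx H) (hs : H87.PW.Small H) (hg : g ∈ st H i a) {x y : ι → α}
    (h : res i x = res i y) : res i (g x) = res i (g y) := by
  obtain ⟨c, h1, h2, -⟩ := exists_new hc.hm (x i) (y i) a a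
  obtain ⟨s, hs'⟩ := exists_s hc hs hg
  obtain ⟨σ, h3, h4⟩ := exists_even1 hc.hm (s c) c
  have := col hc hs (mem_st (a := c) (H.mul_mem (hc.hyp.co_mem i σ h3) hg.1) fun z hz => by
    rw [Perm.mul_apply, co_self, hs', hz, h4]) h1.symm h2.symm h
  simpa using this

theorem core (hc : Ctx H) (hI : IndW ι α) (h0 : T0W H) (hs : H87.PW.Small H) (hg : g ∈ st H i a) :
    InW g := by
  rcases hI (st H i a) i a Set.univ (fun _ _ => trivial) (fun _ _ _ _ => trivial)
    (fun g hg _ _ _ _ h => col' hc hs hg h)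
    (fun j hj τ hτ => ⟨hc.hyp.co_mem j τ hτ, fun x => by rw [co_ne hj.symm]⟩)
    (fun π hπ => by
      obtain ⟨d, h1, -⟩ := exists_new hc.hm a a a a
      obtain ⟨e, h2, h3, -⟩ := exists_new hc.hm a d d d
      obtain ⟨τ, h4, h5⟩ := hc.hyp.top' π (fun _ => e) (fun _ => d) fun _ => h3
      refine ⟨τ, mem_st h4 fun x hx => ?_⟩
      rw [← hπ, wr_apply', hπ, hx]
      rcases h5 i with h | h <;> rw [h]
      · rfl
      · exact swap_apply_of_ne_of_ne h2.symm h1.symm) with h | ⟨hk, h⟩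
  · obtain ⟨π, τ, h1, -, h2⟩ := h g hg
    obtain ⟨s, hs'⟩ := exists_s hc hs hg
    refine ⟨π, Function.update τ i s, Equiv.ext fun x => ext_res (i := i) ?_ ?_⟩
    · conv_rhs => rw [← h1, wr_apply', h1]
      rw [hs', Function.update_self]
    · rw [h2 x trivial, res_eq_iff]
      intro j hj
      simp [Function.update_of_ne hj]
  exfalso
  have : Nontrivial {j // j ≠ i} := Fintype.one_lt_card_iff_nontrivial.1 (by rw [card_ne]; omega)
  obtain ⟨j, j', hj⟩ := exists_pair_ne {j // j ≠ i}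
  obtain ⟨b, h1, -⟩ := exists_new hc.hm a a a a
  obtain ⟨c, h2, h3, -⟩ := exists_new hc.hm a b b b
  let l : α → {j // j ≠ i} → α := fun v => Function.update (fun _ => a) j' v
  have hl : ∀ {u v}, u ≠ v → l u ≠ l v := fun h e => h (by simpa [l] using congrFun e j')
  have hl' : ∀ (x : ι → α) v, x j.1 ≠ a → res i x ≠ l v := fun x v h e =>
    h (by simpa [l, res, Function.update_of_ne hj] using congrFun e j)
  obtain ⟨k, hk, h4⟩ := h (c3 (l a) (l b) (l c)) (c3_sign (hl h1.symm) (hl h2.symm))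
  obtain ⟨s, hs'⟩ := exists_s hc hs hk
  have h5 : ∀ x, res i ((k * k * co i (s * s)⁻¹) x) =
      c3 (l a) (l b) (l c) (c3 (l a) (l b) (l c) (res i x)) := fun x => by
    rw [Perm.mul_apply, Perm.mul_apply, h4 _ trivial, h4 _ trivial, res_co]
  have h6 := h0 (k * k * co i (s * s)⁻¹)
    (H.mul_mem (H.mul_mem hk.1 hk.1) (hc.hyp.co_mem _ _ (by simp))) j.1 a fun x hx =>
      ext_res (i := i) (by simp [hs']) (by
        have := c3_of_ne (hl' x a hx) (hl' x b hx) (hl' x c hx)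
        rw [h5, this, this])
  have h7 := h5 (ins i a (l a))
  rw [h6, res_ins, c3_1 (hl h1.symm) (hl h3.symm), c3_2, Perm.one_apply, res_ins] at h7
  exact hl h2.symm h7

theorem mst : MStmt := by
  intro ι α _ _ _ _ H hc hI h0 hs g hg i j a b h
  obtain ⟨τ, hτ⟩ := hc.hyp.top (swap j i)
  obtain ⟨σ, h1, h2⟩ := exists_even1 hc.hm (τ i b) a
  have h3 := core hc hI h0 hs (mem_st (i := i) (a := a)
    (H.mul_mem (H.mul_mem (hc.hyp.co_mem i σ h1) hτ) hg) fun x hx => by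
      simp [h x hx, h2])
  exact ((W ι α).mul_mem_cancel_left ((W ι α).mul_mem (co_mem_W i σ) (wr_mem_W _ τ))).1 h3

end Cfsg.Agent.H44.Pw
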