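import Mathlib
import Cfsg.Agent.H79.R3Defs

/-! Three orbits on point-line-plane flags. -/

set_option autoImplicit false

namespace Cfsg.Agent.H44.R3Ce1

open Cfsg Module Cfsg.Agent.H79.R3
open scoped Pointwise

universe u

theorem inj3 : ∀ (f : Fin 3 → Fin 2 × Fin 2) (i j : Fin 2), (∃ a, f a = (i, j + 1)) →
    (∃ a, f a = (i + 1, j)) → (∃ a, f a = (i + 1, j + 1)) → Function.Injective f := by
  decide +kernel

theorem fin2 : ∀ a b : Fin 2, a ≠ b → a = b + 1 := by decide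

theorem fin2' : ∀ a b i : Fin 2, (a = i ↔ b = i) → a = b := by decide

theorem fin2'' : ∀ i : Fin 2, i + 1 ≠ i := by decide

theorem ce1 (cov : CovStmt.{u}) (zd : ZdStmt.{u}) : Ce1Stmt.{u} := by
  intro F V _ _ _ _ _ K tr ⟨c13, s13, h13⟩ ⟨c23, s23, h23⟩ ⟨c, sc, hc⟩
  have : Module.Finite F V := Module.Finite.of_finite
  have ex : ∀ A D : Submodule F V, A ≤ D → dm A < dm D → ∃ P, A ≤ P ∧ P ≤ D ∧ dm P = dm A + 1 := by
    intro A D h1 h2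
    refine Set.nonempty_of_ncard_ne_zero (s := Cov A D) ?_
    obtain ⟨k, hk⟩ : ∃ k, dm D - dm A = k + 1 := ⟨dm D - dm A - 1, by omega⟩
    rw [cov F V A D h1, hk, br, Finset.sum_range_succ']
    simp
  choose A B D hF hcF using sc
  let f : Fin 3 → Fin 2 × Fin 2 := fun k => (c13 (A k) (D k), c23 (B k) (D k))
  have hf : ∀ x L E, Fl 1 2 3 x L E → f (c x L E) = (c13 x E, c23 L E) := by
    intro x L E h
    obtain ⟨g, hg, e1, e2, e3⟩ := (hc _ _ _ _ _ _ (hF (c x L E)) h).1 (hcF _)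
    obtain ⟨a1, a2, a3, a4, a5⟩ := hF (c x L E)
    obtain ⟨b1, b2, b3, b4, b5⟩ := h
    exact Prod.ext ((h13 _ _ _ _ (a1.trans a2) a3 a5 (b1.trans b2) b3 b5).2 ⟨g, hg, e1, e3⟩)
      ((h23 _ _ _ _ a2 a4 a5 b2 b4 b5).2 ⟨g, hg, e2, e3⟩)
  obtain ⟨⟨i, j⟩, hij⟩ : ∃ p, ∀ k, f k ≠ p := by
    by_contra h
    push Not at h
    have := Fintype.card_le_of_surjective f h
    simp at this
  obtain ⟨E, hE⟩ : ∃ E : Submodule F V, dm E = 3 := ⟨D 0, (hF 0).2.2.2.2⟩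
  have p13 : ∀ k, ∃ x, x ≤ E ∧ dm x = 1 ∧ c13 x E = k := fun k => by
    obtain ⟨x, E', a1, a2, a3, rfl⟩ := s13 k
    obtain ⟨g, hg, rfl⟩ := tr E' E a3 hE
    have b1 : dm (g • x) = 1 := (dm_smul g x).trans a2
    exact ⟨g • x, smul_le_smul.2 a1, b1,
      ((h13 _ _ _ _ a1 a2 a3 (smul_le_smul.2 a1) b1 hE).2 ⟨g, hg, rfl, rfl⟩).symm⟩
  have p23 : ∀ k, ∃ x, x ≤ E ∧ dm x = 2 ∧ c23 x E = k := fun k => by
    obtain ⟨x, E', a1, a2, a3, rfl⟩ := s23 k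
    obtain ⟨g, hg, rfl⟩ := tr E' E a3 hE
    have b1 : dm (g • x) = 2 := (dm_smul g x).trans a2
    exact ⟨g • x, smul_le_smul.2 a1, b1,
      ((h23 _ _ _ _ a1 a2 a3 (smul_le_smul.2 a1) b1 hE).2 ⟨g, hg, rfl, rfl⟩).symm⟩
  have miss : ∀ x L, x ≤ L → L ≤ E → dm x = 1 → dm L = 2 → c13 x E = i → c23 L E ≠ j :=
    fun x L a1 a2 a3 a4 a5 a6 => hij _ (by rw [hf x L E ⟨a1, a2, a3, a4, hE⟩, a5, a6])
  obtain ⟨x, x1, x2, x3⟩ := p13 i
  obtain ⟨y, y1, y2, y3⟩ := p13 (i + 1)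
  obtain ⟨M, m1, m2, m3⟩ := p23 j
  have hxy : x ≠ y := fun e => fin2'' i (by rw [← y3, ← e, x3])
  have l2 : dm (x ⊔ y) = 2 := by
    have h1 := Submodule.finrank_sup_add_finrank_inf_eq x y
    have h2 : finrank F (x ⊓ y : Submodule F V) < 1 := by
      by_contra h
      have h3 : x ⊓ y = x := Submodule.eq_of_le_of_finrank_le inf_le_left (by
        unfold dm at x2; omega)
      exact hxy (Submodule.eq_of_le_of_finrank_eq (h3 ▸ inf_le_right) (x2.trans y2.symm))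
    unfold dm at *
    omega
  generalize hL : x ⊔ y = L at l2
  have l1 : L ≤ E := hL ▸ sup_le x1 y1
  have lx : x ≤ L := hL ▸ le_sup_left
  have ly : y ≤ L := hL ▸ le_sup_right
  have l3 : c23 L E = j + 1 := fin2 _ _ (miss x L lx l1 x2 l2 x3)
  have hbot : dm (⊥ : Submodule F V) = 0 := finrank_bot F V
  obtain ⟨z, -, z1, z2⟩ := ex ⊥ M bot_le (by omega)
  rw [hbot] at z2
  have z3 : c13 z E = i + 1 := fin2 _ _ fun e => miss z M z1 m1 z2 m2 e m3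
  have finj : Function.Injective f := inj3 f i j
    ⟨_, by rw [hf x L E ⟨lx, l1, x2, l2, hE⟩, x3, l3]⟩
    ⟨_, by rw [hf z M E ⟨z1, m1, z2, m2, hE⟩, z3, m3]⟩
    ⟨_, by rw [hf y L E ⟨ly, l1, y2, l2, hE⟩, y3, l3]⟩
  have sinv : ∀ g ∈ K, g • E = E → ∀ y, dm y = 1 → y ≤ E → c13 (g • y) E = c13 y E :=
    fun g hg e y a1 a2 => ((h13 _ _ _ _ a2 a1 hE (e ▸ smul_le_smul.2 a2) ((dm_smul g y).trans a1)
      hE).2 ⟨g, hg, rfl, e⟩).symm
  have zero : ∀ N, N ≤ E → dm N = 2 → c23 N E = j → cnt (fun y => c13 y E = i) ⊥ N = 0 := by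
    intro N a1 a2 a3
    rw [cnt, Set.eq_empty_of_forall_notMem (s := {P | P ∈ Cov ⊥ N ∧ c13 P E = i}), Set.ncard_empty]
    rintro P ⟨⟨-, b1, b2⟩, b3⟩
    exact miss P N b1 a1 (by omega) a2 b3 a3
  refine ⟨K ⊓ MulAction.stabilizer _ L ⊓ MulAction.stabilizer _ E, L, fun y => c13 y E = i,
    inf_le_left.trans inf_le_left, ⟨l2, fun g hg => hg.1.2, fun g hg w a1 a2 => ?_,
      fun w w' a1 a2 b1 b2 e => ?_⟩, ?_⟩
  · rw [sinv g hg.1.1 hg.2 w a1 (a2.trans l1)]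
  · have h1 : Fl 1 2 3 w L E := ⟨a2, l1, a1, l2, hE⟩
    have h2 : Fl 1 2 3 w' L E := ⟨b2, l1, b1, l2, hE⟩
    obtain ⟨g, hg, e1, e2, e3⟩ := (hc _ _ _ _ _ _ h1 h2).1 (finj (by
      rw [hf _ _ _ h1, hf _ _ _ h2, fin2' _ _ i e]))
    exact ⟨g, ⟨⟨hg, e2⟩, e3⟩, e1⟩
  · refine zd F V ⊥ E _ _ bot_le (by omega) (fun N _ a1 a2 => ?_)
      ⟨M, bot_le, m1, by omega, zero M m1 m2 m3⟩ ⟨x, ⟨bot_le, x1, by omega⟩, x3⟩
    have a3 : dm N = 2 := by omega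
    by_cases e : c23 N E = j
    · exact Or.inl (zero N a1 a3 e)
    right
    obtain ⟨g, hg, e1, e2⟩ := (h23 _ _ _ _ l1 l2 hE a1 a3 hE).1 (l3.trans (fin2 _ _ e).symm)
    have := cnt_smul g (s := fun y => c13 y E = i) (s' := fun y => c13 y E = i) (A := ⊥) (D := L)
      fun P hP => by rw [sinv g hg e2 P (by have := hP.2.2; omega) (hP.2.1.trans l1)]
    rwa [smul_bot, e1] at this

end Cfsg.Agent.H44.R3Ce1
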