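import Mathlib
import Cfsg.Agent.H44.RfE
import Cfsg.Agent.H44.RfG
import Cfsg.Agent.H44.RfI

/-!
# The Rudvalis group from a rank 3 extension of `²F₄(2)`
-/

set_option autoImplicit false
set_option maxRecDepth 200000
set_option Elab.async false

namespace Cfsg.Agent.H44.RfR

open Cfsg.Agent.H43 Cfsg.Agent.H44 Cfsg.Agent.H44.RfM Cfsg.Agent.H44.RfD Equiv MulAction

theorem mem_K0 {x : K} : x ∈ K0 ↔ x • o = o := by rw [K0_eq, mem_stabilizer_iff]

theorem s_inv : (k 4)⁻¹ = k 4 := inv_eq_of_mul_eq_one_left s_sq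

theorem s_not : k 4 ∉ K0 := fun h => dat.hod ((mem_K0.1 h).symm.trans s_o)

/-- Words for the generators of the two-point stabiliser. -/
def lw (j : Bool) : List ℕ := cond j q1 [1]

theorem lam_L (j : Bool) : ev k (lw j) ∈ stabilizer K o ⊓ stabilizer K d :=
  L_eq ▸ mem_wgen k _ (by cases j <;> simp [lw])

theorem lam_mem (j : Bool) : ev k (lw j) ∈ K0 := mem_K0.2 (lam_L j).1

theorem s_lam_mem (j : Bool) : k 4 * ev k (lw j) * k 4 ∈ K0 :=
  mem_K0.2 (by rw [mul_smul, mul_smul, s_o, mem_stabilizer_iff.1 (lam_L j).2, s_d])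

theorem ord_b : orderOf (k 3) = 2 :=
  orderOf_eq_prime (by rw [pow_two, mul_eq_one_iff_eq_inv]; exact k_inv (by decide))
    (ev_single k 3 ▸ ev_ne (l' := []) (by decide +kernel))

/-- Images of the generators under the outer automorphism. -/
def A : List (List ℕ) := [[], [2, 2, 2], [1, 1, 1], [3]]

variable {G Ω : Type*} [Group G] [MulAction G Ω]

/-- The data of a rank 3 extension. -/
structure Hyp (ι : K →* G) (a b : Ω) : Prop where
  inj : Function.Injective ι
  stab : ∀ y : G, y • a = a ↔ y ∈ ι.range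
  stab2 : ∀ x : K, ι x • b = b ↔ x ∈ K0
  cov : ∀ p : Ω, p = a ∨ (∃ x, ι x • b = p) ∨
    ∀ Y : Subgroup K, (∀ y ∈ Y, ι y • p = p) → Nat.card Y ∣ 20480

variable {ι : K →* G} {a b : Ω}

theorem Hyp.fa (h : Hyp ι a b) (x : K) : ι x • a = a := (h.stab _).2 ⟨x, rfl⟩

theorem Hyp.cb (h : Hyp ι a b) : ι (k 4) • b ≠ b := fun e => s_not ((h.stab2 _).1 e)

theorem Hyp.ab (h : Hyp ι a b) : a ≠ b := fun e => h.cb (by rw [← e, h.fa])

theorem hs (ι : K →* G) : ι (k 4) * ι (k 4) = 1 := by rw [← map_mul, s_sq, map_one]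

theorem Hyp.fix (h : Hyp ι a b) {p : Ω} (hp : ∀ j, ι (ev k (lw j)) • p = p) :
    p = a ∨ p = b ∨ p = ι (k 4) • b := by
  rcases h.cov p with h1 | ⟨x, rfl⟩ | h1
  · exact Or.inl h1
  · have h1 : ∀ j, ev k (lw j) • x • o = x • o := fun j => by
      have := mem_K0.1 ((h.stab2 (x⁻¹ * ev k (lw j) * x)).1 (by
        rw [map_mul, map_mul, map_inv, mul_smul, mul_smul, hp, inv_smul_smul]))
      rwa [mul_smul, mul_smul, inv_smul_eq_iff] at this
    refine Or.inr ((fix_L (ev_single k 1 ▸ h1 false) (h1 true)).imp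
      (fun h2 => (h.stab2 _).2 (mem_K0.2 h2)) fun h2 => ?_)
    have := (h.stab2 (k 4 * x)).2 (mem_K0.2 (by rw [mul_smul, h2, s_d]))
    rwa [map_mul, mul_smul, ← s_inv, map_inv, inv_smul_eq_iff] at this
  · have h2 : wgen k [[1], q1] ≤ (stabilizer G p).comap ι := wgen_le.2 (by
      simp only [List.forall_mem_cons]
      exact ⟨hp false, hp true, by simp⟩)
    have := h1 _ h2
    rw [L_eq, card_L] at this
    omega

theorem Hyp.cent (h : Hyp ι a b) {y : G} (hy : y • a = a)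
    (hc : ∀ j, y * ι (ev k (lw j)) = ι (ev k (lw j)) * y) : y = 1 := by
  obtain ⟨x, rfl⟩ := (h.stab y).1 hy
  have h1 : ∀ j, x * ev k (lw j) = ev k (lw j) * x := fun j => h.inj (by rw [map_mul, map_mul, hc])
  rw [RfD.cent (y := x) (ev_single k 1 ▸ h1 false) (h1 true), map_one]

theorem Hyp.cyc (h : Hyp ι a b) {t : G} (ha : t • a = b) (hb : t • b = a)
    (hc : ∀ j, ι (ev k (lw j)) • t • ι (k 4) • b = t • ι (k 4) • b) :
    (t * ι (k 4)) ^ 3 • a = a := by
  have h1 : t • ι (k 4) • b = ι (k 4) • b := by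
    rcases h.fix hc with e | e | e
    · exact absurd (smul_left_cancel t (e.trans hb.symm)) h.cb
    · have := smul_left_cancel t (e.trans ha.symm)
      rw [← h.fa (k 4)] at this
      exact absurd (smul_left_cancel _ this).symm h.ab
    · exact e
  rw [pow_succ, pow_two, mul_smul, mul_smul, mul_smul, mul_smul, mul_smul, h.fa, ha, h1,
    ← mul_smul (ι _), hs, one_smul, hb]

theorem Hyp.not_cent (h : Hyp ι a b) {t : G} (ha : t • a = b) (hb : t • b = a) :
    ¬ ∀ y ∈ K0, t * ι y = ι y * t := fun hc => by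
  have h1 := h.cyc ha hb fun j => by
    rw [← mul_smul, ← hc _ (lam_mem j), mul_smul, ← mul_smul (ι _), ← map_mul,
      show ev k (lw j) * k 4 = k 4 * (k 4 * ev k (lw j) * k 4) by
        rw [← mul_assoc, ← mul_assoc, s_sq, one_mul],
      map_mul, mul_smul, (h.stab2 _).2 (s_lam_mem j)]
  have h2 : ι (k 4) * (t * ι (k 4)) ^ 3 = 1 := by
    refine h.cent (by rw [mul_smul, h1, h.fa]) fun j => ?_
    have hs := hs ι
    have e1 := hc _ (lam_mem j)
    have e2 := hc _ (s_lam_mem j)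
    rw [map_mul, map_mul] at e2
    generalize ι (k 4) = σ at *
    generalize ι (ev k (lw j)) = l at *
    have s1 : SemiconjBy σ l (σ * l * σ) := by
      rw [SemiconjBy, mul_assoc _ σ σ, hs, mul_one]
    have s2 : SemiconjBy σ (σ * l * σ) l := by
      rw [SemiconjBy, ← mul_assoc, ← mul_assoc, hs, one_mul]
    have u1 := SemiconjBy.mul_left e2 s1
    have u2 := SemiconjBy.mul_left e1 s2
    rw [pow_succ, pow_two]
    exact s2.mul_left ((u1.mul_left u2).mul_left u1)
  have h3 : (t * ι (k 4)) • a = b := by rw [mul_smul, h.fa, ha]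
  have h4 : (t * ι (k 4)) ^ 3 • b = b := by
    rw [← h3, ← mul_smul, ← pow_succ, pow_succ', mul_smul, h1]
  refine h.cb ?_
  rw [← h4, ← mul_smul, h2, h4, one_smul]

theorem Hyp.swap (h : Hyp ι a b) {u : G} (hu : u • b = a) : ∃ t : G, t • a = b ∧ t • b = a := by
  rcases h.cov (u • a) with e | ⟨x, e⟩ | e
  · exact absurd (smul_left_cancel u (e.trans hu.symm)) h.ab
  · exact ⟨(ι x)⁻¹ * u, by rw [mul_smul, ← e, inv_smul_smul],
      by rw [mul_smul, hu, ← map_inv, h.fa]⟩
  · have := Fact.mk (by norm_num : Nat.Prime 13)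
    obtain ⟨⟨y, hy⟩, h13⟩ := exists_prime_orderOf_dvd_card' (G := K0) 13 (by rw [card_K0]; norm_num)
    obtain ⟨x, hx⟩ := (h.stab (u * ι y * u⁻¹)).1 (by
      rw [← hu, mul_smul, inv_smul_smul, mul_smul, (h.stab2 _).2 hy])
    have h1 := e _ (Subgroup.zpowers_le_of_mem (H := (stabilizer G (u • a)).comap ι) (g := x)
      (show ι x • u • a = u • a by rw [hx, mul_smul, inv_smul_smul, mul_smul, h.fa]))
    rw [Nat.card_zpowers, ← orderOf_injective ι h.inj, hx, ← MulAut.conj_apply, MulEquiv.orderOf_eq,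
      orderOf_injective ι h.inj, ← Subgroup.orderOf_mk y hy, h13] at h1
    omega

theorem Hyp.conj (h : Hyp ι a b) {t : G} (ha : t • a = b) (hb : t • b = a) {y : K} (hy : y ∈ K0) :
    ∃ x ∈ K0, orderOf x = orderOf y ∧ ι x = t * ι y * t⁻¹ := by
  obtain ⟨x, hx⟩ := (h.stab (t * ι y * t⁻¹)).1 (by
    rw [← hb, mul_smul, inv_smul_smul, mul_smul, (h.stab2 _).2 hy])
  exact ⟨x, (h.stab2 _).1 (by rw [hx, ← ha, mul_smul, inv_smul_smul, mul_smul, h.fa]), by
    rw [← orderOf_injective ι h.inj, hx, ← MulAut.conj_apply, MulEquiv.orderOf_eq,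
      orderOf_injective ι h.inj], hx⟩

theorem conj_ev (ι : K →* G) (t : G) {x y x' y' : K} (hx : ι x' = t * ι x * t⁻¹)
    (hy : ι y' = t * ι y * t⁻¹) (l : List ℕ) :
    ι (ev (tri x' y') l) = t * ι (ev (tri x y) l) * t⁻¹ := by
  have := map_ev ((MulAut.conj t).toMonoidHom.comp ι) (tri x y) l
  rw [map_tri] at this
  rw [map_ev, map_tri, hx, hy]
  exact this.symm

theorem Hyp.exists_t (h : Hyp ι a b) {u : G} (hu : u • b = a) :
    ∃ t : G, t • a = b ∧ t • b = a ∧ ∀ l, lettersIn 3 l = true →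
      SemiconjBy t (ι (ev k l)) (ι (ev k (Gl.fl A l))) := by
  obtain ⟨t, ha, hb⟩ := h.swap hu
  obtain ⟨x, hx, x8, ex⟩ := h.conj ha hb (lam_mem false)
  obtain ⟨z, hz, z2, ez⟩ := h.conj ha hb (ev_mem3 (l := [3]) (by decide))
  rw [show lw false = [1] from rfl, ev_single] at x8 ex
  rw [ev_single] at z2 ez
  obtain ⟨y, hy, e3, e1⟩ := out hx hz (x8.trans dat.ord) (z2.trans ord_b) fun l hl =>
    h.inj (by rw [conj_ev ι t ex ez, sat_tri l hl, map_one, mul_one, mul_inv_cancel])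
  have ha' : (ι y * t) • a = b := by rw [mul_smul, ha, (h.stab2 _).2 hy]
  have hb' : (ι y * t) • b = a := by rw [mul_smul, hb, h.fa]
  have key : ∀ {x x' : K}, ι x' = t * ι x * t⁻¹ →
      ι (y * x' * y⁻¹) = ι y * t * ι x * (ι y * t)⁻¹ := fun e => by
    rw [map_mul, map_mul, map_inv, e]; group
  have f3 := key ez
  have f1 := key ex
  rw [e3] at f3
  generalize ι y * t = t at *
  rcases e1 with e1 | e1 <;> rw [e1] at f1
  · refine absurd (fun w hw => ?_) (h.not_cent ha' hb')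
    have h1 : K0 ≤ (Subgroup.centralizer {t}).comap ι := wgen_le.2 fun l hl => by
      have h2 := List.all_eq_true.1 (by decide : [[1], [2], [3]].all (lettersIn 3) = true) l hl
      have := conj_ev ι t f1 f3 l
      rw [ev_tri h2, eq_mul_inv_iff_mul_eq] at this
      exact Subgroup.mem_centralizer_singleton_iff.2 this
    exact (Subgroup.mem_centralizer_singleton_iff.1 (h1 hw)).symm
  · refine ⟨t, ha', hb', fun l hl => ?_⟩
    have := conj_ev ι t f1 f3 l
    rw [ev_tri hl, u5, ← ev_single k 3, tri_wt (ev_iw [2, 2, 2]), Gl.ev_wt,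
      eq_mul_inv_iff_mul_eq] at this
    exact this.symm

/-- The generators. -/
noncomputable def gg (ι : K →* G) (t : G) (x : ℕ) : G := if x = 5 then t else ι (k x)

theorem Hyp.sat_U (h : Hyp ι a b) {t : G} (ha : t • a = b) (hb : t • b = a)
    (ht : ∀ l, lettersIn 3 l = true → SemiconjBy t (ι (ev k l)) (ι (ev k (Gl.fl A l)))) :
    Sat (gg ι t) ERfU.R := by
  have l3 : ∀ j, lettersIn 3 (lw j) = true := by decide
  have l3' : ∀ j, lettersIn 3 (Gl.fl A (lw j)) = true := by decide +kernel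
  have e2 : ∀ j, SemiconjBy t (ι (ev k (Gl.fl A (lw j)))) (ι (ev k (lw j))) := fun j => by
    have := ht _ (l3' j)
    rwa [ev_eq (l := Gl.fl A (Gl.fl A (lw j))) (l' := lw j) (by cases j <;> decide +kernel)] at this
  have h2 : t * t = 1 :=
    h.cent (by rw [mul_smul, ha, hb]) fun j => (e2 j).mul_left (ht _ (l3 j))
  have step : ∀ l l' l'', (lettersIn 3 l' && eqW (4 :: l) (l' ++ [4]) && eqW (Gl.fl A l') l'') =
      true → SemiconjBy (t * ι (k 4)) (ι (ev k l)) (ι (ev k l'')) := fun l l' l'' hc => by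
    simp only [Bool.and_eq_true] at hc
    have h3 := congrArg ι (ev_eq hc.1.2)
    rw [ev_cons, ev_append, ev_single, map_mul, map_mul] at h3
    exact ev_eq hc.2 ▸ (ht _ hc.1.1).mul_left h3
  have h3 : (t * ι (k 4)) ^ 3 = 1 := by
    refine h.cent (h.cyc ha hb fun j => ?_) fun j => ?_
    · have h4 : (k 4)⁻¹ * ev k (Gl.fl A (lw j)) * k 4 ∈ K0 := mem_K0.2 (by
        rw [mul_smul, mul_smul, s_o, inv_smul_eq_iff, s_o]
        cases j <;> exact smul_eq _ _ (by decide +kernel))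
      have h5 := (h.stab2 _).2 h4
      rw [map_mul, map_mul, map_inv, mul_smul, mul_smul, inv_smul_eq_iff] at h5
      rw [← mul_smul, ← (e2 j).eq, mul_smul, h5]
    · cases j
      · exact Commute.pow_left (step [1] [2, 2, 2] [1] (by decide +kernel)) 3
      · rw [pow_succ, pow_two]
        exact ((step _ [3, 2, 2, 3, 1, 1, 3, 1, 1, 1, 1] q1 (by decide +kernel)).mul_left
          (step _ [2, 3, 1, 1, 3, 1, 1, 1, 3, 2, 2, 3]
            (Gl.fl A [2, 3, 1, 1, 3, 1, 1, 1, 3, 2, 2, 3]) (by decide +kernel))).mul_left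
          (step q1 [1, 1, 1, 3, 1, 1, 3, 2, 3, 2, 2, 3]
            (Gl.fl A [1, 1, 1, 3, 1, 1, 3, 2, 3, 2, 2, 3]) (by decide +kernel))
  have g4 : ∀ l, lettersIn 4 l = true → ev (gg ι t) l = ι (ev k l) := fun l hl => by
    rw [map_ev]
    exact ev_congr fun x hx => if_neg (by have := lettersIn_iff.1 hl x hx; omega)
  have g5 : ∀ l, ev (gg ι t) (5 :: l) = t * ev (gg ι t) l := fun l => ev_cons _ _ _
  have h4 : Sat (gg ι t) Rf.Rm := fun r hr => by
    rw [g4 _ (List.all_eq_true.1 (by decide +kernel : Rf.Rm.all (lettersIn 4) = true) r hr),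
      sat r hr, map_one]
  have h5 : ∀ l l', (lettersIn 3 l && lettersIn 4 l && lettersIn 4 l' &&
      eqW (Gl.fl A l ++ l') []) = true → ev (gg ι t) (5 :: (l ++ 5 :: l')) = 1 := fun l l' hc => by
    simp only [Bool.and_eq_true] at hc
    rw [g5, ev_append, g5, g4 _ hc.1.1.2, g4 _ hc.1.2, ← mul_assoc, (ht _ hc.1.1.1).eq, mul_assoc,
      ← mul_assoc t, h2, one_mul, ← map_mul, ← ev_append, ev_eq hc.2, ev_nil, map_one]
  have h6 : ev (gg ι t) [4, 5, 4, 5, 4, 5] = 1 := by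
    have : ev (gg ι t) [4, 5, 4, 5, 4, 5] = ι (k 4) * (t * ι (k 4)) ^ 3 * (ι (k 4))⁻¹ := by
      simp [ev, gg, pow_succ, mul_assoc]
    rw [this, h3, mul_one, mul_inv_cancel]
  exact (h4.append (Sat.cons (h5 [] [] (by decide +kernel)) (Sat.cons
    (h5 [1] [1, 1, 1] (by decide +kernel)) (Sat.cons (h5 [3] [3] (by decide +kernel))
    (Sat.cons (R := []) h6 fun _ h => nomatch h))))).mono (by decide +kernel)

theorem Hyp.iso (h : Hyp ι a b) {u : G} (hu : u • b = a) (hG : Nat.card G = 145926144000) :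
    Cfsg.Spor.IsoRu G := by
  obtain ⟨t, ha, hb, ht⟩ := h.exists_t hu
  have : Finite G := Nat.finite_of_card_ne_zero (by rw [hG]; norm_num)
  refine RfI.isoRu (h.sat_U ha hb ht) hG (le_trans ?_ (Subgroup.card_le_of_le
    (Subgroup.zpowers_le_of_mem (mem_gen (gg ι t) (x := 1) le_rfl (by norm_num)))))
  rw [Nat.card_zpowers, show gg ι t 1 = ι (k 1) from rfl, orderOf_injective ι h.inj, dat.ord]
  norm_num

end Cfsg.Agent.H44.RfR
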