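import Mathlib
import Cfsg.Agent.H74.RuDefs

/-! The unitriangular group of a frame is a Sylow subgroup of the special unitary group. -/

set_option autoImplicit false

namespace Cfsg.Agent.H44.RuSylb

open Cfsg Module Cfsg.Agent.H31 Cfsg.Agent.H74.Ru
open scoped Pointwise

theorem sylb (ka : KaStmt) (kb : KbStmt) (frm : FrmStmt) (fix : FixStmt) (flag : FlagStmt) :
    SylbStmt := by
  intro F V _ _ _ _ _ S v hv
  obtain ⟨-, -, -, -, tm, ti, -, -, -⟩ := ka S v hv
  have hn := S.hn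
  let U : Subgroup S.G :=
    { carrier := {g | Tri v (g : V ≃ₗ[F] V) 1}
      one_mem' := fun i => by simp
      mul_mem' := fun {a b} ha hb => by simpa using tm _ _ _ _ ha hb
      inv_mem' := fun {a} ha => by simpa using ti _ _ ha }
  have hU : IsPGroup (ringChar F) U := fun g => by
    obtain ⟨m, hm⟩ := (kb S v hv).2.2.1 _ g.2
    exact ⟨m, Subtype.ext (Subtype.ext hm)⟩
  obtain ⟨P⟩ : Nonempty (Sylow (ringChar F) S.G) := Sylow.nonempty
  let Q : Subgroup (V ≃ₗ[F] V) := (P : Subgroup S.G).map S.G.subtype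
  have hQ : Q ≤ S.G := Subgroup.map_subtype_le _
  have pQ : IsPGroup (ringChar F) Q := P.isPGroup'.map _
  have r0 : S.i0 ≠ S.i0.rev := fun e => by
    have := congrArg Fin.val e
    simp only [Un.i0, Fin.val_rev] at this; omega
  have r1 : S.i1 ≠ S.i1.rev := fun e => by
    have := congrArg Fin.val e
    simp only [Un.i1, Fin.val_rev] at this; omega
  have r2 : S.i1 ≠ S.i0.rev := fun e => by
    have := congrArg Fin.val e
    simp only [Un.i0, Un.i1, Fin.val_rev] at this; omega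
  have r3 : S.i0 ≠ S.i1 := fun e => by
    have := congrArg Fin.val e
    simp only [Un.i0, Un.i1] at this; omega
  obtain ⟨x, -, x0, xx, gx⟩ := fix S Q hQ pQ ⊥ ⊤ bot_le (fun x hx r _ => by
      rw [(Submodule.mem_bot F).1 hx]; simp) (fun g _ x hx => by
      rw [(Submodule.mem_bot F).1 hx]; simp) (fun _ _ _ _ => trivial)
    ⟨v S.i0, trivial, fun e => by
      have := hv S.i0 S.i0.rev
      rw [(Submodule.mem_bot F).1 e] at this
      simp at this, by rw [hv, if_neg r0]⟩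
  simp only [Submodule.mem_bot, sub_eq_zero] at x0 gx
  obtain ⟨w0, hw0, e0⟩ := (frm S).1 1 (by omega) (fun _ => x)
    (linearIndependent_unique_iff.2 x0) fun _ _ => xx
  have e0' : w0 S.i0 = x := e0 0
  obtain ⟨y, xy, yx, yy, gy⟩ := fix S Q hQ pQ (F ∙ x) (LinearMap.ker (S.B x))
    ((Submodule.span_singleton_le_iff_mem _ _).2 xx) (fun a ha r hr => by
      obtain ⟨c, rfl⟩ := Submodule.mem_span_singleton.1 ha
      rw [map_smulₛₗ, LinearMap.smul_apply, LinearMap.mem_ker.1 hr, smul_zero])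
    (fun g hg a ha => by
      obtain ⟨c, rfl⟩ := Submodule.mem_span_singleton.1 ha
      rw [map_smul, gx g hg]; exact ha)
    (fun g hg r hr => by
      rw [LinearMap.mem_ker, ← gx g hg, (hQ hg).1]; exact hr)
    ⟨w0 S.i1, by rw [LinearMap.mem_ker, ← e0', hw0, if_neg r2], fun e => by
      obtain ⟨c, e⟩ := Submodule.mem_span_singleton.1 e
      have := hw0 S.i1.rev S.i1
      rw [Fin.rev_rev, if_pos rfl, ← e, map_smul, ← e0', hw0, Fin.rev_rev, if_neg r3] at this
      simp at this, by rw [hw0, if_neg r1]⟩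
  obtain ⟨w, hw, -, -, tw⟩ := flag S Q hQ pQ x y ⟨xx, yy, xy, x0, yx⟩ fun g hg => ⟨gx g hg, gy g hg⟩
  obtain ⟨g, hg, hc⟩ := (frm S).2.2 v w hv hw
  choose c hc using hc
  have fl : ∀ i, Fl F w i ≤ (Fl F v i).comap (g⁻¹ : V ≃ₗ[F] V).toLinearMap := fun i =>
    Submodule.span_le.2 (by
      rintro _ ⟨j, hj, rfl⟩
      have e : (g⁻¹ : V ≃ₗ[F] V) (w j) = ((c j)⁻¹ : Fˣ) • v j := by
        rw [← inv_apply_apply g (v j), hc, map_smul, Units.smul_def, smul_smul, Units.inv_mul, one_smul]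
      change (g⁻¹ : V ≃ₗ[F] V) (w j) ∈ Fl F v i
      rw [e, Units.smul_def]
      exact Submodule.smul_mem _ _ (Submodule.subset_span ⟨j, hj, rfl⟩))
  have le : (↑((⟨g, hg⟩⁻¹ : S.G) • P) : Subgroup S.G) ≤ U := by
    intro h hh
    rw [Sylow.coe_subgroup_smul, Subgroup.mem_smul_pointwise_iff_exists] at hh
    obtain ⟨k, hk, rfl⟩ := hh
    intro i
    have t1 : (g⁻¹ : V ≃ₗ[F] V) _ ∈ Fl F v i :=
      fl _ (Submodule.smul_mem _ (c i : F) (tw k ⟨k, hk, rfl⟩ i))
    rw [Pi.one_apply, Units.val_one, one_smul, smul_sub, ← map_smul, ← hc, map_sub,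
      inv_apply_apply] at t1
    simpa using t1
  refine ⟨(⟨g, hg⟩⁻¹ : S.G) • P, fun h ⟨t, ht⟩ => ?_⟩
  rw [← Sylow.is_maximal' _ hU le, Subgroup.mem_normalizer_iff]
  refine fun n => ⟨fun a => ?_, fun a => ?_⟩
  · change Tri v _ 1
    simpa using tm _ _ _ _ (tm _ _ _ _ ht a) (ti _ _ ht)
  · have := tm _ _ _ _ (tm _ _ _ _ (ti _ _ ht) a) ht
    change Tri v _ 1
    simpa [mul_assoc] using this

end Cfsg.Agent.H44.RuSylb
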