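import Cfsg.Agent.H60.SpP4

/-! Project CY, chapter SP: fixed point free involutions of `N / K` are conjugate under `F`. -/

set_option autoImplicit false

namespace Cfsg.Agent.H44.SpP3

open Subgroup Matrix Cfsg.Agent.H11.Cy Cfsg.Agent.H56.Sp Cfsg.Agent.H60.SpP4
open scoped MatrixGroups

theorem nsq {F : Type} [Field F] [Fintype F] {p : ℕ} (hF : Fintype.card F = p) {D : F} (h0 : D ≠ 0)
    (h1 : IsSquare D ↔ p % 4 = 3) : ¬ IsSquare (-D) := by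
  rintro ⟨r, hr⟩
  have h2 := FiniteField.isSquare_neg_one_iff (F := F)
  rw [hF] at h2
  by_cases h : p % 4 = 3
  · obtain ⟨s, hs⟩ := h1.2 h
    have s0 : s ≠ 0 := fun h => h0 (by rw [hs, h, zero_mul])
    exact h2.1 ⟨r / s, by field_simp; linear_combination hs + hr⟩ h
  · obtain ⟨i, hi⟩ := h2.2 h
    exact h (h1.1 ⟨i * r, by linear_combination -hr + r ^ 2 * hi⟩)

theorem mat {F : Type} [Field F] [Fintype F] (ho : Fintype.card F % 2 = 1)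
    {M N : Matrix (Fin 2) (Fin 2) F} (hM : M 1 1 = -M 0 0) (hN : N 1 1 = -N 0 0)
    (dM : ¬ IsSquare (-M.det)) (dN : ¬ IsSquare (-N.det)) :
    ∃ (s : SL(2, F)) (t : F), s.1 * M = t • (N * s.1) := by
  classical
  obtain ⟨d, hd⟩ : ∃ d, d = -M.det := ⟨_, rfl⟩
  obtain ⟨d', hd'⟩ : ∃ d, d = -N.det := ⟨_, rfl⟩
  have e : d = M 0 0 ^ 2 + M 0 1 * M 1 0 := by rw [hd, det_fin_two, hM]; ring
  have e' : d' = N 0 0 ^ 2 + N 0 1 * N 1 0 := by rw [hd', det_fin_two, hN]; ring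
  rw [← hd] at dM
  rw [← hd'] at dN
  have d0 : d ≠ 0 := fun h => dM ⟨0, by rw [h]; ring⟩
  have d0' : d' ≠ 0 := fun h => dN ⟨0, by rw [h]; ring⟩
  have c0 : M 1 0 ≠ 0 := fun h => dM ⟨M 0 0, by rw [e, h]; ring⟩
  have c0' : N 1 0 ≠ 0 := fun h => dN ⟨N 0 0, by rw [e', h]; ring⟩
  obtain ⟨u, hu⟩ : IsSquare (d * d') := by
    rw [← quadraticChar_one_iff_isSquare (mul_ne_zero d0 d0'), map_mul,
      quadraticChar_neg_one_iff_not_isSquare.2 dM, quadraticChar_neg_one_iff_not_isSquare.2 dN]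
    norm_num
  obtain ⟨t, ht⟩ : ∃ t, d = t ^ 2 * d' := ⟨u / d', by field_simp; linear_combination hu⟩
  have t0 : t ≠ 0 := fun h => d0 (by rw [ht, h]; ring)
  obtain ⟨a, b, h⟩ := FiniteField.exists_root_sum_quadratic
    (f := Polynomial.X ^ 2 - Polynomial.C ((t * N 1 0 * M 1 0)⁻¹))
    (g := Polynomial.C (-d) * Polynomial.X ^ 2) (Polynomial.degree_X_pow_sub_C (by decide) _)
    (Polynomial.degree_C_mul_X_pow 2 (neg_ne_zero.2 d0)) ho
  simp only [Polynomial.eval_sub, Polynomial.eval_pow, Polynomial.eval_X, Polynomial.eval_C,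
    Polynomial.eval_mul] at h
  have hi : t * N 1 0 * M 1 0 * (t * N 1 0 * M 1 0)⁻¹ = 1 :=
    mul_inv_cancel₀ (mul_ne_zero (mul_ne_zero t0 c0') c0)
  have q1 : !![M 1 0, -M 0 0; 0, 1] * M = !![0, d; 1, 0] * !![M 1 0, -M 0 0; 0, 1] := by
    ext i j
    fin_cases i <;> fin_cases j <;> simp [mul_apply, Fin.sum_univ_two, hM, e] <;> ring
  have q2 : !![a, b * d; b, a] * !![0, d; 1, 0] = !![0, d; 1, 0] * !![a, b * d; b, a] := by
    ext i j
    fin_cases i <;> fin_cases j <;> simp [mul_apply, Fin.sum_univ_two] <;> ring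
  have q3 : !![1, t * N 0 0; 0, t * N 1 0] * !![0, d; 1, 0] =
      t • (N * !![1, t * N 0 0; 0, t * N 1 0]) := by
    ext i j
    fin_cases i <;> fin_cases j <;>
      simp [mul_apply, Fin.sum_univ_two, hN, ht, e'] <;> first | ring1 | exact Or.inr (by ring1)
  refine ⟨⟨!![1, t * N 0 0; 0, t * N 1 0] * !![a, b * d; b, a] * !![M 1 0, -M 0 0; 0, 1], ?_⟩, t, ?_⟩
  · rw [det_mul, det_mul, det_fin_two_of, det_fin_two_of, det_fin_two_of]
    linear_combination (t * N 1 0 * M 1 0) * h + hi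
  · show _ * _ * _ * M = t • (N * (_ * _ * _))
    rw [mul_assoc, q1, ← mul_assoc, mul_assoc _ _ !![0, d; 1, 0], q2, ← mul_assoc, q3,
      smul_mul_assoc, smul_mul_assoc, mul_assoc N, mul_assoc N]

theorem p3 : P3Stmt := by
  rintro G _ _ Ω _ _ p A S p2 - x y - - ⟨F, _, _, e, hF, co⟩ q2 g h hi hi' fp fp'
  obtain ⟨M, h0, hM⟩ := co g hi.1
  obtain ⟨N, n0, hN⟩ := co h hi'.1
  have ho : Fintype.card F % 2 = 1 := by rw [hF]; exact (S.pp.eq_two_or_odd).resolve_left p2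
  obtain ⟨s, c, hs⟩ := mat ho (trace_zero e hi.1 h0 hM hi.2.1 hi.2.2)
    (trace_zero e hi'.1 n0 hN hi'.2.1 hi'.2.2)
    (nsq hF h0 ((fk_iff e hi.1 h0 hM).symm.trans ((q2 g hi).1 fp)))
    (nsq hF n0 ((fk_iff e hi'.1 n0 hN).symm.trans ((q2 h hi').1 fp')))
  obtain ⟨f, rfl⟩ := e.surjective s
  refine ⟨f, f.2, fun t ht => ?_⟩
  have hu : h⁻¹ * t * h⁻¹⁻¹ ∈ Fl A x y := (mem_normalizer_iff.1 (inv_mem hi'.1) t).1 ht
  have k1 := hN ⟨_, hu⟩ ⟨t, ht⟩ (by simp [mul_assoc])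
  have i1 : (e f⁻¹).1 * (e f).1 = 1 := by rw [emul, inv_mul_cancel, map_one]; rfl
  have i2 : (e f).1 * (e f⁻¹).1 = 1 := by rw [emul, mul_inv_cancel, map_one]; rfl
  have k2 : M * (e f⁻¹).1 = c • ((e f⁻¹).1 * N) := by
    calc M * (e f⁻¹).1 = (e f⁻¹).1 * ((e f).1 * M) * (e f⁻¹).1 := by
          rw [← mul_assoc, i1, one_mul]
      _ = _ := by rw [hs, mul_smul_comm, smul_mul_assoc, mul_assoc, mul_assoc, i2, mul_one]
  have k3 := (comm_iff e hi.1 h0 hM (f⁻¹ * ⟨_, hu⟩ * f) (f⁻¹ * ⟨t, ht⟩ * f)).2 (by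
    rw [← emul, ← emul, ← emul, ← emul, ← mul_assoc, ← mul_assoc, k2, smul_mul_assoc,
      smul_mul_assoc, mul_assoc _ N, k1, mul_assoc _ (e f).1, hs, mul_smul_comm]
    simp only [mul_assoc])
  change (f : G)⁻¹ * t * f = g * ((f : G)⁻¹ * (h⁻¹ * t * h⁻¹⁻¹) * f) * g⁻¹ at k3
  calc t * (f * g * (f : G)⁻¹ * h⁻¹) = f * ((f : G)⁻¹ * t * f) * g * (f : G)⁻¹ * h⁻¹ := by group
    _ = _ := by rw [k3]; group

end Cfsg.Agent.H44.SpP3
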