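import Cfsg.Agent.H58.SWDefs

/-! Project SW (S3694), piece `ND1`. -/

set_option autoImplicit false
open Cfsg
open scoped commutatorElement

namespace Cfsg.Agent.H44.SwNd1

open Cfsg.Agent.H58.SW Subgroup

section
variable {G : Type*} [Group G]

theorem mul_pow_cen {x y z : G} (h : y * x = z * x * y) (hz : ∀ g, Commute z g) (n : ℕ) :
    (x * y) ^ n = x ^ n * y ^ n * z ^ n.choose 2 := by
  have h1 : ∀ k : ℕ, y ^ k * x = z ^ k * x * y ^ k := fun k => by
    induction k with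
    | zero => simp
    | succ k ih =>
      calc y ^ (k + 1) * x = y ^ k * (z * x * y) := by rw [pow_succ, mul_assoc, h]
        _ = z * (y ^ k * x) * y := by rw [← mul_assoc, ← mul_assoc, ← (hz (y ^ k)).eq]; group
        _ = _ := by rw [ih]; group
  induction n with
  | zero => simp
  | succ n ih =>
    have e : ∀ k g, z ^ k * g = g * z ^ k := fun k g => ((hz g).pow_left k).eq
    calc (x * y) ^ (n + 1) = x ^ n * y ^ n * (z ^ n.choose 2 * (x * y)) := by rw [pow_succ, ih]; group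
      _ = x ^ n * (y ^ n * x) * y * z ^ n.choose 2 := by rw [e]; group
      _ = x ^ n * (z ^ n * (x * y ^ n * y)) * z ^ n.choose 2 := by rw [h1]; group
      _ = _ := by rw [e n, Nat.choose_succ_succ' n 1, Nat.choose_one_right, pow_add z]; group

theorem comm_pow {x y : G} (hz : ∀ g, Commute ⁅y, x⁆ g) (k : ℕ) (hk : Commute (y ^ k) x) :
    ⁅y, x⁆ ^ k = 1 := by
  have h1 : ∀ k : ℕ, y ^ k * x = ⁅y, x⁆ ^ k * x * y ^ k := fun k => by
    induction k with
    | zero => simp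
    | succ k ih =>
      calc y ^ (k + 1) * x = y ^ k * (⁅y, x⁆ * x * y) := by rw [commutatorElement_def]; group
        _ = ⁅y, x⁆ * (y ^ k * x) * y := by rw [← mul_assoc, ← mul_assoc, ← (hz (y ^ k)).eq]; group
        _ = _ := by rw [ih, pow_succ' ⁅y, x⁆]; group
  have := h1 k
  rw [hk.eq, mul_assoc] at this
  exact (mul_eq_right.1 this.symm)

/-- a central subgroup of prime index: generation by one element -/
theorem gen_of_prime {Z P : Subgroup G} {r : ℕ} (hr : r.Prime) (h : Z.relIndex P = r)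
    {B : Subgroup G} (h1 : Z < B) (h2 : B ≤ P) : B = P := by
  have e := relIndex_mul_relIndex Z B P h1.le h2
  rw [h] at e
  rcases (Nat.dvd_prime hr).1 (Dvd.intro _ e) with k | k
  · exact absurd (relIndex_eq_one.1 k) h1.not_ge
  · rw [k] at e
    exact le_antisymm h2 (relIndex_eq_one.1 (Nat.eq_of_mul_eq_mul_left hr.pos (by rw [e, mul_one])))

end

theorem pab (hKA : KAStmt) (hAbs : AbsStmt) (hEig : EigStmt) : PAbStmt := by
  intro F _ _ _ n c r H Q L hp A P hA hna hP hi h1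
  have ka := hKA F n c
  have hPQ : P ≤ Q := fun y hy => ((hP.mem y).1 hy).1
  obtain ⟨y, hy, hyZ⟩ := SetLike.exists_of_lt hP.zlt
  have hM : MinQ c r H Q P := ⟨hP.zlt, hPQ, hP.inv, fun B h1 h2 _ => gen_of_prime L.prime hi h1 h2,
    fun x hx => ((hP.mem x).1 hx).2.1, fun x hx => ((hP.mem x).1 hx).2.2.1⟩
  have hab : Ab P := by
    have e : P ⊓ centralizer {y} = P := gen_of_prime L.prime hi (lt_of_le_of_ne (le_inf hP.zlt.le
      fun z hz => mem_centralizer_singleton_iff.2 (ka.zcomm z hz y)) fun e => hyZ (e ▸ ⟨hy,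
        mem_centralizer_singleton_iff.2 rfl⟩)) inf_le_left
    have e2 : P ⊓ centralizer P = P := gen_of_prime L.prime hi (lt_of_le_of_ne (le_inf hP.zlt.le
      fun z hz g _ => (ka.zcomm z hz g).symm) fun e' => hyZ (e' ▸ ⟨hy, fun g hg =>
        mem_centralizer_singleton_iff.1 (e.ge hg).2⟩)) inf_le_left
    exact fun a ha b hb => (e2.ge hb).2 a ha
  have sc : ¬ SelfC P := fun h => hna fun a ha b hb => by
    have h2 : ∀ a ∈ A, ∀ y ∈ P, Commute (a : Mt n F) (y : Mt n F) := fun a ha y hy =>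
      ((((hP.mem y).1 hy).2.2.2 a ha).map (Units.coeHom _)).symm
    have h3 : Commute (b : Mt n F) (a : Mt n F) := by
      refine Submodule.span_induction (p := fun x _ => Commute (b : Mt n F) x) ?_ (Commute.zero_right _)
        (fun _ _ _ _ => Commute.add_right) (fun s _ _ h => h.smul_right s) (h a (h2 a ha))
      rintro _ ⟨y, hy, rfl⟩
      exact h2 b hb y hy
    exact Units.ext h3.symm
  rcases hAbs F n c r H Q L hp P hM hab with h | h | h | ⟨E, m, h⟩
  · exact h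
  · exact absurd h.1 sc
  · exact absurd h.1 sc
  exfalso
  obtain ⟨lam, hl, he⟩ := (hEig F n c H P E m (fun x hx => (L.qh (hPQ hx)).1) h).1 y hy
  have fam := h.blk.fam
  have h2 : ∀ e ∈ E, ∀ k : ℕ, ((y ^ k : Gl n F) : Mt n F) * e = lam e ^ k • e := fun e hE k => by
    induction k with
    | zero => simp
    | succ k ih =>
      rw [pow_succ', Units.val_mul, mul_assoc, ih, Matrix.mul_smul, he, Finset.sum_mul,
        Finset.sum_eq_single e (fun f hf hne => by rw [smul_mul_assoc, fam.orth f hf e hE hne, smul_zero])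
          (fun h => absurd hE h), smul_mul_assoc, fam.idem e hE, smul_smul, pow_succ]
  obtain ⟨e0, he0⟩ : E.Nonempty := Finset.card_pos.1 (by have := h.blk.two; omega)
  obtain ⟨k, -, hk⟩ := (ka.mem_Z _).1 (hM.pw y hy)
  obtain ⟨z, hz, hz'⟩ := ka.ex_Z _ (hl e0 he0)
  have h3 : k = lam e0 ^ r := by
    have := h2 e0 he0 r
    rw [hk, smul_mul_assoc, one_mul] at this
    exact smul_left_injective F (fam.ne0 e0 he0) this
  have h4 : y ^ r = z ^ r := Units.ext (by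
    rw [hk, Units.val_pow_eq_pow_val, hz', _root_.smul_pow, one_pow, h3])
  have h5 := h1 (y * z⁻¹) (mul_mem hy (inv_mem (hP.zlt.le hz))) (by
    rw [(ka.zcomm z hz y).symm.inv_right.mul_pow, h4, inv_pow, mul_inv_cancel])
  exact hyZ (by simpa using mul_mem h5 hz)

theorem nd1 (hKA : KAStmt) (hExt : Ext1Stmt) (hNdk : NdkStmt) (hPO : POneStmt) (hPAb : PAbStmt) :
    Nd1Stmt := by
  intro F _ _ _ n c r H Q L hp A hA hna hr
  have ka := hKA F n c
  obtain ⟨hN, hx⟩ := hExt F n c r H Q L A hA hna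
  by_cases hQ : Q = A
  · exact Or.inr hQ
  obtain ⟨P, hP⟩ := hPO F n c r H Q L A hA hN hQ
  have hif : ¬ (r = 2 ∧ ¬ 4 ∣ c.zc) := by tauto
  left
  by_cases h1 : ∀ y ∈ P, y ^ r = 1 → y ∈ c.Z
  swap
  · exfalso
    push Not at h1
    obtain ⟨y, hy, hy1, hyZ⟩ := h1
    obtain ⟨x0, hx0, hx0Z⟩ := SetLike.exists_of_lt hA.zlt
    obtain ⟨z, hz, hz1⟩ := hx hr x0 hx0
    have hxA : x0 * z ∈ A := mul_mem hx0 (hA.zlt.le hz)
    have hxZ : x0 * z ∉ c.Z := fun h => hx0Z (by simpa using mul_mem h (inv_mem hz))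
    generalize x0 * z = x at hz1 hxA hxZ
    obtain ⟨a, ha, hax⟩ := hN.nd x hxA hxZ
    obtain ⟨m1, m2, m3, m4⟩ := (hP.mem y).1 hy
    refine hNdk F n c r H Q L hp A hA hN x hxA hxZ y m1 hyZ m2 m3 m4
      ⟨mul_mem (hN.le hxA) (L.qh m1).1, ?_, a, hN.le ha, ?_, fun h => hax ?_⟩ x hxA
      ⟨hN.le hxA, by rw [hz1, if_neg hif]; rfl, a, hN.le ha, hN.cm a ha x hxA, fun h => hax h.symm⟩
    · rw [(m4 x hxA).symm.mul_pow, hz1, hy1, mul_one, if_neg hif]; rfl
    · convert hN.cm a ha x hxA using 1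
      rw [commutatorElement_def, commutatorElement_def, _root_.mul_inv_rev, ← mul_assoc, ← mul_assoc,
        mul_assoc _ y, (m4 a ha).inv_right.eq]
      group
    · simpa using (h.mul_right (m4 a ha).symm.inv_right).symm
  refine hPAb F n c r H Q L hp A P hA hna hP ?_ h1
  have := Fact.mk L.prime
  obtain ⟨ζ, hζ⟩ := ka.cyc.exists_generator
  have hg : ∀ z ∈ c.Z, ∃ k : ℤ, z = (ζ : Gl n F) ^ k := fun z hz => by
    obtain ⟨k, hk⟩ := hζ ⟨z, hz⟩
    exact ⟨k, (congrArg Subtype.val hk).symm⟩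
  have root : ∀ y ∈ P, ∀ w ∈ c.Z, y ^ r = w ^ r → y ∈ c.Z := fun y hy w hw e => by
    simpa using mul_mem (h1 (y * w⁻¹) (mul_mem hy (inv_mem (hP.zlt.le hw))) (by
      rw [(ka.zcomm w hw y).symm.inv_right.mul_pow, e, inv_pow, mul_inv_cancel])) hw
  have hom : ∀ a ∈ P, ∀ b ∈ P, ∃ w ∈ c.Z, (a * b) ^ r = a ^ r * b ^ r * w ^ r := fun a ha b hb => by
    have hc : ⁅b, a⁆ ∈ c.Z := ((hP.mem a).1 ha).2.2.1 b ((hP.mem b).1 hb).1
    have h2 := comm_pow (ka.zcomm _ hc) r (ka.zcomm _ ((hP.mem b).1 hb).2.1 a)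
    rw [mul_pow_cen (z := ⁅b, a⁆) (by rw [commutatorElement_def]; group) (ka.zcomm _ hc)]
    by_cases h3 : r = 2
    · subst h3
      obtain ⟨k, hk⟩ := hg _ hc
      have h4 : (4 : ℤ) ∣ k * 2 := by
        have h5 : orderOf (ζ : Gl n F) = c.zc := by
          rw [orderOf_coe, orderOf_eq_card_of_forall_mem_zpowers hζ, ka.card_Z]
        refine dvd_trans ?_ (orderOf_dvd_iff_zpow_eq_one.2 (show (ζ : Gl n F) ^ (k * 2) = 1 by rw [zpow_mul, ← hk]; exact_mod_cast h2))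
        rw [h5]
        exact_mod_cast hr.resolve_left (by simp)
      obtain ⟨j, rfl⟩ : ∃ j, k = j * 2 := ⟨k / 2, by omega⟩
      exact ⟨_, zpow_mem ζ.2 j, by rw [hk, zpow_mul]; simp⟩
    · obtain ⟨j, hj⟩ := L.prime.dvd_choose_self two_ne_zero (lt_of_le_of_ne L.prime.two_le (Ne.symm h3))
      exact ⟨1, one_mem _, by rw [hj, pow_mul, h2]; simp⟩
  obtain ⟨y, hy, hyZ⟩ := SetLike.exists_of_lt hP.zlt
  obtain ⟨k, hk⟩ := hg _ ((hP.mem y).1 hy).2.1
  have hrk : IsCoprime k (r : ℤ) := by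
    refine ((Nat.prime_iff_prime_int.1 L.prime).coprime_iff_not_dvd.2 ?_).symm
    rintro ⟨j, hj⟩
    exact hyZ (root y hy _ (zpow_mem ζ.2 j) (by rw [hk, hj, mul_comm, zpow_mul, zpow_natCast]))
  obtain ⟨u, v, huv⟩ := hrk
  have hn : (c.Z.subgroupOf P).Normal := ⟨fun z hz g => by
    rw [mem_subgroupOf] at hz ⊢
    have := (ka.zcomm _ hz g).eq
    rwa [Subgroup.coe_mul, Subgroup.coe_mul, ← this, Subgroup.coe_inv, mul_inv_cancel_right]⟩
  rw [relIndex, index_eq_card, ← orderOf_eq_card_of_forall_mem_zpowers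
    (g := (QuotientGroup.mk ⟨y, hy⟩ : P ⧸ c.Z.subgroupOf P))]
  · refine orderOf_eq_prime ?_ fun e => hyZ (mem_subgroupOf.1 ((QuotientGroup.eq_one_iff _).1 e))
    rw [← QuotientGroup.mk_pow, QuotientGroup.eq_one_iff]
    exact ((hP.mem y).1 hy).2.1
  rintro ⟨⟨b, hb⟩⟩
  obtain ⟨l, hl⟩ := hg _ ((hP.mem b).1 hb).2.1
  refine ⟨u * l, ?_⟩
  change (QuotientGroup.mk ⟨y, hy⟩ : P ⧸ c.Z.subgroupOf P) ^ (u * l) = QuotientGroup.mk ⟨b, hb⟩
  rw [← QuotientGroup.mk_zpow, QuotientGroup.eq, mem_subgroupOf]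
  have hm : (y ^ (u * l))⁻¹ ∈ P := inv_mem (zpow_mem hy _)
  obtain ⟨w, hw, e⟩ := hom _ hm b hb
  refine root _ (mul_mem hm hb) ((ζ : Gl n F) ^ (v * l) * w) (mul_mem (zpow_mem ζ.2 _) hw) ?_
  refine e.trans ?_
  rw [(ka.zcomm w hw _).symm.mul_pow, hl, inv_pow, ← zpow_natCast (y ^ (u * l)), ← zpow_mul,
    mul_comm (u * l), zpow_mul, zpow_natCast, hk, ← zpow_mul, ← zpow_natCast (_ ^ (v * l)), ← zpow_mul,
    ← zpow_neg, ← zpow_add]
  congr 2
  linear_combination -l * huv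

end Cfsg.Agent.H44.SwNd1
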