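import Cfsg.Agent.H6.TIDefs
import Cfsg.Agent.H1.Card

/-!
Project TI, piece DU: the large axes form a dual spread unless `q = h = 4`, and the cliques are
lines when `4 ≤ q < h`.
-/

set_option autoImplicit false

namespace Cfsg.Agent.H44.TiDu

open Cfsg Subgroup
open Cfsg.Agent.H6.TI
open Cfsg.Agent.H83 (cj)
open scoped Cfsg.Agent.H63 commutatorElement

universe u

variable {G : Type u} [Group G] [Finite G] {Ω : Set (Subgroup G)}

/-- The data produced by `yy.ex` and `l6.clq`. -/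
structure St (Ω : Set (Subgroup G)) (A B B' T : Subgroup G) (Γ : Set (Subgroup G)) : Prop where
  m : Mn Ω A B
  m' : Mn Ω A B'
  ne : ax A B ≠ ax A B'
  p : IsPGroup 2 T
  nA : T ≤ N[A]
  lA : A ≤ T
  y : ax B' A ⊓ N[ax A B] ≤ T
  clq : Clq Ω Γ
  mA : A ∈ Γ
  mn : ∀ P ∈ Γ, ∀ Q ∈ Γ, P ≠ Q → Mn Ω P Q
  ax : ∀ P ∈ Γ, P ≠ A → ax A P = ax A B
  nor : ∀ t ∈ T, Nor Γ t
  mem : ∀ B', Mn Ω A B' → H6.TI.ax B' A ≤ T → B' ∈ Γ
  onl : ∀ P ∈ Γ, ∀ Q ∈ Γ, ∀ R, OnL P Q R → R ∈ Γ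
  mB : B ∈ Γ

omit [Finite G] in
theorem setup (c : C0 Ω) (h2 : Two Ω) {A B B₀ T₀ : Subgroup G} (m : Mn Ω A B) (m0 : Mn Ω A B₀)
    (ne : ax A B₀ ≠ ax A B) (p0 : IsPGroup 2 T₀) (n0 : T₀ ≤ N[A]) (j0 : ax B A ≤ T₀)
    (a0 : A ≤ T₀) : ∃ B' T Γ, St Ω A B B' T Γ ∧ T₀ ≤ T ∧
      Nat.card ↥(ax A B ⊔ ax A B') = Nat.card ↥(ax A B ⊔ ax A B₀) := by
  obtain ⟨n, nA, nI, T, pT, TA, T0, yT⟩ :=
    c.yy.ex h2 m T₀ p0 n0 (c.ba.l4n m.toEd T₀ p0 n0 j0) B₀ m0 ne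
  obtain ⟨Γ, h1, h2, h3, h4, h5, h6, h7⟩ := c.l6.clq m T pT TA (j0.trans T0)
  have e1 : ax A (cj n B₀) = cj n (ax A B₀) := (ax_cjN nA B₀).1
  have e2 : cj n (ax A B) = ax A B := H83.cj_eq_self nI
  refine ⟨cj n B₀, T, Γ, ⟨m, m0.cjN c.toTI nA, ?_, pT, TA, a0.trans T0, yT, h1, h2, h3, h4, h5, h6,
    h7, h6 B m (j0.trans T0)⟩, T0, ?_⟩
  · rw [e1, ← e2]; exact fun h => ne (H83.cj_inj.1 h).symm
  · rw [e1]
    conv_lhs => rw [← e2, ← H83.cj_sup, H83.card_cj]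

omit [Finite G] in
theorem comm_mul {A : Subgroup G} (hA : ∀ a ∈ A, ∀ b ∈ A, a * b = b * a) {a b : G} (x : G)
    (ha : a ∈ A) (hb : b ∈ A) : ⁅a, x * b⁆ = ⁅a, x⁆ := by
  have h : b * a⁻¹ = a⁻¹ * b := hA _ hb _ (A.inv_mem ha)
  simp only [commutatorElement_def, mul_inv_rev]
  calc a * (x * b) * a⁻¹ * (b⁻¹ * x⁻¹) = a * x * (b * a⁻¹) * b⁻¹ * x⁻¹ := by group
    _ = _ := by rw [h]; group

omit [Finite G] in
theorem comm_mem {A : Subgroup G} {a g : G} (ha : a ∈ A) (hg : g ∈ N[A]) : ⁅a, g⁆ ∈ A := by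
  have := (mem_normalizer_iff.1 hg a⁻¹).1 (A.inv_mem ha)
  have e : ⁅a, g⁆ = a * (g * a⁻¹ * g⁻¹) := by simp only [commutatorElement_def, mul_assoc]
  rw [e]; exact A.mul_mem ha this

namespace St

variable {A B B' T : Subgroup G} {Γ : Set (Subgroup G)}

/-- `k3` for `Y`. -/
theorem k3 (s : St Ω A B B' T Γ) (c : C0 Ω) (be : BE Ω) (h4 : 4 ≤ qq A B)
    (hY : 3 ≤ Nat.card ↥(H6.TI.ax B' A ⊓ N[H6.TI.ax A B])) :
    ∃ x ∈ H6.TI.ax B' A ⊓ N[H6.TI.ax A B], x ≠ 1 ∧ ∃ a ∈ A, Fx Γ (x * a) := by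
  set Y := H6.TI.ax B' A ⊓ N[H6.TI.ax A B] with hYd
  have hB' : ∀ y ∈ Y, y ∈ B' := fun y hy => hy.1.1
  obtain ⟨y, hy, y1⟩ : ∃ y ∈ Y, y ≠ 1 := by
    by_contra h
    push Not at h
    have : Y = ⊥ := (eq_bot_iff_forall _).2 h
    rw [this, card_bot] at hY; omega
  obtain ⟨y', hy', y1', yy⟩ : ∃ y' ∈ Y, y' ≠ 1 ∧ y' ≠ y := by
    by_contra h
    push Not at h
    have : (Y : Set G) ⊆ {1, y} := fun z hz => by
      by_cases e : z = 1
      · exact Or.inl e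
      · exact Or.inr (h z hz e)
    have h1 := Set.ncard_le_ncard this
    have h2 : ({1, y} : Set G).ncard ≤ 2 := (Set.ncard_insert_le _ _).trans (by simp)
    have h3 : (Y : Set G).ncard = Nat.card Y := rfl
    omega
  have sq := c.sq B' s.m'.r
  obtain ⟨x, hx, a, ha, hf⟩ := be.k3 Γ s.clq A s.mA B s.mB s.m.ne h4 y hy.1.2 y' hy'.1.2
    (s.nor y (s.y hy)) (s.nor y' (s.y hy')) (sq y (hB' y hy)) (sq y' (hB' y' hy'))
    (c.ba.mul_comm B' s.m'.r y (hB' y hy) y' (hB' y' hy'))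
  refine ⟨x, ?_, ?_, a, ha, hf⟩
  · rcases hx with rfl | rfl | rfl
    exacts [hy, hy', Y.mul_mem hy hy']
  · rcases hx with rfl | rfl | rfl
    · exact y1
    · exact y1'
    · intro h
      apply yy
      have := sq y (hB' y hy)
      exact mul_left_cancel (h.trans this.symm)

omit [Finite G] in
/-- An element of `A · Ker Γ` centralizes `A / I`. -/
theorem fx (s : St Ω A B B' T Γ) (c : C0 Ω) {x a : G} (ha : a ∈ A) (hf : Fx Γ (x * a)) :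
    ∀ b ∈ A, ⁅b, x⁆ ∈ H6.TI.ax A B := by
  intro b hb
  rw [← comm_mul (c.ba.mul_comm A s.m.l) x hb ha]
  refine ⟨comm_mem hb (hf A s.mA), ?_⟩
  have h1 : cj b⁻¹ B ∈ Γ := s.clq.cl A s.mA _ (A.inv_mem hb) B s.mB
  have h2 : b * (x * a) * b⁻¹ ∈ N[B] := by
    rw [← H83.cj_eq_self_iff, H83.cj_mul, H83.cj_mul, H83.cj_eq_self (hf _ h1), H83.cj_cj_inv]
  exact (N[B]).mul_mem h2 ((N[B]).inv_mem (hf B s.mB))

omit [Finite G] in
/-- The swap trick on `Γ`. -/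
theorem sw (s : St Ω A B B' T Γ) (c : C0 Ω) {y : G} (hy : y ∈ T) (y2 : y * y = 1) :
    ∃ x ∈ A, ∃ P ∈ Γ, P ≠ A ∧ y * x ∈ N[P] := by
  by_cases e : cj y B = B
  · exact ⟨1, A.one_mem, B, s.mB, s.m.ne.symm, by rw [mul_one]; exact H83.cj_eq_self_iff.1 e⟩
  have hB := s.nor y hy B s.mB
  obtain ⟨p, R, o, pR, -, -, yR, -, yp⟩ :=
    c.bb.sw2 B s.m.r y y2 (s.mn B s.mB _ hB (Ne.symm e)).toEd
  by_cases r : R = A
  · exact ⟨p, r ▸ pR, B, s.mB, s.m.ne.symm, yp⟩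
  · exact ⟨1, A.one_mem, R, s.onl B s.mB _ hB R o, r, by rwa [mul_one]⟩

omit [Finite G] in
/-- No element of `J'#` in `T` centralizes `A / I` when `e < q`. -/
theorem nc (s : St Ω A B B' T Γ) (c : C0 Ω)
    (he : (H6.TI.ax A B').relIndex (H6.TI.ax A B) < qq A B)
    (hle : ¬ H6.TI.ax A B ≤ H6.TI.ax A B') {y : G} (hy : y ∈ H6.TI.ax B' A) (yT : y ∈ T)
    (y1 : y ≠ 1) : ∃ a ∈ A, ⁅a, y⁆ ∉ H6.TI.ax A B := by
  by_contra h
  push Not at h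
  obtain ⟨x, hx, P, hP, PA, g⟩ := s.sw c yT (c.sq B' s.m'.r y hy.1)
  have mP := s.mn A s.mA P hP PA.symm
  have eP := s.ax P hP PA
  have gT : y * x ∈ T := T.mul_mem yT (s.lA hx)
  have yA : y ∉ A := fun a => y1 (by
    have : y ∈ A ⊓ B' := ⟨a, hy.1⟩
    rwa [c.ti A s.m.l B' s.m'.r s.m'.ne, mem_bot] at this)
  have key : ∀ i ∈ A, (i * (y * x) = y * x * i ↔ i ∈ H6.TI.ax A B') := fun i hi => by
    rw [← c.ba.cA s.m'.toEd i hi y (le_sup_right (a := H6.TI.ax A B') hy) yA, mul_assoc y,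
      c.ba.mul_comm A s.m.l x hx i hi, ← mul_assoc, ← mul_assoc, mul_left_inj]
  rcases c.bb.wg mP.toEd (y * x) (s.nA gT) g (H83.isPGroup_iff.1 s.p _ gT)
    (fun a ha => by rw [comm_mul (c.ba.mul_comm A s.m.l) y ha hx, eP]; exact h a ha) with w | w
  · refine hle fun i hi => (key i hi.1).1 ?_
    exact mem_centralizer_iff.1 w i (le_sup_left (b := H6.TI.ax P A) (eP ▸ hi))
  · rw [eP, (c.ba.mnq mP s.m).2, ← inf_relIndex_right] at w
    rw [← inf_relIndex_right] at he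
    have : C1[y * x] ⊓ H6.TI.ax A B = H6.TI.ax A B' ⊓ H6.TI.ax A B := by
      ext i
      simp only [mem_inf, mem_centralizer_singleton_iff]
      exact and_congr_left fun hi => key i hi.1
    rw [this] at w
    omega

end St

/-- The elements `a ∈ A` with `⁅a, y⁆ ∈ I`. -/
def cm (A I : Subgroup G) (hA : ∀ a ∈ A, ∀ b ∈ A, a * b = b * a) (y : G) (hy : y ∈ N[A]) :
    Subgroup G where
  carrier := {a | a ∈ A ∧ ⁅a, y⁆ ∈ I}
  one_mem' := ⟨A.one_mem, by simp⟩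
  mul_mem' := by
    rintro a b ⟨ha, h1⟩ ⟨hb, h2⟩
    refine ⟨A.mul_mem ha hb, ?_⟩
    have e : ⁅a * b, y⁆ = a * ⁅b, y⁆ * a⁻¹ * ⁅a, y⁆ := by
      simp only [commutatorElement_def]; group
    rw [e, hA a ha _ (comm_mem hb hy), mul_inv_cancel_right]
    exact I.mul_mem h2 h1
  inv_mem' := by
    rintro a ⟨ha, h1⟩
    refine ⟨A.inv_mem ha, ?_⟩
    have e : ⁅a⁻¹, y⁆ = a⁻¹ * ⁅a, y⁆⁻¹ * a := by
      simp only [commutatorElement_def]; group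
    rw [e, hA _ (A.inv_mem ha) _ (A.inv_mem (comm_mem ha hy)), inv_mul_cancel_right]
    exact I.inv_mem h1

theorem part1 (c : C0 Ω) (be : BE Ω) (h2 : Two Ω) (hs : ¬ Sp Ω) :
    ∃ A B, Mn Ω A B ∧ hh A B = 4 ∧ qq A B = 4 := by
  classical
  simp only [Sp, not_forall] at hs
  obtain ⟨A, B, B₁, m, m1, ne1, lt1⟩ := hs
  have ex : ∃ k, ∃ B₀, Mn Ω A B₀ ∧ ax A B₀ ≠ ax A B ∧ Nat.card ↥(ax A B ⊔ ax A B₀) = k :=
    ⟨_, B₁, m1, Ne.symm ne1, rfl⟩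
  obtain ⟨B₀, m0, ne0, e0⟩ := Nat.find_spec ex
  have hmin : ∀ B₂, Mn Ω A B₂ → ax A B₂ ≠ ax A B →
      Nat.find ex ≤ Nat.card ↥(ax A B ⊔ ax A B₂) := fun B₂ a b => Nat.find_min' ex ⟨B₂, a, b, rfl⟩
  have pJ : IsPGroup 2 (ax B A) := (c.ba.two B m.r).to_le ax_le
  obtain ⟨B', T, Γ, s, T0, e1⟩ := setup c h2 (T₀ := ax B A ⊔ A) m m0 ne0
    (pJ.to_sup_of_normal_right' (c.ba.two A m.l) ax_le_norm)
    (sup_le ax_le_norm le_normalizer) le_sup_left le_sup_right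
  rw [e0] at e1
  have hA := c.ba.mul_comm A m.l
  obtain ⟨hq, q2, qh, ⟨k, hk⟩, l, hl⟩ := c.ba.hq m.toEd
  have eh : hh A B' = hh A B := (c.ba.mnq s.m' m).1
  have h0 : 0 < hh A B := Nat.card_pos
  set e := (ax A B').relIndex (ax A B) with he
  have c1 : Nat.card ↥(ax A B' ⊓ ax A B) * e = hh A B := by
    rw [he, ← inf_relIndex_right, hh, ← card_mul_index ((ax A B' ⊓ ax A B).subgroupOf (ax A B)),
      relIndex, Nat.card_congr (subgroupOfEquivOfLe inf_le_right).toEquiv]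
  have c2 : Nat.card ↥(ax A B ⊔ ax A B') = hh A B * e := by
    have := H1.card_sup_mul_card_inf_of_le_normalizer (A := ax A B) (B := ax A B')
      (H83.le_norm_of_le_cent fun i hi => mem_centralizer_iff.2 fun j hj => hA j hj.1 i hi.1)
    rw [inf_comm] at this
    change _ = hh A B * hh A B' at this
    have p : 0 < Nat.card ↥(ax A B' ⊓ ax A B) := Nat.card_pos
    apply Nat.eq_of_mul_eq_mul_right p
    rw [this, eh, mul_assoc, mul_comm e, c1]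
  have lt : Nat.card ↥(ax A B ⊔ ax A B') < Nat.card A := by
    rw [e1]
    refine (hmin B₁ m1 (Ne.symm ne1)).trans_lt (lt_of_le_of_ne (card_le_of_le
      (sup_le ax_le ax_le)) fun h => lt1 (eq_of_le_of_card_ge (sup_le ax_le ax_le) h.ge))
  have dv : Nat.card ↥(ax A B ⊔ ax A B') ∣ Nat.card A := card_dvd_of_le (sup_le ax_le ax_le)
  rw [c2, ← hq] at lt dv
  have eq1 : e < qq A B := Nat.lt_of_mul_lt_mul_left lt
  have ed : e ∣ qq A B := Nat.dvd_of_mul_dvd_mul_left h0 dv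
  have e2 : 2 * e ≤ qq A B := by
    obtain ⟨d, hd⟩ := ed
    rcases d with _ | _ | d
    · omega
    · omega
    · rw [hd]; nlinarith
  have nle : ¬ ax A B ≤ ax A B' := fun h =>
    s.ne (eq_of_le_of_card_ge h (le_of_eq eh))
  have e3 : 2 ≤ e := by
    have a : e ≠ 1 := fun h => nle (relIndex_eq_one.1 h)
    have b : e ≠ 0 := fun h => by rw [h, mul_zero] at c1; omega
    omega
  have dy := c.yy.dy m s.m' s.ne fun B₂ a b d =>
    eq_of_le_of_card_ge (sup_le le_sup_left b) (e1 ▸ hmin B₂ a d)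
  set Y := ax B' A ⊓ N[ax A B] with hY
  have c3 : Nat.card Y * N[ax A B].relIndex (ax B' A) = hh A B := by
    rw [← eh, (c.ba.card s.m'.toEd).1, hY, inf_comm, ← inf_relIndex_right, hh,
      ← card_mul_index ((N[ax A B] ⊓ ax B' A).subgroupOf (ax B' A)),
      relIndex, Nat.card_congr (subgroupOfEquivOfLe inf_le_right).toEquiv]
  have y2 : Nat.card Y ≤ 2 := by
    by_contra h
    obtain ⟨x, hx, x1, a, ha, hf⟩ := s.k3 c be (by omega) (not_le.1 h)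
    obtain ⟨b, hb, hn⟩ := s.nc c eq1 nle hx.1 (s.y hx) x1
    exact hn (s.fx c ha hf b hb)
  have hle : hh A B ≤ Nat.card Y * e := c3 ▸ Nat.mul_le_mul_left _ dy
  have h2e : hh A B = 2 * e := by nlinarith
  have q2e : qq A B = 2 * e := by omega
  obtain ⟨y, hy, y1⟩ : ∃ y ∈ Y, y ≠ 1 := by
    by_contra h
    push Not at h
    have : Y = ⊥ := (eq_bot_iff_forall _).2 h
    rw [this, card_bot] at hle; omega
  have k1 := be.k1 Γ s.clq A s.mA B s.mB m.ne (by omega) y hy.1.2 (s.nor y (s.y hy))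
    (c.sq B' s.m'.r y hy.1.1) (s.nc c eq1 nle hy.1 (s.y hy) y1)
  have sub : ax A B ⊔ ax A B' ≤ cm A (ax A B) hA y hy.1.2 := by
    refine sup_le (fun i hi => ⟨hi.1, comm_mem hi hy.2⟩) fun i hi => ⟨hi.1, ?_⟩
    rw [commutatorElement_eq_one_iff_mul_comm.2 (c.ba.comm A m.l B' s.m'.r s.m'.ne i hi y hy.1)]
    exact one_mem _
  have c4 := card_le_of_le sub
  change _ ≤ {a | a ∈ A ∧ ⁅a, y⁆ ∈ ax A B}.ncard at c4
  rw [c2] at c4
  have c5 := Nat.pow_le_pow_left c4 2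
  rw [k1, ← hq, h2e, q2e] at c5
  have : e ≤ 2 := by
    by_contra h
    have : 0 < e * e * e := by positivity
    nlinarith
  exact ⟨A, B, m, by omega, by omega⟩

theorem part2 (c : C0 Ω) (be : BE Ω) (h2 : Two Ω) (sp : Sp Ω)
    (hq : ∀ A B, Mn Ω A B → 4 ≤ qq A B ∧ qq A B < hh A B) : Good Ω := by
  intro A B B'' m m'' e ed
  obtain ⟨B₀, m0, ne0⟩ := h2 A B m
  have p1 := (c.l6.pp m m'' e ed).1
  have p2 := (c.l6.pp m'' m e.symm (c.ba.symm ed)).1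
  have pJ : IsPGroup 2 (ax B A) := (c.ba.two B m.r).to_le ax_le
  have pJ' : IsPGroup 2 (ax B'' A) := (c.ba.two B'' m''.r).to_le ax_le
  have pW : IsPGroup 2 ↥(ax B A ⊔ ax B'' A) :=
    pJ.to_sup_of_normal_right' pJ' (H83.le_norm_of_le_cent fun i hi =>
      mem_centralizer_iff.2 fun j hj =>
        (c.ba.comm B m.r B'' m''.r ed.ne i (p1 ▸ hi) j (p2 ▸ hj)).symm)
  have nW : ax B A ⊔ ax B'' A ≤ N[A] := sup_le ax_le_norm ax_le_norm
  obtain ⟨B', T, Γ, s, T0, -⟩ := setup c h2 (T₀ := (ax B A ⊔ ax B'' A) ⊔ A) m m0 ne0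
    (pW.to_sup_of_normal_right' (c.ba.two A m.l) nW) (sup_le nW le_normalizer)
    (le_sup_left.trans le_sup_left) le_sup_right
  obtain ⟨q4, qh⟩ := hq A B m
  have hY := (c.yy.ycard sp m s.m' s.ne).2.2 qh
  obtain ⟨x, hx, x1, a, ha, hf⟩ := s.k3 c be q4 (by omega)
  have gT : x * a ∈ T := T.mul_mem (s.y hx) (s.lA ha)
  refine c.l6.fix m m'' e ed (x * a) (s.nA gT) (hf B s.mB)
    (hf B'' (s.mem B'' m'' ((le_sup_right.trans le_sup_left).trans T0)))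
    (H83.isPGroup_iff.1 s.p _ gT) (fun b hb => ?_) (c.yy.yidx sp m s.m' s.ne x hx.1 x1 a ha)
  rw [comm_mul (c.ba.mul_comm A m.l) x hb ha]
  exact s.fx c ha hf b hb

theorem du : DUStmt.{u} := by
  intro G _ _ Ω c be h2
  refine ⟨?_, part2 c be h2⟩
  by_cases sp : Sp Ω
  · exact Or.inl sp
  obtain ⟨A, B, m, h4, q4⟩ := part1 c be h2 sp
  refine Or.inr fun P Q ed => ?_
  have h1 := m.max P Q ed
  obtain ⟨g, hg⟩ := c.trans A m.l P ed.l
  have h3 := (c.ba.hq m.toEd).1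
  obtain ⟨h5, -, h6, -⟩ := c.ba.hq ed
  rw [← hg, H83.card_cj, ← h3, h4, q4, hg] at h5
  rw [h4] at h1
  have : hh P Q = 4 := by
    by_contra h
    have : hh P Q ≤ 3 := by omega
    nlinarith
  rw [this] at h5
  exact ⟨this, by omega⟩

end Cfsg.Agent.H44.TiDu
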