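import Cfsg.Agent.H42.VpDefs
import Cfsg.Agent.H3.Cores

set_option autoImplicit false

namespace Cfsg.Agent.H44.VpF1

open Subgroup Cfsg

universe u

theorem f1 : Cfsg.Agent.H42.Vp.F1Stmt.{u} := by
  intro G _ _ p hp K _ hK ⟨k, hk⟩ hne hL ⟨x, hx, hxc⟩
  have : Fact p.Prime := ⟨hp⟩
  have h1 : IsPGroup p (center G) := by
    intro z
    refine ⟨k, Subtype.ext ?_⟩
    by_contra h
    have hm : (z : G) ^ p ^ k ∈ K := hk ▸ K.pow_index_mem (z : G)
    exact hxc (hL x hx _ hm h (mem_center_iff.mp ((center G).pow_mem z.2 _) x))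
  refine ⟨h1, le_antisymm (le_sSup ⟨inferInstance, h1⟩) fun y hy => ?_⟩
  have hP := H3.pCore_isPGroup p G
  have hN : (pCore p G).Normal := inferInstance
  obtain ⟨a, ha⟩ := hP.exists_card_eq
  have hd : Disjoint (pCore p G) K := by
    rw [disjoint_iff, ← card_eq_one]
    have d1 : Nat.card (pCore p G ⊓ K : Subgroup G) ∣ p ^ a := ha ▸ card_dvd_of_le inf_le_left
    have d2 : Nat.card (pCore p G ⊓ K : Subgroup G) ∣ Nat.card K := card_dvd_of_le inf_le_right
    exact Nat.eq_one_of_dvd_coprimes (hK.pow_right a) d2 d1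
  obtain ⟨⟨c, hc⟩, hc1⟩ := ne_bot_iff_exists_ne_one.mp hne
  obtain ⟨m, hm⟩ := hP ⟨y, hy⟩
  exact hL y ⟨m, congrArg Subtype.val hm⟩ c hc (fun h => hc1 (Subtype.ext h))
    (commute_of_normal_of_disjoint _ _ hN inferInstance hd y c hy hc)

end Cfsg.Agent.H44.VpF1
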